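import Mathlib
import Cfsg.Prelude
import Cfsg.Agent.Lib.Helper1.ClassSize
import Cfsg.Agent.Lib.Helper24.KleinBlock
import Cfsg.Agent.Lib.Lead.Basic
import Cfsg.Agent.Lib.Lead.ZS8
import Cfsg.Agent.Lib.Helper24.SectionSum
import Cfsg.Agent.S0202
import Cfsg.Agent.S0203

set_option autoImplicit false
set_option linter.unusedSimpArgs false

namespace Cfsg.Agent.Lib.Helper1

open Subgroup Cfsg

section localcount

variable {H : Type*} [Group H] [Finite H]

theorem ncard_isConj_eq_index (x : H) : {y : H | IsConj x y}.ncard = (centralizer ({x} : Set H)).index := by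
  rw [← ncard_conjClass_eq_index]
  congr 1

/-- the retraction of a group with a central involution and Sylow 2-subgroup of order 4, exponent 2 -/
theorem exists_retraction (P : Sylow 2 H) (hP4 : Nat.card P = 4) (hexp : ∀ x : P, x * x = 1)
    (J : H) (hJ2 : orderOf J = 2) (hJc : ∀ h, J * h = h * J) :
    ∃ φ : H →* (P : Subgroup H), (∀ x : (P : Subgroup H), φ x = x) ∧
      (∀ x : H, φ x = 1 ↔ ¬ 2 ∣ orderOf x) := by
  haveI : Fact (Nat.Prime 2) := ⟨Nat.prime_two⟩
  have hNC := Cfsg.Agent.Lib.Helper24.normalizer_le_centralizer_of_card_four P hP4 hJc hJ2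
  refine ⟨MonoidHom.transferSylow P hNC, ?_, ?_⟩
  · intro x
    rw [MonoidHom.transferSylow_eq_pow P hNC x x.2]
    apply Subtype.ext
    show (x : H) ^ (P : Subgroup H).index = x
    have hodd : Odd (P : Subgroup H).index := by
      rw [← Nat.not_even_iff_odd, even_iff_two_dvd]
      exact P.not_dvd_index
    obtain ⟨k, hk⟩ := hodd
    have hx2 : (x : H) ^ 2 = 1 := by
      rw [pow_two]; exact congrArg Subtype.val (hexp x)
    rw [hk, pow_succ, pow_mul, hx2, one_pow, one_mul]
  · intro x
    constructor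
    · intro hx h2
      have hker : x ∈ (MonoidHom.transferSylow P hNC).ker := hx
      have h1 : orderOf x ∣ Nat.card (MonoidHom.transferSylow P hNC).ker := by
        have := orderOf_dvd_natCard (⟨x, hker⟩ : (MonoidHom.transferSylow P hNC).ker)
        rwa [Subgroup.orderOf_mk] at this
      exact MonoidHom.not_dvd_card_ker_transferSylow P hNC (dvd_trans h2 h1)
    · intro hx
      have h1 : orderOf (MonoidHom.transferSylow P hNC x) ∣ orderOf x := orderOf_map_dvd _ x
      obtain ⟨k, hk⟩ := IsPGroup.iff_orderOf.mp P.2 (MonoidHom.transferSylow P hNC x)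
      rw [← orderOf_eq_one_iff, hk]
      cases k with
      | zero => simp
      | succ k =>
        exfalso
        apply hx
        rw [hk] at h1
        exact dvd_trans (dvd_pow_self 2 (Nat.succ_ne_zero k)) h1

theorem exists_conj_mem_sylow (P : Sylow 2 H) (g : H) (hg : orderOf g = 2) :
    ∃ x : H, x * g * x⁻¹ ∈ P := by
  haveI : Fact (Nat.Prime 2) := ⟨Nat.prime_two⟩
  have h2 : IsPGroup 2 (zpowers g) := by
    apply IsPGroup.of_card (n := 1)
    rw [Nat.card_zpowers, hg, pow_one]
  obtain ⟨Q, hQ⟩ := h2.exists_le_sylow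
  obtain ⟨x, hx⟩ := MulAction.exists_smul_eq H Q P
  refine ⟨x, ?_⟩
  rw [← hx, Cfsg.Agent.Lib.Lead.mem_sylow_smul_iff]
  have : x⁻¹ * (x * g * x⁻¹) * x = g := by group
  rw [this]
  exact hQ (mem_zpowers g)

theorem local_count (P : Sylow 2 H) (hP4 : Nat.card P = 4) (hexp : ∀ x : P, x * x = 1)
    (J : H) (hJ2 : orderOf J = 2) (hJc : ∀ h, J * h = h * J) :
    {p : H × H | orderOf p.1 = 2 ∧ orderOf p.2 = 2 ∧ ¬ 2 ∣ orderOf (J * (p.1 * p.2))}.ncard
      * (Nat.card (centralizer ((P : Subgroup H) : Set H))) ^ 2 = 2 * (Nat.card H) ^ 2 := by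
  classical
  haveI : Fact (Nat.Prime 2) := ⟨Nat.prime_two⟩
  obtain ⟨φ, hφP, hφ1⟩ := exists_retraction P hP4 hexp J hJ2 hJc
  have hcomm : ∀ a b : P, a * b = b * a :=
    IsPGroup.commutative_of_card_eq_prime_sq (p := 2) (hP4.trans (by norm_num))
  have hJP : J ∈ (P : Subgroup H) := by
    apply Cfsg.Agent.Lib.Helper24.mem_sylow_of_mem_normalizer P ⟨1, by rw [hJ2, pow_one]⟩
    rw [mem_normalizer_iff]
    intro h
    rw [hJc h, mul_inv_cancel_right]
  -- conjugation invariance of φ
  have hφconj : ∀ x g : H, φ (x * g * x⁻¹) = φ g := by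
    intro x g
    rw [map_mul, map_mul, map_inv, hcomm (φ x) (φ g), mul_inv_cancel_right]
  have hφinv : ∀ g : H, orderOf g = 2 → IsConj ((φ g : (P : Subgroup H)) : H) g := by
    intro g hg
    obtain ⟨x, hx⟩ := exists_conj_mem_sylow P g hg
    have h1 := hφP ⟨_, hx⟩
    have h2 : φ (x * g * x⁻¹) = ⟨_, hx⟩ := h1
    rw [hφconj] at h2
    rw [h2]
    exact (isConj_iff.mpr ⟨x, rfl⟩).symm
  -- pick a
  haveI : Fintype (P : Subgroup H) := Fintype.ofFinite _
  have h2lt : 2 < Fintype.card (P : Subgroup H) := by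
    rw [← Nat.card_eq_fintype_card]
    have : Nat.card (P : Subgroup H) = 4 := hP4
    omega
  obtain ⟨a, ha1, haJ⟩ : ∃ a : (P : Subgroup H), a ≠ 1 ∧ a ≠ ⟨J, hJP⟩ := by
    obtain ⟨x, y, w, hxy, hxw, hyw⟩ := Fintype.two_lt_card_iff.mp h2lt
    by_contra hcon
    push Not at hcon
    have hx := hcon x
    have hy := hcon y
    have hw := hcon w
    by_cases h1 : x = 1
    · by_cases h2 : y = 1
      · exact hxy (h1.trans h2.symm)
      · by_cases h3 : w = 1
        · exact hxw (h1.trans h3.symm)
        · exact hyw ((hy h2).trans (hw h3).symm)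
    · by_cases h2 : y = 1
      · by_cases h3 : w = 1
        · exact hyw (h2.trans h3.symm)
        · exact hxw ((hx h1).trans (hw h3).symm)
      · exact hxy ((hx h1).trans (hy h2).symm)
  set Jp : (P : Subgroup H) := ⟨J, hJP⟩ with hJp
  have hJp1 : Jp ≠ 1 := by
    intro h
    have : J = 1 := congrArg Subtype.val h
    rw [this, orderOf_one] at hJ2
    omega
  -- elements of P
  have hPel : ∀ u : (P : Subgroup H), u = 1 ∨ u = Jp ∨ u = a ∨ u = Jp * a := by
    intro u
    by_contra hcon
    push Not at hcon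
    obtain ⟨h1, h2, h3, h4⟩ := hcon
    have hJa1 : Jp * a ≠ 1 := by
      intro h
      apply haJ
      have := hexp a
      have h5 : Jp * a = a * a := by rw [h, this]
      exact (mul_right_cancel h5).symm
    have hJaJ : Jp * a ≠ Jp := by
      intro h
      exact ha1 (mul_left_cancel (h.trans (mul_one Jp).symm))
    have hJaa : Jp * a ≠ a := by
      intro h
      exact hJp1 (mul_right_cancel (h.trans (one_mul a).symm))
    have hcard : ({1, Jp, a, Jp * a, u} : Finset (P : Subgroup H)).card = 5 := by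
      rw [Finset.card_insert_of_notMem, Finset.card_insert_of_notMem, Finset.card_insert_of_notMem,
        Finset.card_insert_of_notMem, Finset.card_singleton]
      · simp only [Finset.mem_singleton]; exact fun h => h4 h.symm
      · simp only [Finset.mem_insert, Finset.mem_singleton, not_or]
        exact ⟨fun h => hJaa h.symm, fun h => h3 h.symm⟩
      · simp only [Finset.mem_insert, Finset.mem_singleton, not_or]
        exact ⟨fun h => haJ h.symm, fun h => hJaJ h.symm, fun h => h2 h.symm⟩
      · simp only [Finset.mem_insert, Finset.mem_singleton, not_or]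
        exact ⟨fun h => hJp1 h.symm, fun h => ha1 h.symm, fun h => hJa1 h.symm, fun h => h1 h.symm⟩
    have hle := Finset.card_le_univ ({1, Jp, a, Jp * a, u} : Finset (P : Subgroup H))
    rw [hcard, ← Nat.card_eq_fintype_card] at hle
    have : Nat.card (P : Subgroup H) = 4 := hP4
    omega
  have hJJ : Jp * Jp = 1 := hexp Jp
  have haa : a * a = 1 := hexp a
  have hφJ : φ J = Jp := hφP Jp
  have hφne : ∀ g : H, orderOf g = 2 → φ g ≠ 1 := by
    intro g hg h
    exact (hφ1 g).mp h (by rw [hg])
  have hord : ∀ u : (P : Subgroup H), u ≠ 1 → orderOf (u : H) = 2 := by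
    intro u hu
    rw [Subgroup.orderOf_coe]
    exact orderOf_eq_prime (by rw [pow_two]; exact hexp u) hu
  have hJa1 : Jp * a ≠ 1 := by
    intro h
    apply haJ
    have h5 : Jp * a = a * a := by rw [h, haa]
    exact (mul_right_cancel h5).symm
  have hJaa : Jp * a ≠ a := by
    intro h
    exact hJp1 (mul_right_cancel (h.trans (one_mul a).symm))
  have hφcls : ∀ (u : (P : Subgroup H)) (g : H), IsConj (u : H) g → φ g = u := by
    intro u g hg
    obtain ⟨x, rfl⟩ := isConj_iff.mp hg
    rw [hφconj, hφP]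
  have hordcls : ∀ (u : (P : Subgroup H)) (g : H), u ≠ 1 → IsConj (u : H) g → orderOf g = 2 := by
    intro u g hu hg
    obtain ⟨x, rfl⟩ := isConj_iff.mp hg
    have := (MulAut.conj x).orderOf_eq (u : H)
    rw [MulAut.conj_apply] at this
    rw [this, hord u hu]
  have hset : {p : H × H | orderOf p.1 = 2 ∧ orderOf p.2 = 2 ∧ ¬ 2 ∣ orderOf (J * (p.1 * p.2))}
      = {y : H | IsConj (a : H) y} ×ˢ {y : H | IsConj ((Jp * a : (P : Subgroup H)) : H) y} ∪
        {y : H | IsConj ((Jp * a : (P : Subgroup H)) : H) y} ×ˢ {y : H | IsConj (a : H) y} := by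
    ext ⟨g, h⟩
    simp only [Set.mem_setOf_eq, Set.mem_union, Set.mem_prod]
    constructor
    · rintro ⟨hg, hh, hodd⟩
      have h1 := (hφ1 _).mpr hodd
      rw [map_mul, map_mul, hφJ] at h1
      have hgc := hφinv g hg
      have hhc := hφinv h hh
      rcases hPel (φ g) with hu | hu | hu | hu
      · exact absurd hu (hφne g hg)
      · exfalso
        rw [hu, ← mul_assoc, hJJ, one_mul] at h1
        exact hφne h hh h1
      · left
        have hv : φ h = Jp * a := by
          rw [hu, ← mul_assoc] at h1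
          have h2 : (Jp * a) * (Jp * a) = 1 := hexp _
          exact mul_left_cancel (h1.trans h2.symm)
        rw [hu] at hgc
        rw [hv] at hhc
        exact ⟨hgc, hhc⟩
      · right
        have hv : φ h = a := by
          rw [hu, ← mul_assoc, ← mul_assoc, hJJ, one_mul] at h1
          exact mul_left_cancel (h1.trans haa.symm)
        rw [hu] at hgc
        rw [hv] at hhc
        exact ⟨hgc, hhc⟩
    · rintro (⟨hg, hh⟩ | ⟨hg, hh⟩)
      · refine ⟨hordcls a g ha1 hg, hordcls _ h hJa1 hh, ?_⟩
        rw [← hφ1, map_mul, map_mul, hφJ, hφcls a g hg, hφcls _ h hh, ← mul_assoc]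
        exact hexp _
      · refine ⟨hordcls _ g hJa1 hg, hordcls a h ha1 hh, ?_⟩
        rw [← hφ1, map_mul, map_mul, hφJ, hφcls a h hh, hφcls _ g hg, mul_assoc Jp a a, haa, mul_one]
        exact hJJ
  have hdisj : Disjoint
      ({y : H | IsConj (a : H) y} ×ˢ {y : H | IsConj ((Jp * a : (P : Subgroup H)) : H) y})
      ({y : H | IsConj ((Jp * a : (P : Subgroup H)) : H) y} ×ˢ {y : H | IsConj (a : H) y}) := by
    rw [Set.disjoint_left]
    rintro ⟨g, h⟩ ⟨hg, -⟩ ⟨hg', -⟩
    exact hJaa ((hφcls _ g hg').symm.trans (hφcls a g hg))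
  have hcent : ∀ u : (P : Subgroup H), (u = a ∨ u = Jp * a) →
      centralizer ({(u : H)} : Set H) = centralizer ((P : Subgroup H) : Set H) := by
    intro u hu
    apply le_antisymm
    · intro x hx
      rw [mem_centralizer_singleton_iff] at hx
      have hxa : x * (a : H) = (a : H) * x := by
        rcases hu with rfl | rfl
        · exact hx
        · have h1 : x * (J * (a : H)) = (J * (a : H)) * x := hx
          have h2 : J * (x * (a : H)) = J * ((a : H) * x) := by
            rw [← mul_assoc, hJc x, mul_assoc, h1, mul_assoc]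
          exact mul_left_cancel h2
      rw [mem_centralizer_iff]
      intro w hw
      rcases hPel ⟨w, hw⟩ with h | h | h | h
      · have : w = 1 := congrArg Subtype.val h
        rw [this]; simp
      · have : w = J := congrArg Subtype.val h
        rw [this]; exact hJc x
      · have : w = a := congrArg Subtype.val h
        rw [this]; exact hxa.symm
      · have : w = J * a := congrArg Subtype.val h
        rw [this, mul_assoc, ← hxa, ← mul_assoc, hJc x, mul_assoc]
    · apply centralizer_le
      simp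
  rw [hset, Set.ncard_union_eq hdisj (Set.toFinite _) (Set.toFinite _), Set.ncard_prod, Set.ncard_prod,
    ncard_isConj_eq_index, ncard_isConj_eq_index, hcent a (Or.inl rfl), hcent _ (Or.inr rfl)]
  have := (centralizer ((P : Subgroup H) : Set H)).index_mul_card
  rw [← this]
  ring

end localcount

section transferG

variable {G : Type*} [Group G] [Finite G]

theorem invol_mul_self {g : G} (hg : orderOf g = 2) : g * g = 1 := by
  rw [← pow_two, ← hg, pow_orderOf_eq_one]

theorem invol_inv' {g : G} (hg : orderOf g = 2) : g⁻¹ = g :=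
  inv_eq_of_mul_eq_one_left (invol_mul_self hg)

/-- if the 2-part of a product of two involutions is `J`, both commute with `J`. -/
theorem commute_of_isPPart_mul {g h J : G} (hg : orderOf g = 2) (hh : orderOf h = 2)
    (hJ2 : orderOf J = 2) (hp : IsPPart 2 (g * h) J) : g * J = J * g ∧ h * J = J * h := by
  obtain ⟨y, hy, hc, -, hodd⟩ := hp
  have hodd' : Odd (orderOf y) := by
    rw [← Nat.not_even_iff_odd, even_iff_two_dvd]; exact hodd
  obtain ⟨k, hk⟩ := hodd'
  have hJpow : (g * h) ^ (orderOf y) = J := by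
    rw [← hy, hc.mul_pow, pow_orderOf_eq_one, mul_one, hk, pow_succ, pow_mul, pow_two,
      invol_mul_self hJ2, one_pow, one_mul]
  have hgi := invol_inv' hg
  have hhi := invol_inv' hh
  have hJi := invol_inv' hJ2
  have h1 : g * (g * h) * g⁻¹ = (g * h)⁻¹ := by
    rw [mul_inv_rev, hgi, hhi, ← mul_assoc, invol_mul_self hg, one_mul]
  have h2 : h * (g * h) * h⁻¹ = (g * h)⁻¹ := by
    rw [mul_inv_rev, hgi, hhi, mul_assoc, mul_assoc, invol_mul_self hh, mul_one]
  constructor
  · have : g * J * g⁻¹ = J := by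
      rw [← hJpow, ← conj_pow, h1, inv_pow, hJpow, hJi]
    exact mul_inv_eq_iff_eq_mul.mp this
  · have : h * J * h⁻¹ = J := by
      rw [← hJpow, ← conj_pow, h2, inv_pow, hJpow, hJi]
    exact mul_inv_eq_iff_eq_mul.mp this

theorem local_count_G (P : Sylow 2 G) (hP4 : Nat.card P = 4) (hexp : ∀ x : P, x * x = 1)
    (J : G) (hJP : J ∈ P) (hJ2 : orderOf J = 2) :
    {p : G × G | orderOf p.1 = 2 ∧ orderOf p.2 = 2 ∧ IsPPart 2 (p.1 * p.2) J}.ncard
      * (Nat.card (centralizer ((P : Subgroup G) : Set G))) ^ 2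
      = 2 * (Nat.card (centralizer ({J} : Set G))) ^ 2 := by
  haveI : Fact (Nat.Prime 2) := ⟨Nat.prime_two⟩
  have hcomm : ∀ a b : P, a * b = b * a :=
    IsPGroup.commutative_of_card_eq_prime_sq (p := 2) (hP4.trans (by norm_num))
  have hPH : (P : Subgroup G) ≤ centralizer ({J} : Set G) := by
    intro x hx
    rw [mem_centralizer_singleton_iff]
    exact congrArg Subtype.val (hcomm ⟨x, hx⟩ ⟨J, hJP⟩)
  have hJH : J ∈ centralizer ({J} : Set G) := hPH hJP
  have hJi := invol_inv' hJ2
  have key := local_count (P.subtype hPH)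
    (by
      show Nat.card ((P.subtype hPH : Sylow 2 _) : Subgroup (centralizer ({J} : Set G))) = 4
      rw [Sylow.coe_subtype, card_subgroupOf_of_le hPH]; exact hP4)
    (by
      rintro ⟨x, hx⟩
      have hx' : (x : G) ∈ (P : Subgroup G) := by
        rw [← SetLike.mem_coe, ← Sylow.coe_coe, Sylow.coe_subtype] at hx
        exact hx
      apply Subtype.ext
      apply Subtype.ext
      have := congrArg Subtype.val (hexp ⟨x, hx'⟩)
      exact this)
    (⟨J, hJH⟩ : centralizer ({J} : Set G))
    (by rw [Subgroup.orderOf_mk]; exact hJ2)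
    (by
      intro h
      apply Subtype.ext
      exact (mem_centralizer_singleton_iff.mp h.2).symm)
  have hc : Nat.card (centralizer (((P.subtype hPH : Sylow 2 _) :
      Subgroup (centralizer ({J} : Set G))) : Set (centralizer ({J} : Set G))))
      = Nat.card (centralizer ((P : Subgroup G) : Set G)) := by
    have hle : centralizer ((P : Subgroup G) : Set G) ≤ centralizer ({J} : Set G) :=
      centralizer_le (by simpa using hJP)
    rw [← card_subgroupOf_of_le hle]
    congr 2
    ext x
    rw [mem_centralizer_iff, mem_subgroupOf, mem_centralizer_iff]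
    constructor
    · intro h w hw
      have := h ⟨w, hPH hw⟩ (by
        rw [SetLike.mem_coe, Sylow.coe_subtype]; exact hw)
      exact congrArg Subtype.val this
    · intro h w hw
      apply Subtype.ext
      apply h
      rw [SetLike.mem_coe, Sylow.coe_subtype] at hw
      exact hw
  rw [hc] at key
  rw [← key]
  congr 1
  have hinj : Function.Injective (Prod.map (Subtype.val : centralizer ({J} : Set G) → G)
      (Subtype.val : centralizer ({J} : Set G) → G)) :=
    Function.Injective.prodMap Subtype.val_injective Subtype.val_injective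
  rw [← Set.ncard_image_of_injective _ hinj]
  congr 1
  ext ⟨g, h⟩
  simp only [Set.mem_setOf_eq, Set.mem_image, Prod.exists, Prod.map_apply, Prod.mk.injEq]
  constructor
  · rintro ⟨hg, hh, hp⟩
    obtain ⟨h1, h2⟩ := commute_of_isPPart_mul hg hh hJ2 hp
    refine ⟨⟨g, mem_centralizer_singleton_iff.mpr h1⟩, ⟨h, mem_centralizer_singleton_iff.mpr h2⟩,
      ⟨?_, ?_, ?_⟩, rfl, rfl⟩
    · rw [Subgroup.orderOf_mk]; exact hg
    · rw [Subgroup.orderOf_mk]; exact hh
    · obtain ⟨y, hy, -, -, hodd⟩ := hp
      have : J * (g * h) = y := by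
        rw [← hy, ← mul_assoc, invol_mul_self hJ2, one_mul]
      rw [← Subgroup.orderOf_coe]
      show ¬ 2 ∣ orderOf (J * (g * h))
      rw [this]; exact hodd
  · rintro ⟨g', h', ⟨hg, hh, hodd⟩, rfl, rfl⟩
    refine ⟨by rw [Subgroup.orderOf_coe]; exact hg, by rw [Subgroup.orderOf_coe]; exact hh, ?_⟩
    refine ⟨J * ((g' : G) * (h' : G)), ?_, ?_, ⟨1, by rw [hJ2, pow_one]⟩, ?_⟩
    · rw [← mul_assoc, invol_mul_self hJ2, one_mul]
    · have h1 := mem_centralizer_singleton_iff.mp g'.2
      have h2 := mem_centralizer_singleton_iff.mp h'.2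
      show J * (J * ((g' : G) * (h' : G))) = J * ((g' : G) * (h' : G)) * J
      rw [mul_assoc J ((g' : G) * (h' : G)) J, mul_assoc (g' : G), h2, ← mul_assoc (g' : G), h1, mul_assoc]
    · rw [← Subgroup.orderOf_coe] at hodd
      exact hodd

end transferG

section globalcount

open Cfsg.Agent.Lib.Helper24 Cfsg.Agent.Lib.Helper7 Cfsg.Agent.Lib.Lead

universe u
variable {G : Type u} [Group G] [Fintype G]

/-- the indicator of 2-singular elements as a sum over involutions. -/
theorem singular_indicator (hK : KleinHyp G) (J : G) (hJ2 : orderOf J = 2) [DecidablePred (IsConj J)]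
    [∀ w c : G, Decidable (IsPPart 2 w c)] (w : G) :
    (if 2 ∣ orderOf w then (1 : ℂ) else 0)
      = ∑ c : G, (if IsConj J c then (1 : ℂ) else 0) * (if IsPPart 2 w c then (1 : ℂ) else 0) := by
  classical
  by_cases hw : 2 ∣ orderOf w
  · rw [if_pos hw]
    obtain ⟨c, hc⟩ := exists_pPart Nat.prime_two w
    have hc1 : c ≠ 1 := by
      rintro rfl
      exact (isPPart_one_iff.mp hc) hw
    have hc2 : orderOf c = 2 := (hK.two_elt hc.choose_spec.2.2.1 hc1).1
    rw [Finset.sum_eq_single c]
    · rw [if_pos (hK.hone J c hJ2 hc2), if_pos hc, one_mul]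
    · intro b _ hb
      rw [if_neg (fun h : IsPPart 2 w b => hb (isPPart_unique Nat.prime_two h hc)), mul_zero]
    · intro h; exact absurd (Finset.mem_univ c) h
  · rw [if_neg hw]
    symm
    apply Finset.sum_eq_zero
    intro c _
    by_cases hc : IsPPart 2 w c
    · have h1 : c = 1 := isPPart_unique Nat.prime_two hc (isPPart_one_iff.mpr hw)
      rw [if_neg, zero_mul]
      intro hJc
      rw [h1] at hJc
      have : J = 1 := isConj_one_left.mp hJc
      rw [this, orderOf_one] at hJ2
      omega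
    · rw [if_neg hc, mul_zero]

theorem clsL_count (hK : KleinHyp G) (J : G) (hJ2 : orderOf J = 2) [DecidablePred (IsConj J)] :
    clsL J (fun w => if 2 ∣ orderOf w then (4 : ℂ) else 0)
      = 4 * ((centralizer ({J} : Set G)).index : ℂ) *
        ({p : G × G | orderOf p.1 = 2 ∧ orderOf p.2 = 2 ∧ IsPPart 2 (p.1 * p.2) J}.ncard : ℂ) := by
  classical
  set Nf : G → ℂ := fun c => ∑ h : G, ∑ g : G, (if IsConj J h then (1 : ℂ) else 0) *
      ((if IsConj J g then (1 : ℂ) else 0) * (if IsPPart 2 (g * h) c then (1 : ℂ) else 0)) with hNf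
  have hcf : IsClassFunction G Nf := by
    intro c x
    simp only [hNf]
    rw [← Equiv.sum_comp (MulAut.conj x).toEquiv]
    apply Finset.sum_congr rfl
    intro h _
    rw [← Equiv.sum_comp (MulAut.conj x).toEquiv]
    apply Finset.sum_congr rfl
    intro g _
    simp only [MulEquiv.toEquiv_eq_coe, MulEquiv.coe_toEquiv, MulAut.conj_apply]
    have e1 : ∀ y : G, IsConj J (x * y * x⁻¹) ↔ IsConj J y := by
      intro y
      have : IsConj y (x * y * x⁻¹) := isConj_iff.mpr ⟨x, rfl⟩
      exact ⟨fun h => h.trans this.symm, fun h => h.trans this⟩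
    have e2 : IsPPart 2 (x * g * x⁻¹ * (x * h * x⁻¹)) (x * c * x⁻¹) ↔ IsPPart 2 (g * h) c := by
      have : x * g * x⁻¹ * (x * h * x⁻¹) = x * (g * h) * x⁻¹ := by group
      rw [this]
      exact Cfsg.Agent.Lib.Helper24.isPPart_conj_iff x
    simp only [e1, e2]
  have h1 : clsL J (fun w => if 2 ∣ orderOf w then (4 : ℂ) else 0)
      = 4 * ∑ c : G, (if IsConj J c then (1 : ℂ) else 0) * Nf c := by
    unfold clsL
    have e : ∀ w : G, (if 2 ∣ orderOf w then (4 : ℂ) else 0)
        = 4 * ∑ c : G, (if IsConj J c then (1 : ℂ) else 0) * (if IsPPart 2 w c then (1 : ℂ) else 0) := by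
      intro w
      rw [← singular_indicator hK J hJ2 w]
      split_ifs <;> simp
    simp only [e, hNf, Finset.mul_sum]
    rw [Finset.sum_comm]
    conv_lhs =>
      enter [2, g]
      rw [Finset.sum_comm]
    rw [Finset.sum_comm]
    apply Finset.sum_congr rfl
    intro c _
    rw [Finset.sum_comm]
    apply Finset.sum_congr rfl
    intro h _
    apply Finset.sum_congr rfl
    intro g _
    ring
  rw [h1, sum_isConj_mul J hcf, ← mul_assoc]
  congr 1
  -- Nf J = ncard
  simp only [hNf]
  have hiff : ∀ y : G, IsConj J y ↔ orderOf y = 2 := by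
    intro y
    constructor
    · intro h
      obtain ⟨x, rfl⟩ := isConj_iff.mp h
      have := (MulAut.conj x).orderOf_eq J
      rw [MulAut.conj_apply] at this
      rw [this, hJ2]
    · intro h
      exact hK.hone J y hJ2 h
  rw [Set.ncard_eq_toFinset_card', Set.toFinset_setOf, Finset.card_filter, Nat.cast_sum,
    Fintype.sum_prod_type_right]
  apply Finset.sum_congr rfl
  intro h _
  apply Finset.sum_congr rfl
  intro g _
  simp only [hiff]
  by_cases a1 : orderOf h = 2 <;> by_cases a2 : orderOf g = 2 <;>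
    by_cases a3 : IsPPart 2 (g * h) J <;> simp [a1, a2, a3]

theorem clsL_finset_sum (t : G) [DecidablePred (IsConj t)] {ι : Type*} (s : Finset ι) (c : ι → ℂ)
    (F : ι → G → ℂ) :
    clsL t (fun w => ∑ i ∈ s, c i * F i w) = ∑ i ∈ s, c i * clsL t (F i) := by
  unfold clsL
  simp only [Finset.mul_sum]
  have e : ∀ h : G, ∑ g : G, ∑ i ∈ s, (if IsConj t h then (1 : ℂ) else 0) *
      ((if IsConj t g then (1 : ℂ) else 0) * (c i * F i (g * h)))
      = ∑ i ∈ s, ∑ g : G, (if IsConj t h then (1 : ℂ) else 0) *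
      ((if IsConj t g then (1 : ℂ) else 0) * (c i * F i (g * h))) := fun h => Finset.sum_comm
  simp only [e]
  rw [Finset.sum_comm]
  apply Finset.sum_congr rfl
  intro i _
  apply Finset.sum_congr rfl
  intro h _
  apply Finset.sum_congr rfl
  intro g _
  ring

theorem klein_class_identity [Fintype (IrrCharacter G)] {M : Ideal AlgInt} (hK : KleinHyp G)
    (hM : IsPModular 2 M) {n : IrrCharacter G → ℤ}
    (hn : ∀ (χ : IrrCharacter G) (z : G), orderOf z = 2 → (χ : G → ℂ) z = (n χ : ℂ))
    (J : G) (hJ2 : orderOf J = 2) [DecidablePred (· ∈ principalBlock M G)] :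
    ((centralizer ({J} : Set G)).index : ℂ) ^ 2 *
        ∑ χ ∈ Finset.univ.filter (· ∈ principalBlock M G), (n χ : ℂ) / (χ : G → ℂ) 1
      = 4 * ((centralizer ({J} : Set G)).index : ℂ) *
        ({p : G × G | orderOf p.1 = 2 ∧ orderOf p.2 = 2 ∧ IsPPart 2 (p.1 * p.2) J}.ncard : ℂ) := by
  classical
  rw [← clsL_count hK J hJ2]
  have h1 : (fun w : G => if 2 ∣ orderOf w then (4 : ℂ) else 0)
      = fun w => ∑ χ ∈ Finset.univ.filter (· ∈ principalBlock M G), (n χ : ℂ) * (χ : G → ℂ) w := by
    funext w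
    have := hK.theta hM hn w
    convert this.symm
  rw [h1, clsL_finset_sum, Finset.mul_sum]
  apply Finset.sum_congr rfl
  intro χ hχ
  rw [clsL_sq χ.2 J, hn χ J hJ2]
  have hχB : χ ∈ principalBlock M G := (Finset.mem_filter.mp hχ).2
  rcases hK.value_eq hM hn hχB with h | h <;> rw [h] <;> push_cast <;> ring

theorem klein_order_sum [Fintype (IrrCharacter G)] {M : Ideal AlgInt} (hK : KleinHyp G)
    (hM : IsPModular 2 M) {n : IrrCharacter G → ℤ}
    (hn : ∀ (χ : IrrCharacter G) (z : G), orderOf z = 2 → (χ : G → ℂ) z = (n χ : ℂ))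
    (P : Sylow 2 G) (hP4 : Nat.card P = 4) (hexp : ∀ x : P, x * x = 1)
    (J : G) (hJP : J ∈ P) (hJ2 : orderOf J = 2) [DecidablePred (· ∈ principalBlock M G)] :
    (Nat.card G : ℂ) *
        (∑ χ ∈ Finset.univ.filter (· ∈ principalBlock M G), (n χ : ℂ) / (χ : G → ℂ) 1)
        * (Nat.card (centralizer ((P : Subgroup G) : Set G)) : ℂ) ^ 2
      = 8 * (Nat.card (centralizer ({J} : Set G)) : ℂ) ^ 3 := by
  have hA := klein_class_identity hK hM hn J hJ2
  have hB := local_count_G P hP4 hexp J hJP hJ2
  have hB' : (({p : G × G | orderOf p.1 = 2 ∧ orderOf p.2 = 2 ∧ IsPPart 2 (p.1 * p.2) J}.ncard : ℕ) : ℂ)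
      * (Nat.card (centralizer ((P : Subgroup G) : Set G)) : ℂ) ^ 2
      = 2 * (Nat.card (centralizer ({J} : Set G)) : ℂ) ^ 2 := by exact_mod_cast hB
  have hidx : ((centralizer ({J} : Set G)).index : ℂ) ≠ 0 := by
    exact_mod_cast (centralizer ({J} : Set G)).index_ne_zero_of_finite
  have hG : (Nat.card G : ℂ) = ((centralizer ({J} : Set G)).index : ℂ)
      * (Nat.card (centralizer ({J} : Set G)) : ℂ) := by
    exact_mod_cast ((centralizer ({J} : Set G)).index_mul_card).symm
  set S := ∑ χ ∈ Finset.univ.filter (· ∈ principalBlock M G), (n χ : ℂ) / (χ : G → ℂ) 1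
  set N := (({p : G × G | orderOf p.1 = 2 ∧ orderOf p.2 = 2 ∧ IsPPart 2 (p.1 * p.2) J}.ncard : ℕ) : ℂ)
  set i := ((centralizer ({J} : Set G)).index : ℂ)
  have hA' : i * S = 4 * N := by
    apply mul_left_cancel₀ hidx
    linear_combination hA
  rw [hG]
  linear_combination ((Nat.card (centralizer ({J} : Set G)) : ℂ)
      * (Nat.card (centralizer ((P : Subgroup G) : Set G)) : ℂ) ^ 2) * hA'
    + (4 * (Nat.card (centralizer ({J} : Set G)) : ℂ)) * hB'

end globalcount

section setup

open Cfsg.Agent.Lib.Helper24 Cfsg.Agent.Lib.Helper7 Cfsg.Agent.Lib.Lead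

universe u
variable {G : Type u} [Group G] [Finite G]

theorem klein_setup (g₀ : ℕ) (hg₀ : Odd g₀) (hG : Nat.card G = 4 * g₀)
    (hnc : ¬ ∃ N : Subgroup G, N.Normal ∧ Nat.card N = g₀) (P : Sylow 2 G) :
    Nat.card P = 4 ∧ (∀ x : P, x * x = 1) ∧ KleinHyp G := by
  haveI : Fact (Nat.Prime 2) := ⟨Nat.prime_two⟩
  have hg0 : g₀ ≠ 0 := by
    rintro rfl
    simp at hg₀
  have hP4 : Nat.card P = 4 := by
    have h1 := P.card_eq_multiplicity
    have h2 : (4 * g₀).factorization 2 = 2 := by
      rw [Nat.factorization_mul (by norm_num) hg0]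
      have h3 : g₀.factorization 2 = 0 := by
        apply Nat.factorization_eq_zero_of_not_dvd
        rw [← even_iff_two_dvd, Nat.not_even_iff_odd]; exact hg₀
      have h4 : (4 : ℕ).factorization 2 = 2 := by
        rw [show (4 : ℕ) = 2 ^ 2 by norm_num, Nat.Prime.factorization_pow Nat.prime_two]
        simp
      simp [h3, h4]
    rw [hG, h2] at h1
    exact h1.trans (by norm_num)
  have hcompl : ∀ N : Subgroup G, N.Normal → ¬ IsComplement' N (P : Subgroup G) := by
    intro N hN hc
    apply hnc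
    refine ⟨N, hN, ?_⟩
    have h1 := hc.card_mul
    have h2 : Nat.card (P : Subgroup G) = 4 := hP4
    rw [h2, hG] at h1
    omega
  have hexp : ∀ x : P, x * x = 1 := by
    by_contra hcon
    push Not at hcon
    obtain ⟨x, hx⟩ := hcon
    have hx4 : orderOf x ∣ 2 ^ 2 := by
      have h5 := orderOf_dvd_natCard x
      have h6 : Nat.card (P : Subgroup G) = 2 ^ 2 := hP4
      exact h6 ▸ h5
    obtain ⟨k, hk, hk2⟩ := (Nat.dvd_prime_pow Nat.prime_two).mp hx4
    have hk' : orderOf x = 4 := by
      interval_cases k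
      · exfalso
        apply hx
        have : x = 1 := orderOf_eq_one_iff.mp (by simpa using hk2)
        rw [this, one_mul]
      · exfalso
        apply hx
        rw [← pow_two]
        have h7 : orderOf x = 2 := by simpa using hk2
        have h8 := pow_orderOf_eq_one x
        rwa [h7] at h8
      · simpa using hk2
    have hcyc : IsCyclic P := isCyclic_of_orderOf_eq_card x (hk'.trans hP4.symm)
    have hmin : (Nat.card G).minFac = 2 := by
      rw [Nat.minFac_eq_two_iff, hG]
      exact Dvd.dvd.mul_right (by norm_num) g₀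
    exact hcompl _ (MonoidHom.normal_ker _) (IsCyclic.isComplement' hmin hcyc)
  refine ⟨hP4, hexp, ⟨P, hP4, hexp⟩, ?_⟩
  have hKF : IsKleinFour (P : Subgroup G) := by
    refine ⟨hP4, ?_⟩
    apply Nat.dvd_antisymm
    · apply Monoid.exponent_dvd_of_forall_pow_eq_one
      intro x
      rw [pow_two]; exact hexp x
    · have hne : Monoid.exponent (P : Subgroup G) ≠ 1 := by
        intro h1
        have h2 : Subsingleton (P : Subgroup G) := Monoid.exp_eq_one_iff.mp h1
        have h3 : Nat.card (P : Subgroup G) = 1 := Nat.card_eq_one_iff_unique.mpr ⟨h2, ⟨1⟩⟩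
        have h4 : Nat.card (P : Subgroup G) = 4 := hP4
        omega
      have hd : Monoid.exponent (P : Subgroup G) ∣ 2 := by
        apply Monoid.exponent_dvd_of_forall_pow_eq_one
        intro x
        rw [pow_two]; exact hexp x
      rcases (Nat.dvd_prime Nat.prime_two).mp hd with h | h
      · exact absurd h hne
      · rw [h]
  have h1 : Nat.card {C : ConjClasses G // ∃ t : G, orderOf t = 2 ∧ ConjClasses.mk t = C} = 1 := by
    rcases Cfsg.Agent.S0202.result P hKF with h | h
    · exact h
    · exfalso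
      obtain ⟨N, hN, hc⟩ := (Cfsg.Agent.S0203.result P hKF).mp h
      exact hcompl N hN hc
  intro s t hs ht
  have h2 := (Nat.card_eq_one_iff_unique.mp h1).1
  have h3 := h2.elim ⟨ConjClasses.mk s, s, hs, rfl⟩ ⟨ConjClasses.mk t, t, ht, rfl⟩
  exact ConjClasses.mk_eq_mk_iff_isConj.mp (congrArg Subtype.val h3)

end setup

end Cfsg.Agent.Lib.Helper1
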