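import Mathlib
import Cfsg.Prelude
import Cfsg.Agent.Lib.Helper1.KleinOrder
import Cfsg.Agent.S0111
import Cfsg.Agent.Lib.Lead.ZS5

set_option autoImplicit false
set_option linter.unusedSimpArgs false

namespace Cfsg.Agent.Lib.Helper1

open Subgroup Cfsg

section twogroup

variable {P : Type*} [Group P] [Finite P]

theorem exists_two_index_two (hP : IsPGroup 2 P) (hnc : ¬ IsCyclic P) :
    ∃ M₁ M₂ : Subgroup P, M₁.index = 2 ∧ M₂.index = 2 ∧ M₁ ≠ M₂ := by
  haveI : Fact (Nat.Prime 2) := ⟨Nat.prime_two⟩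
  obtain ⟨n, hn⟩ := IsPGroup.iff_card.mp hP
  have hn0 : n ≠ 0 := by
    rintro rfl
    apply hnc
    have : Subsingleton P := (Nat.card_eq_one_iff_unique.mp (by simpa using hn)).1
    exact isCyclic_of_subsingleton
  obtain ⟨m, rfl⟩ : ∃ m, n = m + 1 := ⟨n - 1, by omega⟩
  have hidx : ∀ M : Subgroup P, Nat.card M = 2 ^ m → M.index = 2 := by
    intro M hM
    have h1 := M.card_mul_index
    rw [hM, hn, pow_succ] at h1
    exact Nat.eq_of_mul_eq_mul_left (by positivity) h1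
  obtain ⟨M₁, hM₁, -⟩ := Sylow.exists_subgroup_card_pow_prime_le 2 (n := 0) (m := m)
    (by rw [hn]; exact pow_dvd_pow 2 (Nat.le_succ m)) (⊥ : Subgroup P) (by simp) (Nat.zero_le _)
  have hne : ∃ a, a ∉ M₁ := by
    by_contra hcon
    push Not at hcon
    have : M₁ = ⊤ := (eq_top_iff' M₁).mpr hcon
    have h2 := hidx M₁ hM₁
    rw [this, index_top] at h2
    omega
  obtain ⟨a, ha⟩ := hne
  obtain ⟨k, hk⟩ := (IsPGroup.iff_orderOf.mp hP) a
  have hk1 : k ≤ m := by
    have h1 : orderOf a ∣ 2 ^ (m + 1) := hn ▸ orderOf_dvd_natCard a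
    rw [hk] at h1
    have h2 : k ≤ m + 1 := (Nat.pow_dvd_pow_iff_le_right (by norm_num)).mp h1
    rcases Nat.lt_or_ge k (m + 1) with h | h
    · omega
    · exfalso
      apply hnc
      have : k = m + 1 := le_antisymm h2 h
      exact isCyclic_of_orderOf_eq_card a (by rw [hk, hn, this])
  obtain ⟨M₂, hM₂, hle⟩ := Sylow.exists_subgroup_card_pow_prime_le 2 (n := k) (m := m)
    (by rw [hn]; exact pow_dvd_pow 2 (Nat.le_succ m)) (zpowers a) (by rw [Nat.card_zpowers, hk]) hk1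
  refine ⟨M₁, M₂, hidx _ hM₁, hidx _ hM₂, ?_⟩
  rintro rfl
  exact ha (hle (mem_zpowers a))

omit [Finite P] in
/-- the third subgroup of index two -/
def thirdIndexTwo (M₁ M₂ : Subgroup P) (h₁ : M₁.index = 2) (h₂ : M₂.index = 2) : Subgroup P where
  carrier := {t | t ∈ M₁ ↔ t ∈ M₂}
  one_mem' := by simp [one_mem]
  mul_mem' := by
    intro a b ha hb
    simp only [Set.mem_setOf_eq] at ha hb ⊢
    rw [mul_mem_iff_of_index_two h₁, mul_mem_iff_of_index_two h₂, ha, hb]
  inv_mem' := by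
    intro a ha
    simp only [Set.mem_setOf_eq] at ha ⊢
    rw [inv_mem_iff, inv_mem_iff, ha]

omit [Finite P] in
theorem mem_thirdIndexTwo {M₁ M₂ : Subgroup P} {h₁ : M₁.index = 2} {h₂ : M₂.index = 2} {t : P} :
    t ∈ thirdIndexTwo M₁ M₂ h₁ h₂ ↔ (t ∈ M₁ ↔ t ∈ M₂) := Iff.rfl

theorem exists_mem_not_mem {M₁ M₂ : Subgroup P} (h₁ : M₁.index = 2) (h₂ : M₂.index = 2)
    (hne : M₁ ≠ M₂) : ∃ a, a ∈ M₁ ∧ a ∉ M₂ := by
  by_contra hcon
  push Not at hcon
  have hle : M₁ ≤ M₂ := hcon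
  apply hne
  apply eq_of_le_of_card_ge hle
  have e1 := M₁.card_mul_index
  have e2 := M₂.card_mul_index
  rw [h₁] at e1
  rw [h₂] at e2
  omega

theorem thirdIndexTwo_index {M₁ M₂ : Subgroup P} (h₁ : M₁.index = 2) (h₂ : M₂.index = 2)
    (hne : M₁ ≠ M₂) : (thirdIndexTwo M₁ M₂ h₁ h₂).index = 2 := by
  obtain ⟨a, ha1, ha2⟩ := exists_mem_not_mem h₁ h₂ hne
  rw [index_eq_two_iff]
  refine ⟨a, fun b => ?_⟩
  rw [mem_thirdIndexTwo, mem_thirdIndexTwo, mul_mem_iff_of_index_two h₁, mul_mem_iff_of_index_two h₂]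
  simp only [ha1, ha2, iff_true, iff_false]
  by_cases hb1 : b ∈ M₁ <;> by_cases hb2 : b ∈ M₂ <;> simp [hb1, hb2, Xor']

theorem exists_index_two_disjoint (hP : IsPGroup 2 P) (hnc : ¬ IsCyclic P)
    (h8 : 8 ≤ Nat.card P) (X : Set P) (hX2 : ∀ u ∈ X, orderOf u = 2)
    (hXc : ∀ u ∈ X, ∀ g : P, g * u * g⁻¹ ∈ X)
    (hXcent : ∀ u ∈ X, Nat.card (centralizer ({u} : Set P)) ≤ 4) :
    ∃ M : Subgroup P, M.index = 2 ∧ ∀ u ∈ X, u ∉ M := by
  by_contra hcon
  push Not at hcon
  obtain ⟨M₁, M₂, h₁, h₂, hne⟩ := exists_two_index_two hP hnc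
  haveI : M₁.Normal := normal_of_index_eq_two h₁
  haveI : M₂.Normal := normal_of_index_eq_two h₂
  obtain ⟨D, hD⟩ : ∃ D, D = M₁ ⊓ M₂ := ⟨_, rfl⟩
  have hDM : ∀ t, t ∈ D ↔ t ∈ M₁ ∧ t ∈ M₂ := fun t => by rw [hD, mem_inf]
  have hDidx : 4 * Nat.card D ≤ Nat.card P := by
    have e1 := relIndex_mul_index (hD ▸ inf_le_left : D ≤ M₁)
    have e2 := D.card_mul_index
    have e3 : D.relIndex M₁ ≠ 1 := by
      intro h
      rw [relIndex_eq_one] at h
      obtain ⟨a, ha1, ha2⟩ := exists_mem_not_mem h₁ h₂ hne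
      exact ha2 ((hDM a).mp (h ha1)).2
    have e4 : D.relIndex M₁ ≠ 0 := (D.subgroupOf M₁).index_ne_zero_of_finite
    have e5 : 2 ≤ D.relIndex M₁ := by omega
    rw [h₁] at e1
    have e6 : 4 ≤ D.index := by omega
    calc 4 * Nat.card D ≤ D.index * Nat.card D := Nat.mul_le_mul_right _ e6
      _ = Nat.card P := by rw [mul_comm]; exact e2
  have key : ∀ u ∈ X, ∀ t, u⁻¹ * t ∈ D → t ∈ X := by
    intro u hu t ht
    have hsub : {y : P | IsConj u y} ⊆ {t : P | u⁻¹ * t ∈ D} := by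
      intro y hy
      obtain ⟨g, hg⟩ := isConj_iff.mp hy
      simp only [Set.mem_setOf_eq]
      rw [← hg, hDM]
      refine ⟨?_, ?_⟩
      · rw [mul_mem_iff_of_index_two h₁, inv_mem_iff]
        exact ⟨fun h => Normal.conj_mem inferInstance u h g, fun h => by
          have := Normal.conj_mem (inferInstance : M₁.Normal) _ h g⁻¹
          simpa [mul_assoc] using this⟩
      · rw [mul_mem_iff_of_index_two h₂, inv_mem_iff]
        exact ⟨fun h => Normal.conj_mem inferInstance u h g, fun h => by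
          have := Normal.conj_mem (inferInstance : M₂.Normal) _ h g⁻¹
          simpa [mul_assoc] using this⟩
    have hcardB : {t : P | u⁻¹ * t ∈ D}.ncard = Nat.card D := by
      rw [← Nat.card_coe_set_eq]
      apply Nat.card_congr
      exact ⟨fun t => ⟨u⁻¹ * t.1, t.2⟩, fun d => ⟨u * d.1, by simp⟩, fun t => by simp,
        fun d => by simp⟩
    have hcardA : {y : P | IsConj u y}.ncard = (centralizer ({u} : Set P)).index :=
      ncard_isConj_eq_index u
    have hle : {t : P | u⁻¹ * t ∈ D}.ncard ≤ {y : P | IsConj u y}.ncard := by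
      rw [hcardA, hcardB]
      have e1 := (centralizer ({u} : Set P)).card_mul_index
      have e2 := hXcent u hu
      have e3 : Nat.card P ≤ 4 * (centralizer ({u} : Set P)).index := by
        rw [← e1]; exact Nat.mul_le_mul_right _ e2
      omega
    have heq := Set.eq_of_subset_of_ncard_le hsub hle (Set.toFinite _)
    have : t ∈ {y : P | IsConj u y} := by rw [heq]; exact ht
    obtain ⟨g, hg⟩ := isConj_iff.mp this
    rw [← hg]
    exact hXc u hu g
  have hnD : ∀ u ∈ X, u ∉ D := by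
    intro u hu huD
    have h1 : (1 : P) ∈ X := key u hu 1 (by simpa using huD)
    have := hX2 1 h1
    simp at this
  obtain ⟨u₁, hu₁, hu₁M⟩ := hcon M₁ h₁
  obtain ⟨u₂, hu₂, hu₂M⟩ := hcon M₂ h₂
  obtain ⟨u₃, hu₃, hu₃M⟩ := hcon _ (thirdIndexTwo_index h₁ h₂ hne)
  rw [mem_thirdIndexTwo] at hu₃M
  have hall : ∀ t, t ∉ D → t ∈ X := by
    intro t ht
    have hn1 := hnD u₁ hu₁
    have hn2 := hnD u₂ hu₂
    have hn3 := hnD u₃ hu₃
    simp only [hDM, not_and] at ht hn1 hn2 hn3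
    by_cases ht1 : t ∈ M₁
    · refine key u₁ hu₁ t ((hDM _).mpr ⟨?_, ?_⟩)
      · exact mul_mem (inv_mem hu₁M) ht1
      · rw [mul_mem_iff_of_index_two h₂, inv_mem_iff]
        exact ⟨fun h => absurd h (hn1 hu₁M), fun h => absurd h (ht ht1)⟩
    · by_cases ht2 : t ∈ M₂
      · refine key u₂ hu₂ t ((hDM _).mpr ⟨?_, ?_⟩)
        · rw [mul_mem_iff_of_index_two h₁, inv_mem_iff]
          exact ⟨fun h => absurd hu₂M (hn2 h), fun h => absurd h ht1⟩
        · exact mul_mem (inv_mem hu₂M) ht2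
      · have h31 : u₃ ∉ M₁ := fun h => hn3 h (hu₃M.mp h)
        have h32 : u₃ ∉ M₂ := fun h => h31 (hu₃M.mpr h)
        refine key u₃ hu₃ t ((hDM _).mpr ⟨?_, ?_⟩)
        · rw [mul_mem_iff_of_index_two h₁, inv_mem_iff]
          exact ⟨fun h => absurd h h31, fun h => absurd h ht1⟩
        · rw [mul_mem_iff_of_index_two h₂, inv_mem_iff]
          exact ⟨fun h => absurd h h32, fun h => absurd h ht2⟩
  -- contradiction
  have hsq : ∀ t ∈ X, t * t = 1 := by
    intro t ht
    have := pow_orderOf_eq_one t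
    rwa [hX2 t ht, pow_two] at this
  have hcomm : ∀ t, t ∉ M₁ → t ∈ centralizer ({u₁} : Set P) := by
    intro t ht
    have htX : t ∈ X := hall t (fun h => ht ((hDM t).mp h).1)
    have hutX : u₁ * t ∈ X := by
      apply hall
      intro h
      apply ht
      have := ((hDM _).mp h).1
      rwa [mul_mem_iff_of_index_two h₁, iff_true_left hu₁M] at this
    rw [mem_centralizer_singleton_iff]
    have e1 := hsq _ htX
    have e2 := hsq _ hu₁
    have e3 := hsq _ hutX
    calc t * u₁ = (u₁ * u₁) * (t * u₁) * (t * t) := by rw [e1, e2]; group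
      _ = u₁ * ((u₁ * t) * (u₁ * t)) * t := by group
      _ = u₁ * t := by rw [e3]; group
  have hbig : Nat.card P < 2 * Nat.card (centralizer ({u₁} : Set P)) := by
    have e1 : ((M₁ : Set P)ᶜ ∪ {1}) ⊆ ((centralizer ({u₁} : Set P) : Subgroup P) : Set P) := by
      intro t ht
      rcases ht with ht | ht
      · exact hcomm t ht
      · rw [Set.mem_singleton_iff.mp ht]; exact one_mem _
    have e2 := Set.ncard_le_ncard e1 (Set.toFinite _)
    have e3 : ((M₁ : Set P)ᶜ ∪ {1}).ncard = (M₁ : Set P)ᶜ.ncard + 1 := by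
      rw [Set.union_singleton, Set.ncard_insert_of_notMem (by simp [one_mem]) (Set.toFinite _)]
    have e4 : (M₁ : Set P).ncard + (M₁ : Set P)ᶜ.ncard = Nat.card P :=
      Set.ncard_add_ncard_compl _
    have e5 : (M₁ : Set P).ncard = Nat.card M₁ := by rw [← Nat.card_coe_set_eq]; rfl
    have e6 := M₁.card_mul_index
    have e7 : ((centralizer ({u₁} : Set P) : Subgroup P) : Set P).ncard
        = Nat.card (centralizer ({u₁} : Set P)) := by rw [← Nat.card_coe_set_eq]; rfl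
    rw [h₁] at e6
    omega
  have := hXcent u₁ hu₁
  omega

end twogroup

section caseb

variable {G : Type*} [Group G] [Finite G]

theorem sylow_card_lt_eight (hno2 : ∀ M : Subgroup G, M.Normal → M.index ≠ 2)
    (x : G) (hx : orderOf x = 2) (T : Sylow 2 G) (hxT : x ∈ T) (hnc : ¬ IsCyclic T)
    (hcent : ∀ Q : Subgroup G, IsPGroup 2 Q → Q ≤ centralizer {x} → Nat.card Q ≤ 4) :
    Nat.card T < 8 := by
  by_contra h8
  push Not at h8
  let X : Set T := {v | IsConj x (v : G)}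
  have hX2 : ∀ u ∈ X, orderOf u = 2 := by
    intro u hu
    obtain ⟨g, hg⟩ := isConj_iff.mp hu
    rw [← Subgroup.orderOf_coe, ← hg, ← hx]
    exact (MulAut.conj g).orderOf_eq x
  have hXc : ∀ u ∈ X, ∀ g : T, g * u * g⁻¹ ∈ X := by
    intro u hu g
    have h1 : IsConj (u : G) ((g * u * g⁻¹ : T) : G) := isConj_iff.mpr ⟨g, by simp⟩
    exact IsConj.trans hu h1
  have hXcent : ∀ u ∈ X, Nat.card (centralizer ({u} : Set T)) ≤ 4 := by
    intro u hu
    obtain ⟨g, hg⟩ := isConj_iff.mp hu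
    let f : T →* G := (MulAut.conj g⁻¹).toMonoidHom.comp (T : Subgroup G).subtype
    have hf : Function.Injective f := by
      intro a b hab
      simpa [f] using hab
    have h1 := hcent ((centralizer ({u} : Set T)).map f) ?_ ?_
    · rwa [Nat.card_congr ((centralizer ({u} : Set T)).equivMapOfInjective f hf).toEquiv.symm] at h1
    · exact (T.2.to_subgroup _).map f
    · rintro _ ⟨c, hc, rfl⟩
      rw [SetLike.mem_coe, mem_centralizer_singleton_iff] at hc
      rw [mem_centralizer_singleton_iff]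
      have hc' : (c : G) * u = u * c := congrArg Subtype.val hc
      have hx' : x = g⁻¹ * u * g := by rw [← hg]; group
      simp only [f, MonoidHom.comp_apply, MulEquiv.coe_toMonoidHom, MulAut.conj_apply,
        Subgroup.subtype_apply, inv_inv]
      rw [hx']
      calc g⁻¹ * c * g * (g⁻¹ * u * g) = g⁻¹ * (c * u) * g := by group
        _ = g⁻¹ * (u * c) * g := by rw [hc']
        _ = g⁻¹ * u * g * (g⁻¹ * c * g) := by group
  obtain ⟨M, hM, hMX⟩ := exists_index_two_disjoint T.2 hnc h8 X hX2 hXc hXcent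
  have hxM : (⟨x, hxT⟩ : T) ∉ M := hMX _ (IsConj.refl x)
  have hrel : (M.map (T : Subgroup G).subtype).relIndex (T : Subgroup G) = 2 := by
    rw [relIndex, subgroupOf, comap_map_eq_self_of_injective (subtype_injective _), hM]
  rcases Cfsg.Agent.S0111.result T (M.map (T : Subgroup G).subtype) (map_subtype_le M) hrel x hx hxT
    (by
      rintro ⟨v, hv, hvx⟩
      apply hxM
      have : v = ⟨x, hxT⟩ := Subtype.ext hvx
      rwa [← this]) with ⟨N, hN, hNi, -⟩ | ⟨g, v, hv, hvx⟩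
  · exact hno2 N hN hNi
  · exact hMX v (isConj_iff.mpr ⟨g, hvx.symm⟩) hv

end caseb


theorem four_cent_arith0 (I : ℕ) (P A : ℤ) (h1 : A < 2 * P) (h2 : 5 * P < 8 * A)
    (hI : (I : ℤ) * P = 8 * A) : 6 ≤ I ∧ I ≤ 15 := by
  have hP : 0 < P := by linarith
  constructor
  · by_contra h
    have h5 : (I : ℤ) ≤ 5 := by exact_mod_cast (by omega : I ≤ 5)
    nlinarith [mul_le_mul_of_nonneg_right h5 hP.le]
  · by_contra h
    have h16 : (16 : ℤ) ≤ I := by exact_mod_cast (by omega : 16 ≤ I)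
    nlinarith [mul_le_mul_of_nonneg_right h16 hP.le]

set_option maxHeartbeats 3200000 in
theorem four_cent_arith (I xa xb xc : ℕ) (na nb nc : ℤ)
    (ha : na = 1 ∨ na = -1) (hb : nb = 1 ∨ nb = -1) (hc : nc = 1 ∨ nc = -1)
    (hma : (4 : ℤ) ∣ (xa : ℤ) - na) (hmb : (4 : ℤ) ∣ (xb : ℤ) - nb) (hmc : (4 : ℤ) ∣ (xc : ℤ) - nc)
    (hxa : xa ≠ 1) (hxb : xb ≠ 1) (hxc : xc ≠ 1)
    (hrel : 1 + na * xa + nb * xb + nc * xc = 0)
    (hI : (I : ℤ) * ((xa : ℤ) * xb * xc + na * xb * xc + nb * xa * xc + nc * xa * xb)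
      = 8 * ((xa : ℤ) * xb * xc)) : 6 ≤ I ∧ I ≤ 15 := by
  apply four_cent_arith0 I _ _ ?_ ?_ hI
  · rcases ha with rfl | rfl <;> rcases hb with rfl | rfl <;> rcases hc with rfl | rfl
    · exfalso; omega
    · obtain ⟨ja, rfl⟩ : ∃ ja : ℕ, xa = 4 * ja + 5 := ⟨(xa - 5) / 4, by omega⟩
      obtain ⟨jb, rfl⟩ : ∃ jb : ℕ, xb = 4 * jb + 5 := ⟨(xb - 5) / 4, by omega⟩
      obtain rfl : xc = 4 * (ja + jb + 2) + 3 := by omega
      rw [← sub_pos]; push_cast; ring_nf; positivity
    · obtain ⟨ja, rfl⟩ : ∃ ja : ℕ, xa = 4 * ja + 5 := ⟨(xa - 5) / 4, by omega⟩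
      obtain ⟨jc, rfl⟩ : ∃ jc : ℕ, xc = 4 * jc + 5 := ⟨(xc - 5) / 4, by omega⟩
      obtain rfl : xb = 4 * (ja + jc + 2) + 3 := by omega
      rw [← sub_pos]; push_cast; ring_nf; positivity
    · obtain ⟨jb, rfl⟩ : ∃ jb : ℕ, xb = 4 * jb + 3 := ⟨(xb - 3) / 4, by omega⟩
      obtain ⟨jc, rfl⟩ : ∃ jc : ℕ, xc = 4 * jc + 3 := ⟨(xc - 3) / 4, by omega⟩
      obtain rfl : xa = 4 * (jb + jc) + 5 := by omega
      rw [← sub_pos]; push_cast; ring_nf; positivity
    · obtain ⟨jb, rfl⟩ : ∃ jb : ℕ, xb = 4 * jb + 5 := ⟨(xb - 5) / 4, by omega⟩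
      obtain ⟨jc, rfl⟩ : ∃ jc : ℕ, xc = 4 * jc + 5 := ⟨(xc - 5) / 4, by omega⟩
      obtain rfl : xa = 4 * (jb + jc + 2) + 3 := by omega
      rw [← sub_pos]; push_cast; ring_nf; positivity
    · obtain ⟨ja, rfl⟩ : ∃ ja : ℕ, xa = 4 * ja + 3 := ⟨(xa - 3) / 4, by omega⟩
      obtain ⟨jc, rfl⟩ : ∃ jc : ℕ, xc = 4 * jc + 3 := ⟨(xc - 3) / 4, by omega⟩
      obtain rfl : xb = 4 * (ja + jc) + 5 := by omega
      rw [← sub_pos]; push_cast; ring_nf; positivity
    · obtain ⟨ja, rfl⟩ : ∃ ja : ℕ, xa = 4 * ja + 3 := ⟨(xa - 3) / 4, by omega⟩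
      obtain ⟨jb, rfl⟩ : ∃ jb : ℕ, xb = 4 * jb + 3 := ⟨(xb - 3) / 4, by omega⟩
      obtain rfl : xc = 4 * (ja + jb) + 5 := by omega
      rw [← sub_pos]; push_cast; ring_nf; positivity
    · exfalso; omega
  · rcases ha with rfl | rfl <;> rcases hb with rfl | rfl <;> rcases hc with rfl | rfl
    · exfalso; omega
    · obtain ⟨ja, rfl⟩ : ∃ ja : ℕ, xa = 4 * ja + 5 := ⟨(xa - 5) / 4, by omega⟩
      obtain ⟨jb, rfl⟩ : ∃ jb : ℕ, xb = 4 * jb + 5 := ⟨(xb - 5) / 4, by omega⟩
      obtain rfl : xc = 4 * (ja + jb + 2) + 3 := by omega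
      rw [← sub_pos]; push_cast; ring_nf; positivity
    · obtain ⟨ja, rfl⟩ : ∃ ja : ℕ, xa = 4 * ja + 5 := ⟨(xa - 5) / 4, by omega⟩
      obtain ⟨jc, rfl⟩ : ∃ jc : ℕ, xc = 4 * jc + 5 := ⟨(xc - 5) / 4, by omega⟩
      obtain rfl : xb = 4 * (ja + jc + 2) + 3 := by omega
      rw [← sub_pos]; push_cast; ring_nf; positivity
    · obtain ⟨jb, rfl⟩ : ∃ jb : ℕ, xb = 4 * jb + 3 := ⟨(xb - 3) / 4, by omega⟩
      obtain ⟨jc, rfl⟩ : ∃ jc : ℕ, xc = 4 * jc + 3 := ⟨(xc - 3) / 4, by omega⟩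
      obtain rfl : xa = 4 * (jb + jc) + 5 := by omega
      rw [← sub_pos]; push_cast; ring_nf; positivity
    · obtain ⟨jb, rfl⟩ : ∃ jb : ℕ, xb = 4 * jb + 5 := ⟨(xb - 5) / 4, by omega⟩
      obtain ⟨jc, rfl⟩ : ∃ jc : ℕ, xc = 4 * jc + 5 := ⟨(xc - 5) / 4, by omega⟩
      obtain rfl : xa = 4 * (jb + jc + 2) + 3 := by omega
      rw [← sub_pos]; push_cast; ring_nf; positivity
    · obtain ⟨ja, rfl⟩ : ∃ ja : ℕ, xa = 4 * ja + 3 := ⟨(xa - 3) / 4, by omega⟩
      obtain ⟨jc, rfl⟩ : ∃ jc : ℕ, xc = 4 * jc + 3 := ⟨(xc - 3) / 4, by omega⟩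
      obtain rfl : xb = 4 * (ja + jc) + 5 := by omega
      rw [← sub_pos]; push_cast; ring_nf; positivity
    · obtain ⟨ja, rfl⟩ : ∃ ja : ℕ, xa = 4 * ja + 3 := ⟨(xa - 3) / 4, by omega⟩
      obtain ⟨jb, rfl⟩ : ∃ jb : ℕ, xb = 4 * jb + 3 := ⟨(xb - 3) / 4, by omega⟩
      obtain rfl : xc = 4 * (ja + jb) + 5 := by omega
      rw [← sub_pos]; push_cast; ring_nf; positivity
    · exfalso; omega

section casea

open Cfsg.Agent.Lib.Helper24 Cfsg.Agent.Lib.Helper7 Cfsg.Agent.Lib.Lead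

universe u
variable {G : Type u} [Group G] [Finite G]

theorem card_eq_sixty_of_klein [IsSimpleGroup G] (T : Sylow 2 G)
    (hT4 : Nat.card T = 4) (x : G) (hxT : x ∈ T) (hx : orderOf x = 2)
    (hcc : Nat.card (centralizer ({x} : Set G)) = Nat.card (centralizer ((T : Subgroup G) : Set G))) :
    Nat.card G = 60 := by
  classical
  haveI : Fact (Nat.Prime 2) := ⟨Nat.prime_two⟩
  obtain ⟨M, hM⟩ := exists_isPModular Nat.prime_two
  haveI := hM.2.1.isPrime
  haveI := Fintype.ofFinite G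
  haveI := Fintype.ofFinite (IrrCharacter G)
  have hT4' : Nat.card (T : Subgroup G) = 4 := hT4
  obtain ⟨g₀, hg₀, hG⟩ : ∃ g₀, Odd g₀ ∧ Nat.card G = 4 * g₀ := by
    refine ⟨(T : Subgroup G).index, ?_, ?_⟩
    · rw [← Nat.not_even_iff_odd, even_iff_two_dvd]; exact T.not_dvd_index
    · rw [← (T : Subgroup G).card_mul_index, hT4']
  have hx1 : x ≠ 1 := by
    rintro rfl
    simp at hx
  have hG4 : Nat.card G ≠ 4 := by
    intro h4
    have hcomm : ∀ a b : G, a * b = b * a :=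
      IsPGroup.commutative_of_card_eq_prime_sq (p := 2) (h4.trans (by norm_num))
    have hN : (zpowers x).Normal := ⟨fun n hn g => by rw [hcomm g n, mul_assoc, mul_inv_cancel, mul_one]; exact hn⟩
    have hc : Nat.card (zpowers x) = 2 := by rw [Nat.card_zpowers, hx]
    rcases hN.eq_bot_or_eq_top with h | h
    · rw [h] at hc; simp at hc
    · rw [h, card_top, h4] at hc; omega
  have hnc : ¬ ∃ N : Subgroup G, N.Normal ∧ Nat.card N = g₀ := by
    rintro ⟨N, hN, hNc⟩
    rcases hN.eq_bot_or_eq_top with rfl | rfl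
    · simp at hNc
      omega
    · rw [card_top] at hNc
      have := Nat.card_pos (α := G)
      omega
  obtain ⟨-, hexp, hK⟩ := klein_setup g₀ hg₀ hG hnc T
  obtain ⟨n, hn⟩ := hK.exists_value
  have hcard := hK.card_eq hM
  have hone : oneIrr G ∈ Finset.univ.filter (· ∈ principalBlock M G) := by
    simp [oneIrr_mem_principalBlock]
  have h3 : ((Finset.univ.filter (· ∈ principalBlock M G)).erase (oneIrr G)).card = 3 := by
    rw [Finset.card_erase_of_mem hone, hcard]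
  obtain ⟨a, b, c, hab, hac, hbc, habc⟩ := Finset.card_eq_three.mp h3
  have hfil : Finset.univ.filter (· ∈ principalBlock M G) = insert (oneIrr G) {a, b, c} := by
    rw [← habc, Finset.insert_erase hone]
  have hmem : ∀ χ ∈ ({a, b, c} : Finset (IrrCharacter G)), χ ≠ oneIrr G ∧ χ ∈ principalBlock M G := by
    intro χ hχ
    rw [← habc, Finset.mem_erase, Finset.mem_filter] at hχ
    exact ⟨hχ.1, hχ.2.2⟩
  obtain ⟨ha1, haB⟩ := hmem a (by simp)
  obtain ⟨hb1, hbB⟩ := hmem b (by simp)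
  obtain ⟨hc1, hcB⟩ := hmem c (by simp)
  have hsum := klein_order_sum hK hM hn T hT4 hexp x hxT hx
  have hth := hK.theta hM hn 1
  rw [hfil, Finset.sum_insert (by simp [ha1.symm, hb1.symm, hc1.symm]),
    Finset.sum_insert (by simp [hab, hac]), Finset.sum_insert (by simp [hbc]),
    Finset.sum_singleton] at hsum hth
  rw [hK.value_one hn] at hsum hth
  rw [← charDegree_cast (isCharacter_of_irr a.2), ← charDegree_cast (isCharacter_of_irr b.2),
    ← charDegree_cast (isCharacter_of_irr c.2)] at hsum hth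
  have hone1 : (oneIrr G : G → ℂ) 1 = 1 := rfl
  rw [hone1] at hsum hth
  rw [if_neg (by simp)] at hth
  have hsimple : ∀ N : Subgroup G, N.Normal → x ∈ N → N = ⊤ := by
    intro N hN hxN
    rcases hN.eq_bot_or_eq_top with rfl | h
    · exact absurd (mem_bot.mp hxN) hx1
    · exact h
  have hdeg : ∀ χ : IrrCharacter G, χ ≠ oneIrr G → χ ∈ principalBlock M G →
      charDegree (χ : G → ℂ) ≠ 1 := by
    intro χ hχ1 hχB hd
    have hm := hK.mod_four hn χ
    rw [hd] at hm
    have hnχ : n χ = 1 := by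
      rcases hK.value_eq hM hn hχB with h | h
      · exact h
      · rw [h] at hm; norm_num at hm
    apply hχ1
    apply Subtype.ext
    apply eq_oneIrr_of_ker hsimple _ χ.2
    rw [hn χ x hx, hnχ, ← charDegree_cast (isCharacter_of_irr χ.2), hd]
    simp
  have hrel : (1 : ℤ) + n a * (charDegree (a : G → ℂ) : ℤ) + n b * (charDegree (b : G → ℂ) : ℤ)
      + n c * (charDegree (c : G → ℂ) : ℤ) = 0 := by
    have : (((1 : ℤ) + n a * (charDegree (a : G → ℂ) : ℤ) + n b * (charDegree (b : G → ℂ) : ℤ)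
      + n c * (charDegree (c : G → ℂ) : ℤ) : ℤ) : ℂ) = ((0 : ℤ) : ℂ) := by
      push_cast
      push_cast at hth
      linear_combination hth
    exact_mod_cast this
  have hcpos : 0 < Nat.card (centralizer ((T : Subgroup G) : Set G)) := Nat.card_pos
  have hGI := (centralizer ({x} : Set G)).card_mul_index
  rw [hcc] at hGI
  have hI : (((centralizer ({x} : Set G)).index : ℕ) : ℤ) * ((charDegree (a : G → ℂ) : ℤ)
        * charDegree (b : G → ℂ) * charDegree (c : G → ℂ)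
      + n a * charDegree (b : G → ℂ) * charDegree (c : G → ℂ)
      + n b * charDegree (a : G → ℂ) * charDegree (c : G → ℂ)
      + n c * charDegree (a : G → ℂ) * charDegree (b : G → ℂ))
      = 8 * ((charDegree (a : G → ℂ) : ℤ) * charDegree (b : G → ℂ) * charDegree (c : G → ℂ)) := by
    have hxa : ((charDegree (a : G → ℂ) : ℕ) : ℂ) ≠ 0 := by exact_mod_cast (charDegree_pos a).ne'
    have hxb : ((charDegree (b : G → ℂ) : ℕ) : ℂ) ≠ 0 := by exact_mod_cast (charDegree_pos b).ne'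
    have hxc : ((charDegree (c : G → ℂ) : ℕ) : ℂ) ≠ 0 := by exact_mod_cast (charDegree_pos c).ne'
    have hc0 : (Nat.card (centralizer ((T : Subgroup G) : Set G)) : ℂ) ≠ 0 := by
      exact_mod_cast hcpos.ne'
    have hGI' : (Nat.card G : ℂ) = (Nat.card (centralizer ((T : Subgroup G) : Set G)) : ℂ)
        * ((centralizer ({x} : Set G)).index : ℂ) := by exact_mod_cast hGI.symm
    rw [hcc, hGI'] at hsum
    have : ((((centralizer ({x} : Set G)).index : ℕ) : ℤ) * ((charDegree (a : G → ℂ) : ℤ)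
        * charDegree (b : G → ℂ) * charDegree (c : G → ℂ)
      + n a * charDegree (b : G → ℂ) * charDegree (c : G → ℂ)
      + n b * charDegree (a : G → ℂ) * charDegree (c : G → ℂ)
      + n c * charDegree (a : G → ℂ) * charDegree (b : G → ℂ)) : ℂ)
      = ((8 * ((charDegree (a : G → ℂ) : ℤ) * charDegree (b : G → ℂ) * charDegree (c : G → ℂ)) : ℤ) : ℂ) := by
      push_cast
      generalize ((charDegree (a : G → ℂ) : ℕ) : ℂ) = xa at *
      generalize ((charDegree (b : G → ℂ) : ℕ) : ℂ) = xb at *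
      generalize ((charDegree (c : G → ℂ) : ℕ) : ℂ) = xc at *
      generalize (Nat.card (centralizer ((T : Subgroup G) : Set G)) : ℂ) = cc at *
      generalize (((centralizer ({x} : Set G)).index : ℕ) : ℂ) = I at *
      have h1 : I * (((1 : ℤ) : ℂ) / 1 + ((n a : ℂ) / xa + ((n b : ℂ) / xb + (n c : ℂ) / xc))) = 8 := by
        apply mul_left_cancel₀ (pow_ne_zero 3 hc0)
        linear_combination hsum
      have h2 : (((1 : ℤ) : ℂ) / 1 + ((n a : ℂ) / xa + ((n b : ℂ) / xb + (n c : ℂ) / xc))) * (xa * xb * xc)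
          = xa * xb * xc + n a * xb * xc + n b * xa * xc + n c * xa * xb := by
        push_cast
        field_simp
        ring
      rw [← h2]
      linear_combination (xa * xb * xc) * h1
    exact_mod_cast this
  obtain ⟨hI6, hI15⟩ := four_cent_arith _ _ _ _ _ _ _ (hK.value_eq hM hn haB) (hK.value_eq hM hn hbB)
    (hK.value_eq hM hn hcB) (hK.mod_four hn a) (hK.mod_four hn b) (hK.mod_four hn c)
    (hdeg a ha1 haB) (hdeg b hb1 hbB) (hdeg c hc1 hcB) hrel hI
  clear hI hrel hsum hth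
  -- the normalizer
  have hcomm : ∀ a b : T, a * b = b * a :=
    IsPGroup.commutative_of_card_eq_prime_sq (p := 2) (hT4.trans (by norm_num))
  have hTC : (T : Subgroup G) ≤ centralizer ((T : Subgroup G) : Set G) := by
    intro t ht
    rw [mem_centralizer_iff]
    intro s hs
    exact congrArg Subtype.val (hcomm ⟨s, hs⟩ ⟨t, ht⟩)
  have hCN : centralizer ((T : Subgroup G) : Set G) ≤ normalizer ((T : Subgroup G) : Set G) :=
    centralizer_le_normalizer _
  obtain ⟨c', hc'⟩ := card_dvd_of_le hTC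
  obtain ⟨k, hk⟩ := card_dvd_of_le hCN
  have hNi := (normalizer ((T : Subgroup G) : Set G)).card_mul_index
  have hSyl : Nat.card (Sylow 2 G) = (normalizer ((T : Subgroup G) : Set G)).index :=
    Sylow.card_eq_index_normalizer T
  rw [← hSyl] at hNi
  rw [hT4'] at hc'
  have hk1 : k ≠ 1 := by
    rintro rfl
    rw [mul_one] at hk
    have hle : normalizer ((T : Subgroup G) : Set G) ≤ centralizer ((T : Subgroup G) : Set G) :=
      (eq_of_le_of_card_ge hCN hk.le).ge
    have hcompl := MonoidHom.ker_transferSylow_isComplement' T hle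
    apply hnc
    refine ⟨(MonoidHom.transferSylow T hle).ker, MonoidHom.normal_ker _, ?_⟩
    have h1 := hcompl.card_mul_card
    rw [hT4', hG] at h1
    omega
  have hcard_eq : (centralizer ({x} : Set G)).index = k * Nat.card (Sylow 2 G) := by
    have h1 : Nat.card (centralizer ((T : Subgroup G) : Set G)) * (centralizer ({x} : Set G)).index
        = Nat.card (centralizer ((T : Subgroup G) : Set G)) * (k * Nat.card (Sylow 2 G)) := by
      rw [hGI, ← hNi, hk, mul_assoc]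
    exact Nat.eq_of_mul_eq_mul_left hcpos h1
  have hkodd : Odd k := by
    have h1 : 4 * g₀ = 4 * (c' * k * Nat.card (Sylow 2 G)) := by
      rw [← hG, ← hNi, hk, hc']; ring
    have h2 : g₀ = c' * k * Nat.card (Sylow 2 G) := by omega
    rw [h2] at hg₀
    exact (Nat.odd_mul.mp (Nat.odd_mul.mp hg₀).1).2
  have hk3 : 3 ≤ k := by
    obtain ⟨j, hj⟩ := hkodd
    omega
  have hi5 : Nat.card (Sylow 2 G) ≤ 5 := by
    by_contra h
    push Not at h
    have : 3 * 6 ≤ k * Nat.card (Sylow 2 G) := Nat.mul_le_mul hk3 h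
    omega
  -- the embedding
  have hdvd : Nat.card G ∣ 120 := by
    have hker := (MonoidHom.normal_ker (MulAction.toPermHom G (Sylow 2 G))).eq_bot_or_eq_top
    rcases hker with h | h
    · have hinj := (MonoidHom.ker_eq_bot_iff _).mp h
      have h1 := card_dvd_of_injective _ hinj
      rw [Nat.card_perm] at h1
      exact h1.trans (Nat.factorial_dvd_factorial hi5)
    · exfalso
      have hall : ∀ g : G, g ∈ normalizer ((T : Subgroup G) : Set G) := by
        intro g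
        apply (Sylow.smul_eq_iff_mem_normalizer (g := g) (P := T)).mp
        have : g ∈ (MulAction.toPermHom G (Sylow 2 G)).ker := by rw [h]; trivial
        rw [MonoidHom.mem_ker] at this
        have h2 := congrArg (fun σ : Equiv.Perm (Sylow 2 G) => σ T) this
        simpa using h2
      have hnorm : (T : Subgroup G).Normal :=
        normalizer_eq_top_iff.mp ((eq_top_iff' _).mpr hall)
      rcases hnorm.eq_bot_or_eq_top with h' | h'
      · rw [h'] at hT4'; simp at hT4'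
      · rw [h', card_top] at hT4'; exact hG4 hT4'
  have hc'pos : 0 < c' := by
    rcases Nat.eq_zero_or_pos c' with h | h
    · rw [h, mul_zero] at hc'; omega
    · exact h
  have hlow : 24 ≤ Nat.card G := by
    rw [← hGI, hc']
    calc 24 = 4 * 1 * 6 := by norm_num
      _ ≤ 4 * c' * (centralizer ({x} : Set G)).index :=
        Nat.mul_le_mul (Nat.mul_le_mul_left 4 hc'pos) hI6
  obtain ⟨d, hd⟩ := hdvd
  rw [hG] at hd hlow ⊢
  have hg30 : g₀ * d = 30 := by nlinarith
  have hg₀le : g₀ ≤ 30 := Nat.le_of_dvd (by norm_num) ⟨d, hg30.symm⟩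
  have hg₀dvd : g₀ ∣ 30 := ⟨d, hg30.symm⟩
  obtain ⟨j, hj⟩ := hg₀
  have : g₀ = 15 := by
    interval_cases g₀ <;> first | rfl | omega | (exfalso; revert hg₀dvd; decide)
  rw [this]

end casea

end Cfsg.Agent.Lib.Helper1
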