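import Mathlib
import Cfsg.Agent.Lib.Helper1.RegTools

/-! `p`-rational extensions: the index `p` step and `p`-power index (Isaacs 6.30). -/

set_option autoImplicit false
set_option linter.style.haveILetI false

namespace Cfsg.Agent.Lib.Helper1

open Cfsg Cfsg.Agent.Lib.Helper7 Cfsg.Agent.Lib.Helper24
open scoped ComplexConjugate

universe u
variable {G : Type u} [Group G] {M : Ideal AlgInt} {p : ℕ}

/-- Patching with nilpotent subgroups only. -/
theorem isIrrCharacter_of_patch_nil [Finite G] (N : Subgroup G)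
    {θ : N → ℂ} (hθ : IsIrrCharacter N θ) (f : G → ℂ) (hcf : IsClassFunction G f)
    (hres : ∀ n : N, f n = θ n)
    (hE : ∀ E : Subgroup G, Group.IsNilpotent E → IsCharacter ↥(N ⊔ E) (fun h => f h)) :
    IsIrrCharacter G f := by
  classical
  have : Fintype G := Fintype.ofFinite G
  have hgen : IsGeneralizedCharacter G f := by
    apply Helper2.brauer_characterization f hcf
    intro E p hp hEl
    have h1 := hE E (Helper2.IsElementary.isNilpotent hp hEl)
    have h2 := Helper7.isCharacter_comp_hom h1 (Subgroup.inclusion (le_sup_right : E ≤ N ⊔ E))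
    exact Helper11.genChar_of_char h2
  have hcoset : ∀ g : G, ∑ n : N, f (n * g) * (starRingEnd ℂ) (f (n * g)) = Nat.card N := by
    intro g
    have hψ := hE (Subgroup.zpowers g) (by
      have hcomm : ∀ a b : Subgroup.zpowers g, a * b = b * a := by
        intro a b
        obtain ⟨i, hi⟩ := Subgroup.mem_zpowers_iff.1 a.2
        obtain ⟨j, hj⟩ := Subgroup.mem_zpowers_iff.1 b.2
        apply Subtype.ext
        rw [Subgroup.coe_mul, Subgroup.coe_mul, ← hi, ← hj, ← zpow_add, ← zpow_add, add_comm]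
      letI : CommGroup (Subgroup.zpowers g) :=
        { (inferInstance : Group (Subgroup.zpowers g)) with mul_comm := hcomm }
      exact CommGroup.isNilpotent)
    have hNH : N ≤ N ⊔ Subgroup.zpowers g := le_sup_left
    let e : N.subgroupOf (N ⊔ Subgroup.zpowers g) ≃* N := Subgroup.subgroupOfEquivOfLe hNH
    have hirr : IsIrrCharacter (N.subgroupOf (N ⊔ Subgroup.zpowers g))
        (fun x : N.subgroupOf (N ⊔ Subgroup.zpowers g) =>
          (fun h : ↥(N ⊔ Subgroup.zpowers g) => f h) x) := by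
      have h1 := Helper25.isIrrCharacter_comp_surjective e.toMonoidHom e.surjective hθ
      have h2 : (fun x : N.subgroupOf (N ⊔ Subgroup.zpowers g) => θ (e.toMonoidHom x)) =
          fun x : N.subgroupOf (N ⊔ Subgroup.zpowers g) =>
            (fun h : ↥(N ⊔ Subgroup.zpowers g) => f h) x := by
        funext x
        exact (hres (e x)).symm
      rw [← h2]
      exact h1
    have hg : g ∈ N ⊔ Subgroup.zpowers g :=
      (le_sup_right : Subgroup.zpowers g ≤ _) (Subgroup.mem_zpowers g)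
    have h3 := Helper25.coset_norm (N.subgroupOf (N ⊔ Subgroup.zpowers g)) hψ hirr ⟨g, hg⟩
    rw [← Nat.card_congr e.toEquiv, ← h3]
    exact (Fintype.sum_equiv e.toEquiv _ _ (fun x => rfl)).symm
  have hNC : (Nat.card N : ℂ) ≠ 0 := by exact_mod_cast Nat.card_pos.ne'
  have hGC : (Nat.card G : ℂ) ≠ 0 := by exact_mod_cast Nat.card_pos.ne'
  have hnorm : classInner f f = 1 := by
    unfold classInner
    have h1 : (Nat.card N : ℂ) * ∑ g : G, f g * (starRingEnd ℂ) (f g) =
        ∑ g : G, ∑ n : N, f (n * g) * (starRingEnd ℂ) (f (n * g)) := by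
      rw [Finset.sum_comm]
      have h2 : ∀ n : N, ∑ g : G, f (n * g) * (starRingEnd ℂ) (f (n * g)) =
          ∑ g : G, f g * (starRingEnd ℂ) (f g) :=
        fun n => Fintype.sum_equiv (Equiv.mulLeft (n : G)) _ _ (fun g => rfl)
      simp only [h2, Finset.sum_const, Finset.card_univ, nsmul_eq_mul, Nat.card_eq_fintype_card]
    simp only [hcoset, Finset.sum_const, Finset.card_univ, nsmul_eq_mul] at h1
    rw [← Nat.card_eq_fintype_card] at h1
    have h3 : ∑ g : G, f g * (starRingEnd ℂ) (f g) = Nat.card G := by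
      apply mul_left_cancel₀ hNC
      rw [h1]; ring
    rw [h3, inv_mul_cancel₀ hGC]
  rcases Helper11.genChar_norm_one hgen hnorm with h | h
  · exact h
  · exfalso
    obtain ⟨d, hd0, hd⟩ := Helper7.irr_apply_one hθ
    obtain ⟨e, he0, he⟩ := Helper7.irr_apply_one h
    have h1 := hres 1
    simp only [OneMemClass.coe_one] at h1
    simp only [Pi.neg_apply, h1, hd] at he
    have h2 : ((d + e : ℕ) : ℂ) = 0 := by
      push_cast
      linear_combination -he
    have h3 : d + e = 0 := by exact_mod_cast h2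
    omega

/-- a root of unity of order prime to `p` congruent to one is one -/
theorem pr_root_one (hM : IsPModular p M) {ζ : ℂ} {r : ℕ} (hr : ¬ p ∣ r) (hζ : ζ ^ r = 1)
    (hc : MemLocalIdeal M (ζ - 1)) : ζ = 1 := by
  haveI := hM.2.1.isPrime
  by_contra hne
  have hring := (ad_unit hc).1
  have hpow : ∀ i : ℕ, MemLocalIdeal M (ζ ^ i - 1) := by
    intro i
    induction i with
    | zero => simpa using memLocalIdeal_zero (M := M)
    | succ i ih =>
      have e : ζ ^ (i + 1) - 1 = ζ ^ i * (ζ - 1) + (ζ ^ i - 1) := by ring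
      rw [e]
      exact memLocalIdeal_add (memLocalIdeal_mul_left (memLocalRing_pow hring i) hc) ih
  have hgeom : ∑ i ∈ Finset.range r, ζ ^ i = 0 := by
    have h1 := mul_geom_sum ζ r
    rw [hζ, sub_self] at h1
    exact (mul_eq_zero.1 h1).resolve_left (sub_ne_zero.2 hne)
  have h2 : MemLocalIdeal M (∑ i ∈ Finset.range r, (ζ ^ i - 1)) :=
    memLocalIdeal_sum _ _ (fun i _ => hpow i)
  rw [Finset.sum_sub_distrib, hgeom, zero_sub, Finset.sum_const, Finset.card_range,
    nsmul_eq_mul, mul_one] at h2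
  have h3 := memLocalIdeal_neg h2
  rw [neg_neg, memLocalIdeal_natCast_iff hM] at h3
  exact hr h3

/-- hypotheses on the set of exponents -/
structure PRHyp (G : Type u) [Group G] (p : ℕ) (K : Set ℕ) (r : ℕ) : Prop where
  cop : ∀ k ∈ K, Nat.Coprime k (Nat.card G)
  mem : r + 1 ∈ K
  hr : ¬ p ∣ r

theorem PRHyp.subgroup [Finite G] {K : Set ℕ} {r : ℕ} (h : PRHyp G p K r) (H : Subgroup G) :
    PRHyp H p K r where
  cop := fun k hk => Nat.Coprime.coprime_dvd_right (Subgroup.card_subgroup_dvd_card H) (h.cop k hk)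
  mem := h.mem
  hr := h.hr

/-- two fixed characters differing by a linear character of `p`-power order agree -/
theorem pr_eq_of_linear {X : Type u} [Group X] (hp : p.Prime) {r j : ℕ} (hr : ¬ p ∣ r)
    {ψ : X → ℂ} (b : X →* ℂˣ) (hb : ∀ x, b x ^ (p ^ j) = 1)
    (h1 : ∀ x, ψ (x ^ (r + 1)) = ψ x)
    (h2 : ∀ x, (b (x ^ (r + 1)) : ℂ) * ψ (x ^ (r + 1)) = (b x : ℂ) * ψ x) (x : X) :
    (b x : ℂ) * ψ x = ψ x := by
  by_cases h0 : ψ x = 0
  · rw [h0, mul_zero]
  · have h3 := h2 x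
    rw [h1, map_pow] at h3
    have h4 : ((b x ^ (r + 1) : ℂˣ) : ℂ) = (b x : ℂ) := mul_right_cancel₀ h0 h3
    have h5 : b x ^ (r + 1) = b x := Units.ext h4
    have h6 : b x ^ r = 1 := by
      rw [pow_succ] at h5
      exact mul_eq_right.1 h5
    have hc : Nat.Coprime r (p ^ j) :=
      (Nat.Coprime.pow_left j ((Nat.Prime.coprime_iff_not_dvd hp).2 hr)).symm
    have h7 := pow_gcd_eq_one.2 ⟨h6, hb x⟩
    rw [Nat.Coprime.gcd_eq_one hc, pow_one] at h7
    rw [h7]; simp

/-- the index `p` step -/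
theorem pr_step {X : Type u} [Group X] [Finite X] (hp : p.Prime) (L : Subgroup X) [hL : L.Normal]
    (hidx : L.index = p) {K : Set ℕ} {r : ℕ} (hK : PRHyp X p K r) (η : L → ℂ)
    (hη : IsIrrCharacter L η) (hinv : ∀ (g : X) (n : L), η (MulAut.conjNormal g n) = η n)
    (hηK : ∀ k ∈ K, ∀ n : L, η (n ^ k) = η n) :
    ∃ ψ : X → ℂ, IsIrrCharacter X ψ ∧ (∀ n : L, ψ n = η n) ∧ ∀ k ∈ K, ∀ x, ψ (x ^ k) = ψ x := by
  classical
  have hcyc : IsCyclic (X ⧸ L) := by
    haveI : Fact p.Prime := ⟨hp⟩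
    exact isCyclic_of_prime_card (p := p) hidx
  obtain ⟨ψ₀, hψ₀, hψ₀L⟩ := Helper25.exists_extension_of_cyclic_quotient L hcyc η hη hinv
  have hpowirr : ∀ {ψ : X → ℂ}, IsIrrCharacter X ψ → ∀ k ∈ K,
      IsIrrCharacter X (fun x => ψ (x ^ k)) := fun hψ k hk =>
    Helper11.isIrrCharacter_pow_coprime hψ (hK.cop k hk)
  have hpowext : ∀ {ψ : X → ℂ}, (∀ n : L, ψ n = η n) → ∀ k ∈ K,
      ∀ n : L, (fun x => ψ (x ^ k)) (n : X) = η n := by
    intro ψ hψ k hk n
    have := hψ (n ^ k)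
    rw [Subgroup.coe_pow] at this
    show ψ ((n : X) ^ k) = η n
    rw [this, hηK k hk]
  have hbp : ∀ b : X →* ℂˣ, (∀ n : L, b n = 1) → ∀ x, b x ^ (p ^ 1) = 1 := by
    intro b hb x
    rw [pow_one, ← map_pow]
    have : x ^ p ∈ L := by rw [← hidx]; exact Subgroup.pow_index_mem L x
    exact hb ⟨_, this⟩
  obtain ⟨b₀, hb₀L, hb₀⟩ := Helper25.exists_linear_of_extensions L hη hψ₀
    (hpowirr hψ₀ _ hK.mem) hψ₀L (hpowext hψ₀L _ hK.mem)
  have hb₀p : b₀ ^ p = 1 := by
    ext x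
    have := hbp b₀ hb₀L x
    rw [pow_one] at this
    simp [this]
  have hcop : Nat.Coprime r (orderOf b₀) :=
    Nat.Coprime.coprime_dvd_right (orderOf_dvd_of_pow_eq_one hb₀p)
      ((Nat.Prime.coprime_iff_not_dvd hp).2 hK.hr).symm
  obtain ⟨m, hm⟩ := exists_pow_eq_self_of_coprime hcop
  let μ : X →* ℂˣ := (b₀ ^ m)⁻¹
  have hμr : ∀ x, μ x ^ r * b₀ x = 1 := by
    intro x
    have h1 : ((b₀ x) ^ r) ^ m = b₀ x := by
      have := congrArg (fun f : X →* ℂˣ => f x) hm
      simpa using this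
    have h2 : μ x = ((b₀ x) ^ m)⁻¹ := by
      show ((b₀ ^ m)⁻¹ : X →* ℂˣ) x = _
      simp
    rw [h2, inv_pow, ← pow_mul, mul_comm m r, pow_mul, h1, inv_mul_cancel]
  have hμL : ∀ n : L, μ n = 1 := by
    intro n
    show ((b₀ ^ m)⁻¹ : X →* ℂˣ) n = 1
    simp [hb₀L n]
  let ψ : X → ℂ := fun x => (μ x : ℂ) * ψ₀ x
  have hψ : IsIrrCharacter X ψ := Helper25.isIrrCharacter_linear_mul μ hψ₀
  have hψL : ∀ n : L, ψ n = η n := by
    intro n
    show (μ n : ℂ) * ψ₀ n = η n
    rw [hμL, hψ₀L]; simp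
  have hψfix : ∀ x, ψ (x ^ (r + 1)) = ψ x := by
    intro x
    show (μ (x ^ (r + 1)) : ℂ) * ψ₀ (x ^ (r + 1)) = (μ x : ℂ) * ψ₀ x
    have h1 : ψ₀ (x ^ (r + 1)) = (b₀ x : ℂ) * ψ₀ x := congrFun hb₀ x
    rw [h1, map_pow, pow_succ]
    have h2 := congrArg (fun u : ℂˣ => (u : ℂ)) (hμr x)
    simp only [Units.val_mul, Units.val_pow_eq_pow_val, Units.val_one] at h2
    push_cast
    linear_combination (μ x : ℂ) * ψ₀ x * h2
  refine ⟨ψ, hψ, hψL, ?_⟩
  intro k hk x
  obtain ⟨b, hbL, hb⟩ := Helper25.exists_linear_of_extensions L hη hψ (hpowirr hψ k hk) hψL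
    (hpowext hψL k hk)
  have hbx : ∀ y, ψ (y ^ k) = (b y : ℂ) * ψ y := fun y => congrFun hb y
  rw [hbx]
  apply pr_eq_of_linear hp hK.hr b (hbp b hbL) hψfix
  intro y
  rw [← hbx, ← hbx, ← pow_mul, mul_comm, pow_mul, hψfix]

/-- uniqueness of fixed extensions for `p`-power index -/
theorem pr_unique_ppow {X : Type u} [Group X] [Finite X] (hp : p.Prime) (L : Subgroup X)
    [hL : L.Normal] {j : ℕ} (hidx : L.index = p ^ j) {r : ℕ} (hr : ¬ p ∣ r) {η : L → ℂ}
    (hη : IsIrrCharacter L η) {ψ ψ' : X → ℂ} (hψ : IsIrrCharacter X ψ) (hψ' : IsIrrCharacter X ψ')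
    (hext : ∀ n : L, ψ n = η n) (hext' : ∀ n : L, ψ' n = η n)
    (hfix : ∀ x, ψ (x ^ (r + 1)) = ψ x) (hfix' : ∀ x, ψ' (x ^ (r + 1)) = ψ' x) : ψ' = ψ := by
  obtain ⟨b, hbL, hb⟩ := Helper25.exists_linear_of_extensions L hη hψ hψ' hext hext'
  have hbx : ∀ y, ψ' y = (b y : ℂ) * ψ y := fun y => congrFun hb y
  funext x
  rw [hbx]
  apply pr_eq_of_linear hp hr b (j := j) _ hfix
  · intro y
    rw [← hbx, ← hbx, hfix']
  · intro y
    rw [← map_pow]
    have : y ^ (p ^ j) ∈ L := by rw [← hidx]; exact Subgroup.pow_index_mem L y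
    exact hbL ⟨_, this⟩

/-- Isaacs 6.30 (existence) -/
theorem pr_ppow_aux (hp : p.Prime) {K : Set ℕ} {r : ℕ} : ∀ (j : ℕ) (X : Type u) [Group X] [Finite X]
    (N : Subgroup X) [hN : N.Normal], N.index = p ^ j → PRHyp X p K r → ∀ θ : IrrCharacter N,
    (∀ k ∈ K, ∀ n : N, (θ : N → ℂ) (n ^ k) = (θ : N → ℂ) n) →
    (∀ (g : X) (n : N), (θ : N → ℂ) (MulAut.conjNormal g n) = (θ : N → ℂ) n) →
    ∃ χ : IrrCharacter X, (∀ k ∈ K, ∀ g : X, (χ : X → ℂ) (g ^ k) = (χ : X → ℂ) g) ∧
      ∀ n : N, (χ : X → ℂ) n = (θ : N → ℂ) n := by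
  intro j
  induction j with
  | zero =>
    intro X _ _ N hN hj hK θ hθ hinv
    rw [pow_zero, Subgroup.index_eq_one] at hj
    have hsub : Subsingleton (X ⧸ N) := by
      rw [hj]; exact QuotientGroup.subsingleton_quotient_top
    obtain ⟨χ, hχ, hχN⟩ := Helper25.exists_extension_of_cyclic_quotient N
      isCyclic_of_subsingleton (θ : N → ℂ) θ.2 hinv
    refine ⟨⟨χ, hχ⟩, ?_, hχN⟩
    intro k hk g
    have hg : g ∈ N := by rw [hj]; exact Subgroup.mem_top g
    have h1 := hχN (⟨g, hg⟩ ^ k)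
    have h2 := hχN ⟨g, hg⟩
    rw [Subgroup.coe_pow] at h1
    show χ (g ^ k) = χ g
    rw [h1, h2, hθ k hk]
  | succ j ih =>
    intro X _ _ N hN hj hK θ hθ hinv
    haveI : Fact p.Prime := ⟨hp⟩
    have hpg : IsPGroup p (X ⧸ N) := IsPGroup.of_card (n := j + 1) hj
    haveI : Group.IsNilpotent (X ⧸ N) := hpg.isNilpotent
    haveI : Nontrivial (X ⧸ N) := by
      rw [← Finite.one_lt_card_iff_nontrivial]
      have : Nat.card (X ⧸ N) = p ^ (j + 1) := hj
      rw [this]
      exact Nat.one_lt_pow (by omega) hp.one_lt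
    obtain ⟨Mb, hMbn, hMbp⟩ := Helper1.exists_normal_prime_index (G := X ⧸ N)
    let L : Subgroup X := Mb.comap (QuotientGroup.mk' N)
    haveI hMn : L.Normal := hMbn.comap _
    have hMidx : L.index = Mb.index :=
      Subgroup.index_comap_of_surjective Mb (QuotientGroup.mk'_surjective N)
    have hNM : N ≤ L := by
      intro n hn
      show QuotientGroup.mk' N n ∈ Mb
      have : QuotientGroup.mk' N n = 1 := (QuotientGroup.eq_one_iff n).2 hn
      rw [this]
      exact Mb.one_mem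
    have hidx := Subgroup.relIndex_mul_index hNM
    have hMp : L.index.Prime := hMidx ▸ hMbp
    have hLp : L.index = p := by
      have h1 : L.index ∣ p ^ (j + 1) := by rw [← hj, ← hidx]; exact Dvd.intro_left _ rfl
      exact (Nat.prime_dvd_prime_iff_eq hMp hp).1 (hMp.dvd_of_dvd_pow h1)
    let N' : Subgroup L := N.subgroupOf L
    have hN'idx : N'.index = p ^ j := by
      have h1 : N'.index = N.relIndex L := rfl
      rw [hLp, hj, pow_succ] at hidx
      rw [h1]
      exact Nat.eq_of_mul_eq_mul_right hp.pos hidx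
    let e' : N' ≃* N := Subgroup.subgroupOfEquivOfLe hNM
    let θ' : IrrCharacter N' := mapIrr e' θ
    have hθ' : ∀ k ∈ K, ∀ n : N', (θ' : N' → ℂ) (n ^ k) = (θ' : N' → ℂ) n := by
      intro k hk n
      show (θ : N → ℂ) (e' (n ^ k)) = (θ : N → ℂ) (e' n)
      rw [map_pow, hθ k hk]
    have hinvG : ∀ (g : X) (x : N') (y : N'), ((y : L) : X) = g * ((x : L) : X) * g⁻¹ →
        (θ' : N' → ℂ) y = (θ' : N' → ℂ) x := by
      intro g x y hy
      show (θ : N → ℂ) (e' y) = (θ : N → ℂ) (e' x)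
      rw [← hinv g (e' x)]
      apply congrArg
      apply Subtype.ext
      rw [MulAut.conjNormal_apply]
      exact hy
    have hinv' : ∀ (m : L) (x : N'), (θ' : N' → ℂ) (MulAut.conjNormal m x) = (θ' : N' → ℂ) x := by
      intro m x
      apply hinvG (m : X) x
      simp [MulAut.conjNormal_apply]
    obtain ⟨η, hη, hηN⟩ := ih L N' hN'idx (hK.subgroup L) θ' hθ' hinv'
    have hηinv : ∀ (g : X) (m : L), (η : L → ℂ) (MulAut.conjNormal g m) = (η : L → ℂ) m := by
      intro g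
      let ηg : IrrCharacter L := mapIrr (MulAut.conjNormal g : MulAut L) η
      have hextg : ∀ x : N', (ηg : L → ℂ) x = (θ' : N' → ℂ) x := by
        intro x
        have hmem : (MulAut.conjNormal g (x : L) : L) ∈ N' := by
          show ((MulAut.conjNormal g (x : L) : L) : X) ∈ N
          rw [MulAut.conjNormal_apply]
          exact hN.conj_mem _ x.2 g
        have h1 := hηN ⟨_, hmem⟩
        simp only at h1
        show (η : L → ℂ) (MulAut.conjNormal g (x : L)) = (θ' : N' → ℂ) x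
        rw [h1]
        apply hinvG g x
        simp [MulAut.conjNormal_apply]
      have hfix : ∀ m : L, (ηg : L → ℂ) (m ^ (r + 1)) = (ηg : L → ℂ) m := by
        intro m
        show (η : L → ℂ) (MulAut.conjNormal g (m ^ (r + 1))) = (η : L → ℂ) (MulAut.conjNormal g m)
        rw [map_pow, hη _ hK.mem]
      have := pr_unique_ppow hp N' hN'idx hK.hr θ'.2 η.2 ηg.2 hηN hextg (hη _ hK.mem) hfix
      intro m
      exact congrFun this m
    obtain ⟨χ, hχ, hχK, hχfix⟩ := pr_step hp L hLp hK (η : L → ℂ) η.2 hηinv hη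
    refine ⟨⟨χ, hχ⟩, hχfix, fun n => ?_⟩
    have h1 := hχK ⟨n, hNM n.2⟩
    simp only at h1
    show χ n = _
    rw [h1]
    have h2 := hηN ⟨⟨n, hNM n.2⟩, n.2⟩
    simp only at h2
    rw [h2]
    rfl

end Cfsg.Agent.Lib.Helper1
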