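import Mathlib
import Cfsg.Agent.Lib.Helper1.PRatA
import Cfsg.Agent.Lib.Helper15.Thompson2

/-! `p`-rational extensions in the principal block: good extensions. -/

set_option autoImplicit false
set_option linter.style.haveILetI false

namespace Cfsg.Agent.Lib.Helper1

open Cfsg Cfsg.Agent.Lib.Helper7 Cfsg.Agent.Lib.Helper24
open scoped ComplexConjugate

universe u
variable {G : Type u} [Group G] {M : Ideal AlgInt} {p : ℕ}

/-- elements of order prime to `p` modulo `N` centralizing a subgroup of `N` of index prime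
to `p` -/
def prGood (p : ℕ) (N : Subgroup G) : Set G :=
  {c | (∃ m : ℕ, ¬ p ∣ m ∧ c ^ m ∈ N) ∧
    ∃ Q : Subgroup G, Q ≤ N ∧ ¬ p ∣ Q.relIndex N ∧ Q ≤ Subgroup.centralizer {c}}

theorem prGood_conj (N : Subgroup G) [hN : N.Normal] {c : G} (hc : c ∈ prGood p N) (x : G) :
    x * c * x⁻¹ ∈ prGood p N := by
  obtain ⟨⟨m, hm, hcm⟩, Q, h1, h2, h3⟩ := hc
  refine ⟨⟨m, hm, ?_⟩, Q.map (MulAut.conj x).toMonoidHom, ?_, ?_, ?_⟩
  · rw [conj_pow]
    exact hN.conj_mem _ hcm x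
  · rintro _ ⟨q, hq, rfl⟩
    exact hN.conj_mem q (h1 hq) x
  · have hNmap : N.map (MulAut.conj x).toMonoidHom = N := by
      apply le_antisymm
      · rintro _ ⟨q, hq, rfl⟩
        exact hN.conj_mem q hq x
      · intro n hn
        refine ⟨x⁻¹ * n * x, ?_, ?_⟩
        · have := hN.conj_mem n hn x⁻¹
          simpa using this
        · simp [MulAut.conj_apply, mul_assoc]
    have : (Q.map (MulAut.conj x).toMonoidHom).relIndex N = Q.relIndex N := by
      conv_lhs => rw [← hNmap]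
      exact Subgroup.relIndex_map_map_of_injective Q N (MulAut.conj x).injective
    rw [this]
    exact h2
  · rintro _ ⟨q, hq, rfl⟩
    have h5 := h3 hq
    rw [Subgroup.mem_centralizer_singleton_iff] at h5 ⊢
    simp only [MulEquiv.coe_toMonoidHom, MulAut.conj_apply]
    calc x * q * x⁻¹ * (x * c * x⁻¹) = x * (q * c) * x⁻¹ := by group
      _ = x * (c * q) * x⁻¹ := by rw [h5]
      _ = x * c * x⁻¹ * (x * q * x⁻¹) := by group

theorem prGood_pow (N : Subgroup G) {c : G} (hc : c ∈ prGood p N) (k : ℕ) :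
    c ^ k ∈ prGood p N := by
  obtain ⟨⟨m, hm, hcm⟩, Q, h1, h2, h3⟩ := hc
  refine ⟨⟨m, hm, ?_⟩, Q, h1, h2, ?_⟩
  · rw [← pow_mul, mul_comm, pow_mul]
    exact N.pow_mem hcm k
  · intro q hq
    have h5 := h3 hq
    rw [Subgroup.mem_centralizer_singleton_iff] at h5 ⊢
    exact (Commute.pow_right (show Commute q c from h5) k)

/-- good elements are Alperin--Dade good in an overgroup of index prime to `p` -/
theorem prGood_adGood (hp : p.Prime) {N H : Subgroup G} (hNH : N ≤ H) (hidx : ¬ p ∣ N.relIndex H)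
    (c : H) (hc : (c : G) ∈ prGood p N) : c ∈ adGood p (N.subgroupOf H) := by
  obtain ⟨-, Q, h1, h2, h3⟩ := hc
  refine ⟨Q.subgroupOf H, ?_, ?_, ?_⟩
  · intro x hx
    exact h1 hx
  · intro h
    have h4 : (Q.subgroupOf H).index = Q.relIndex N * N.relIndex H :=
      (Subgroup.relIndex_mul_relIndex Q N H h1 hNH).symm
    rw [h4] at h
    rcases (hp.dvd_mul).1 h with h | h
    · exact h2 h
    · exact hidx h
  · intro x hx
    have h5 := h3 hx
    rw [Subgroup.mem_centralizer_singleton_iff] at h5 ⊢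
    exact Subtype.ext h5

section

variable [Finite G] (M) (p) (K : Set ℕ) (N : Subgroup G) [hN : N.Normal] (θ : N → ℂ)

/-- `ψ` is a character of `H` extending `θ`, congruent to its degree on good elements and
fixed by the power maps in `K`. -/
def IsPRExt (H : Subgroup G) (ψ : H → ℂ) : Prop :=
  IsCharacter H ψ ∧ (∀ (n : N) (h : (n : G) ∈ H), ψ ⟨n, h⟩ = θ n) ∧
    (∀ c : H, (c : G) ∈ prGood p N → MemLocalIdeal M (ψ c / θ 1 - 1)) ∧
    ∀ k ∈ K, ∀ x : H, ψ (x ^ k) = ψ x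

variable {M p K N θ}

omit hN [Finite G] in
theorem IsPRExt.restrict_irr (hθ : IsIrrCharacter N θ) {H : Subgroup G} (hNH : N ≤ H)
    {ψ : H → ℂ} (h : IsPRExt M p K N θ H ψ) :
    IsIrrCharacter (N.subgroupOf H) (fun x : N.subgroupOf H => ψ x) := by
  let e : N.subgroupOf H ≃* N := Subgroup.subgroupOfEquivOfLe hNH
  have h1 := Cfsg.Agent.Lib.Helper25.isIrrCharacter_comp_surjective e.toMonoidHom e.surjective hθ
  have h2 : (fun x : N.subgroupOf H => θ (e.toMonoidHom x)) = fun x : N.subgroupOf H => ψ x := by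
    funext x
    exact (h.2.1 (e x) x.1.2).symm
  rw [← h2]
  exact h1

omit hN in
theorem IsPRExt.irr (hθ : IsIrrCharacter N θ) {H : Subgroup G} (hNH : N ≤ H)
    {ψ : H → ℂ} (h : IsPRExt M p K N θ H ψ) : IsIrrCharacter H ψ :=
  Cfsg.Agent.Lib.Helper25.isIrrCharacter_of_restrict (N.subgroupOf H) h.1 (h.restrict_irr hθ hNH)

theorem IsPRExt.unique (hM : IsPModular p M) {r : ℕ} (hK : PRHyp G p K r)
    (hθ : IsIrrCharacter N θ)
    (hcov : ∀ x : G, (∃ m : ℕ, ¬ p ∣ m ∧ x ^ m ∈ N) → ∃ n ∈ N, ∃ c ∈ prGood p N, x = n * c)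
    {H : Subgroup G} (hNH : N ≤ H)
    {ψ ψ' : H → ℂ} (h : IsPRExt M p K N θ H ψ) (h' : IsPRExt M p K N θ H ψ') : ψ' = ψ := by
  classical
  haveI := hM.2.1.isPrime
  have hp := hM.1
  obtain ⟨b, hbN, hb⟩ := Helper25.exists_linear_of_extensions (N.subgroupOf H)
    (h.restrict_irr hθ hNH) (h.irr hθ hNH) (h'.irr hθ hNH) (fun _ => rfl) (fun x => by
      have h1 := h.2.1 ⟨x, x.2⟩ x.1.2
      have h2 := h'.2.1 ⟨x, x.2⟩ x.1.2
      exact h2.trans h1.symm)
  have hbx : ∀ y, ψ' y = (b y : ℂ) * ψ y := fun y => congrFun hb y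
  funext x
  rw [hbx]
  by_cases h0 : ψ x = 0
  · rw [h0, mul_zero]
  have h3 := h'.2.2.2 _ hK.mem x
  rw [hbx, hbx, h.2.2.2 _ hK.mem x, map_pow] at h3
  have h4 : ((b x ^ (r + 1) : ℂˣ) : ℂ) = (b x : ℂ) := mul_right_cancel₀ h0 h3
  have h5 : b x ^ (r + 1) = b x := Units.ext h4
  have h6 : b x ^ r = 1 := by
    rw [pow_succ] at h5
    exact mul_eq_right.1 h5
  obtain ⟨a, m, hm, ham⟩ := Nat.exists_eq_pow_mul_and_not_dvd (Nat.card_pos (α := G)).ne' p
    hp.ne_one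
  obtain ⟨n, hn, c, hc, hxc⟩ := hcov ((x : G) ^ (p ^ a)) ⟨m, hm, by
    rw [← pow_mul, ← ham, pow_card_eq_one']; exact N.one_mem⟩
  have hcH : c ∈ H := by
    have : c = n⁻¹ * (x : G) ^ (p ^ a) := by rw [hxc]; group
    rw [this]
    exact H.mul_mem (H.inv_mem (hNH hn)) (H.pow_mem x.2 _)
  have hbc : b ⟨c, hcH⟩ = b x ^ (p ^ a) := by
    rw [← map_pow]
    have e1 : x ^ (p ^ a) = (⟨n, hNH hn⟩ : H) * ⟨c, hcH⟩ := Subtype.ext hxc
    rw [e1, map_mul]
    have := hbN ⟨⟨n, hNH hn⟩, hn⟩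
    simp only at this
    rw [this, one_mul]
  have h7 := ad_div (h.2.2.1 ⟨c, hcH⟩ hc) (h'.2.2.1 ⟨c, hcH⟩ hc)
  have h8 := ne_zero_of_not_memLocalIdeal (ad_unit (h.2.2.1 ⟨c, hcH⟩ hc)).2
  have hθ1 := irr_apply_one_ne_zero hθ
  have h9 : ψ ⟨c, hcH⟩ ≠ 0 := fun h => h8 (by rw [h, zero_div])
  have h10 : ψ' ⟨c, hcH⟩ / θ 1 / (ψ ⟨c, hcH⟩ / θ 1) = (b ⟨c, hcH⟩ : ℂ) := by
    rw [hbx]
    field_simp
  rw [h10] at h7
  have h11 : ((b ⟨c, hcH⟩ : ℂˣ) : ℂ) ^ r = 1 := by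
    rw [hbc, ← Units.val_pow_eq_pow_val, ← pow_mul, mul_comm, pow_mul, h6, one_pow]
    rfl
  have h12 := pr_root_one hM hK.hr h11 h7
  have h13 : b x ^ (p ^ a) = 1 := by
    rw [← hbc]
    exact Units.ext h12
  have hc' : Nat.Coprime r (p ^ a) :=
    (Nat.Coprime.pow_left a ((Nat.Prime.coprime_iff_not_dvd hp).2 hK.hr)).symm
  have h14 := pow_gcd_eq_one.2 ⟨h6, h13⟩
  rw [Nat.Coprime.gcd_eq_one hc', pow_one] at h14
  rw [h14]; simp

omit hN [Finite G] in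
theorem IsPRExt.pull {H H' : Subgroup G} (c : H' →* H)
    (hc : ∀ (n : N) (h' : (n : G) ∈ H'), ∃ n' : N, (c ⟨n, h'⟩ : G) = n' ∧ θ n' = θ n)
    (hg : ∀ h : H', (h : G) ∈ prGood p N → (c h : G) ∈ prGood p N) {ψ : H → ℂ}
    (h : IsPRExt M p K N θ H ψ) : IsPRExt M p K N θ H' (ψ ∘ c) := by
  refine ⟨Helper7.isCharacter_comp_hom h.1 c, ?_, ?_, ?_⟩
  · intro n h'
    obtain ⟨n', hn', hθn⟩ := hc n h'
    rw [← hθn, Function.comp_apply]
    have h1 : (n' : G) ∈ H := by rw [← hn']; exact (c ⟨n, h'⟩).2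
    rw [← h.2.1 n' h1]
    congr 1
    exact Subtype.ext hn'
  · intro x hx
    exact h.2.2.1 (c x) (hg x hx)
  · intro k hk x
    rw [Function.comp_apply, Function.comp_apply, map_pow]
    exact h.2.2.2 k hk (c x)

end

end Cfsg.Agent.Lib.Helper1
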