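import Mathlib
import Cfsg.Agent.Lib.Helper1.PRatB

/-! `p`-rational extensions in the principal block: existence. -/

set_option autoImplicit false
set_option linter.style.haveILetI false

namespace Cfsg.Agent.Lib.Helper1

open Cfsg Cfsg.Agent.Lib.Helper7 Cfsg.Agent.Lib.Helper24
open scoped ComplexConjugate

universe u
variable {G : Type u} [Group G] {M : Ideal AlgInt} {p : ℕ}

theorem mem_of_pow_mem_coprime {X : Type*} [Group X] (L : Subgroup X) {x : X} {a b : ℕ}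
    (hab : Nat.Coprime a b) (ha : x ^ a ∈ L) (hb : x ^ b ∈ L) : x ∈ L := by
  have h0 := Nat.gcd_eq_gcd_ab a b
  rw [hab.gcd_eq_one] at h0
  have h1 : x = (x ^ a) ^ (Nat.gcdA a b) * (x ^ b) ^ (Nat.gcdB a b) := by
    rw [← zpow_natCast, ← zpow_natCast, ← zpow_mul, ← zpow_mul, ← zpow_add, ← h0]
    simp
  rw [h1]
  exact L.mul_mem (L.zpow_mem ha _) (L.zpow_mem hb _)

variable [Finite G] {K : Set ℕ} {r : ℕ} (N : Subgroup G) [hN : N.Normal]

/-- the Alperin--Dade extension is good -/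
theorem exists_isPRExt_pprime (hM : IsPModular p M) (hK : PRHyp G p K r)
    {θ : IrrCharacter N} (hθ : θ ∈ principalBlock M N)
    (hθK : ∀ k ∈ K, ∀ n : N, (θ : N → ℂ) (n ^ k) = (θ : N → ℂ) n)
    (hcov : ∀ x : G, (∃ m : ℕ, ¬ p ∣ m ∧ x ^ m ∈ N) → ∃ n ∈ N, ∃ c ∈ prGood p N, x = n * c)
    (H : Subgroup G) (hNH : N ≤ H) (hidx : ¬ p ∣ N.relIndex H) :
    ∃ χ : IrrCharacter H, χ ∈ principalBlock M H ∧
      IsPRExt M p K N (θ : N → ℂ) H (χ : H → ℂ) ∧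
      ∀ x : H, ∃ n ∈ N.subgroupOf H, ∃ c ∈ adGood p (N.subgroupOf H), x = n * c := by
  classical
  have hp := hM.1
  let N' := N.subgroupOf H
  let e : N' ≃* N := Subgroup.subgroupOfEquivOfLe hNH
  haveI : Fintype N' := Fintype.ofFinite _
  haveI : Fintype H := Fintype.ofFinite _
  have hθ' : mapIrr e θ ∈ principalBlock M N' := (mapIrr_mem_principalBlock_iff e θ).2 hθ
  have hcov' : ∀ x : H, ∃ n ∈ N', ∃ c ∈ adGood p N', x = n * c := by
    intro x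
    obtain ⟨n, hn, c, hc, hx⟩ := hcov (x : G) ⟨N.relIndex H, hidx, by
      have := Subgroup.pow_index_mem N' x
      exact this⟩
    have hcH : c ∈ H := by
      have : c = n⁻¹ * x := by rw [hx]; group
      rw [this]
      exact H.mul_mem (H.inv_mem (hNH hn)) x.2
    exact ⟨⟨n, hNH hn⟩, hn, ⟨c, hcH⟩, prGood_adGood hp hNH hidx ⟨c, hcH⟩ hc, Subtype.ext hx⟩
  obtain ⟨χ, hχ, hχN⟩ := ad_exists hM N' hcov' (mapIrr e θ) hθ'
  have hext : ∀ (n : N) (h : (n : G) ∈ H), (χ : H → ℂ) ⟨n, h⟩ = (θ : N → ℂ) n :=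
    fun n h => hχN ⟨⟨n, h⟩, n.2⟩
  refine ⟨χ, hχ, ⟨Helper7.isCharacter_of_irr χ.2, hext, ?_, ?_⟩, hcov'⟩
  · intro c hc
    have h1 := ad_ratio_good hM N' hχ (prGood_adGood hp hNH hidx c hc)
    have h2 : (χ : H → ℂ) 1 = (θ : N → ℂ) 1 := hext 1 (Subgroup.one_mem _)
    rwa [h2] at h1
  · intro k hk x
    have hk' := (hK.subgroup H).cop k hk
    have hpB : powIrr hk' χ ∈ principalBlock M H := by
      rw [mem_principalBlock_iff hM, rt_Om_powIrr]
      exact (mem_principalBlock_iff hM χ).1 hχ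
    have hpe : ∀ n : N', (powIrr hk' χ : H → ℂ) n = (mapIrr e θ : N' → ℂ) n := by
      intro n
      rw [powIrr_apply]
      have := hχN (n ^ k)
      rw [Subgroup.coe_pow] at this
      rw [this]
      show (θ : N → ℂ) (e (n ^ k)) = (θ : N → ℂ) (e n)
      rw [map_pow, hθK k hk]
    have := ad_unique_block hM N' hcov' (θ := mapIrr e θ) (χ := powIrr hk' χ) (χ' := χ) hpB hχ hχN
      (by
        have : (fun n : N' => (powIrr hk' χ : H → ℂ) n) = (mapIrr e θ : N' → ℂ) := funext hpe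
        rw [this, classInner_irr_self (mapIrr e θ).2]
        exact one_ne_zero)
    exact congrArg (fun z : IrrCharacter H => (z : H → ℂ) x) this

/-- climbing along a `p`-power index -/
theorem exists_isPRExt_chain (hM : IsPModular p M) (hK : PRHyp G p K r)
    {θ : IrrCharacter N} (hθ : θ ∈ principalBlock M N)
    (hθK : ∀ k ∈ K, ∀ n : N, (θ : N → ℂ) (n ^ k) = (θ : N → ℂ) n)
    (hinv : ∀ (g : G) (n : N), (θ : N → ℂ) (MulAut.conjNormal g n) = (θ : N → ℂ) n)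
    (hcov : ∀ x : G, (∃ m : ℕ, ¬ p ∣ m ∧ x ^ m ∈ N) → ∃ n ∈ N, ∃ c ∈ prGood p N, x = n * c)
    (H₁ H : Subgroup G) (hNH₁ : N ≤ H₁) (hH : H₁ ≤ H) (hnorm : (H₁.subgroupOf H).Normal)
    (hidx : ¬ p ∣ N.relIndex H₁) (j : ℕ) (hj : (H₁.subgroupOf H).index = p ^ j) :
    ∃ ψ : H → ℂ, IsPRExt M p K N (θ : N → ℂ) H ψ := by
  classical
  have hp := hM.1
  obtain ⟨ξ, -, hξ, -⟩ := exists_isPRExt_pprime N hM hK hθ hθK hcov H₁ hNH₁ hidx
  let L := H₁.subgroupOf H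
  let e : L ≃* H₁ := Subgroup.subgroupOfEquivOfLe hH
  let ξ' : IrrCharacter L := mapIrr e ξ
  have hfix : ∀ k ∈ K, ∀ n : L, (ξ' : L → ℂ) (n ^ k) = (ξ' : L → ℂ) n := by
    intro k hk n
    show (ξ : H₁ → ℂ) (e (n ^ k)) = (ξ : H₁ → ℂ) (e n)
    rw [map_pow, hξ.2.2.2 k hk]
  have hinv' : ∀ (g : H) (n : L), (ξ' : L → ℂ) (MulAut.conjNormal g n) = (ξ' : L → ℂ) n := by
    intro g n
    have hmem : ∀ h : H₁, (g : G) * h * (g : G)⁻¹ ∈ H₁ := by
      intro h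
      have := hnorm.conj_mem ⟨h, hH h.2⟩ h.2 g
      exact this
    let c : H₁ →* H₁ :=
      ((MulAut.conj (g : G)).toMonoidHom.comp H₁.subtype).codRestrict H₁ (fun h => hmem h)
    have hpull := IsPRExt.pull (M := M) (p := p) (K := K) (N := N) (θ := (θ : N → ℂ)) c
      (fun n h' => ⟨MulAut.conjNormal (g : G) n, rfl, hinv g n⟩)
      (fun h hh => prGood_conj N hh g) hξ
    have h1 := IsPRExt.unique hM hK θ.2 hcov hNH₁ hξ hpull
    have h2 := congrFun h1 (e n)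
    show (ξ : H₁ → ℂ) (e (MulAut.conjNormal g n)) = (ξ : H₁ → ℂ) (e n)
    rw [← h2]
    rfl
  obtain ⟨χ, hχfix, hχL⟩ := pr_ppow_aux hp j H L hj (hK.subgroup H) ξ' hfix hinv'
  refine ⟨χ, Helper7.isCharacter_of_irr χ.2, ?_, ?_, hχfix⟩
  · intro n h
    have h1 := hχL ⟨⟨n, h⟩, hNH₁ n.2⟩
    simp only at h1
    rw [h1]
    exact hξ.2.1 n (hNH₁ n.2)
  · intro c hc
    obtain ⟨⟨m, hm, hcm⟩, -⟩ := id hc
    have hcL : c ∈ L := by
      apply mem_of_pow_mem_coprime L (a := m) (b := p ^ j)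
      · exact (Nat.Coprime.pow_left j ((Nat.Prime.coprime_iff_not_dvd hp).2 hm)).symm
      · exact hNH₁ hcm
      · rw [← hj]; exact Subgroup.pow_index_mem L c
    have h1 := hχL ⟨c, hcL⟩
    simp only at h1
    rw [h1]
    exact hξ.2.2.1 (e ⟨c, hcL⟩) hc

/-- existence over nilpotent subgroups -/
theorem exists_isPRExt_nil (hM : IsPModular p M) (hK : PRHyp G p K r)
    {θ : IrrCharacter N} (hθ : θ ∈ principalBlock M N)
    (hθK : ∀ k ∈ K, ∀ n : N, (θ : N → ℂ) (n ^ k) = (θ : N → ℂ) n)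
    (hinv : ∀ (g : G) (n : N), (θ : N → ℂ) (MulAut.conjNormal g n) = (θ : N → ℂ) n)
    (hcov : ∀ x : G, (∃ m : ℕ, ¬ p ∣ m ∧ x ^ m ∈ N) → ∃ n ∈ N, ∃ c ∈ prGood p N, x = n * c)
    (E : Subgroup G) (hE : Group.IsNilpotent E) :
    ∃ ψ : ↥(N ⊔ E) → ℂ, IsPRExt M p K N (θ : N → ℂ) (N ⊔ E) ψ := by
  classical
  have hp := hM.1
  haveI : Fact p.Prime := ⟨hp⟩
  obtain ⟨P, E₁, hE₁n, hc⟩ := Cfsg.Agent.Lib.Helper15.hasNormalPComplement_of_isNilpotent p hE
  let E₁' : Subgroup G := E₁.map E.subtype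
  have hE₁E : E₁' ≤ E := Subgroup.map_subtype_le E₁
  let H₁ : Subgroup G := N ⊔ E₁'
  have hNH₁ : N ≤ H₁ := le_sup_left
  have hH : H₁ ≤ N ⊔ E := sup_le_sup_left hE₁E N
  have hcardE₁ : ¬ p ∣ Nat.card E₁ := by
    rw [← hc.index_eq_card]
    exact P.not_dvd_index
  have hidx : ¬ p ∣ N.relIndex H₁ := by
    intro hd
    apply hcardE₁
    have h1 : N.relIndex H₁ = N.relIndex E₁' := Subgroup.relIndex_sup_left E₁' N
    have h2 : N.relIndex E₁' ∣ Nat.card E₁' := Subgroup.index_dvd_card _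
    have h3 : Nat.card E₁' = Nat.card E₁ :=
      Nat.card_congr (E₁.equivMapOfInjective E.subtype E.subtype_injective).symm.toEquiv
    rw [← h3]
    exact (h1 ▸ hd).trans h2
  have hconj : ∀ e ∈ E, ∀ x ∈ H₁, e * x * e⁻¹ ∈ H₁ := by
    intro e he
    have hle : H₁ ≤ H₁.comap (MulAut.conj e).toMonoidHom := by
      apply sup_le
      · intro n hn
        exact hNH₁ (hN.conj_mem n hn e)
      · rintro _ ⟨y, hy, rfl⟩
        apply (le_sup_right : E₁' ≤ H₁)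
        exact ⟨⟨e, he⟩ * y * ⟨e, he⟩⁻¹, hE₁n.conj_mem y hy ⟨e, he⟩, rfl⟩
    intro x hx
    exact hle hx
  have hnorm : (H₁.subgroupOf (N ⊔ E)).Normal := by
    rw [Subgroup.normal_subgroupOf_iff_le_normalizer hH]
    apply sup_le
    · exact hNH₁.trans Subgroup.le_normalizer
    · intro e he
      rw [Subgroup.mem_normalizer_iff]
      intro x
      constructor
      · exact hconj e he x
      · intro hx
        have := hconj e⁻¹ (E.inv_mem he) _ hx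
        simpa [mul_assoc] using this
  obtain ⟨a, ha⟩ := P.2.exists_card_eq
  have hE₁idx : E₁.index = p ^ a := by rw [hc.symm.index_eq_card, ha]
  have hpg : IsPGroup p (↥(N ⊔ E) ⧸ H₁.subgroupOf (N ⊔ E)) := by
    intro q
    refine ⟨a, ?_⟩
    induction q using QuotientGroup.induction_on with
    | H x =>
      obtain ⟨n, hn, e, he, hx⟩ := Subgroup.mem_sup_of_normal_left.1 x.2
      have hn' : n ∈ N ⊔ E := (le_sup_left : N ≤ N ⊔ E) hn
      have he' : e ∈ N ⊔ E := (le_sup_right : E ≤ N ⊔ E) he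
      have hx' : x = (⟨n, hn'⟩ : ↥(N ⊔ E)) * ⟨e, he'⟩ := Subtype.ext hx.symm
      have h1 : ((⟨n, hn'⟩ : ↥(N ⊔ E)) : ↥(N ⊔ E) ⧸ H₁.subgroupOf (N ⊔ E)) = 1 :=
        (QuotientGroup.eq_one_iff _).2 (hNH₁ hn)
      rw [hx', QuotientGroup.mk_mul, h1, one_mul, ← QuotientGroup.mk_pow,
        QuotientGroup.eq_one_iff]
      show e ^ (p ^ a) ∈ H₁
      apply (le_sup_right : E₁' ≤ H₁)
      have h2 : (⟨e, he⟩ : E) ^ (p ^ a) ∈ E₁ := by
        rw [← hE₁idx]; exact Subgroup.pow_index_mem E₁ _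
      exact ⟨_, h2, rfl⟩
  obtain ⟨j, hj⟩ := hpg.exists_card_eq
  exact exists_isPRExt_chain N hM hK hθ hθK hinv hcov H₁ (N ⊔ E) hNH₁ hH hnorm hidx j hj

end Cfsg.Agent.Lib.Helper1
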