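import Mathlib
import Cfsg.Agent.Lib.Helper1.PRatC

/-! `p`-rational extensions in the principal block: patching. -/

set_option autoImplicit false
set_option linter.style.haveILetI false

namespace Cfsg.Agent.Lib.Helper1

open Cfsg Cfsg.Agent.Lib.Helper7 Cfsg.Agent.Lib.Helper24
open scoped ComplexConjugate

universe u
variable {G : Type u} [Group G] {M : Ideal AlgInt} {p : ℕ}

theorem isNilpotent_zpowers' (g : G) : Group.IsNilpotent (Subgroup.zpowers g) := by
  have hcomm : ∀ a b : Subgroup.zpowers g, a * b = b * a := by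
    intro a b
    obtain ⟨i, hi⟩ := Subgroup.mem_zpowers_iff.1 a.2
    obtain ⟨j, hj⟩ := Subgroup.mem_zpowers_iff.1 b.2
    apply Subtype.ext
    rw [Subgroup.coe_mul, Subgroup.coe_mul, ← hi, ← hj, ← zpow_add, ← zpow_add, add_comm]
  letI : CommGroup (Subgroup.zpowers g) :=
    { (inferInstance : Group (Subgroup.zpowers g)) with mul_comm := hcomm }
  exact CommGroup.isNilpotent

variable [Finite G] {K : Set ℕ} {r : ℕ} (N : Subgroup G) [hN : N.Normal]

/-- the patched good extension -/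
theorem pr_exists (hM : IsPModular p M) (hK : PRHyp G p K r)
    {θ : IrrCharacter N} (hθ : θ ∈ principalBlock M N)
    (hθK : ∀ k ∈ K, ∀ n : N, (θ : N → ℂ) (n ^ k) = (θ : N → ℂ) n)
    (hinv : ∀ (g : G) (n : N), (θ : N → ℂ) (MulAut.conjNormal g n) = (θ : N → ℂ) n)
    (hcov : ∀ x : G, (∃ m : ℕ, ¬ p ∣ m ∧ x ^ m ∈ N) → ∃ n ∈ N, ∃ c ∈ prGood p N, x = n * c) :
    ∃ χ : IrrCharacter G, ∀ H : Subgroup G,
      IsPRExt M p K N (θ : N → ℂ) H (fun h : H => (χ : G → ℂ) h) := by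
  classical
  have hex : ∀ g : G, ∃ ψ, IsPRExt M p K N (θ : N → ℂ) (N ⊔ Subgroup.zpowers g) ψ := fun g =>
    exists_isPRExt_nil N hM hK hθ hθK hinv hcov (Subgroup.zpowers g) (isNilpotent_zpowers' g)
  choose Ψ hΨ using hex
  have hgmem : ∀ g : G, g ∈ N ⊔ Subgroup.zpowers g := fun g =>
    (le_sup_right : Subgroup.zpowers g ≤ _) (Subgroup.mem_zpowers g)
  let f : G → ℂ := fun g => Ψ g ⟨g, hgmem g⟩
  have F1 : ∀ (H : Subgroup G) (_ : N ≤ H) (ψ : H → ℂ), IsPRExt M p K N (θ : N → ℂ) H ψ →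
      ∀ h : H, f h = ψ h := by
    intro H hNH ψ hψ h
    have hle : N ⊔ Subgroup.zpowers (h : G) ≤ H := sup_le hNH (Subgroup.zpowers_le.2 h.2)
    have hpull := IsPRExt.pull (M := M) (p := p) (K := K) (N := N) (θ := (θ : N → ℂ))
      (Subgroup.inclusion hle) (fun n h' => ⟨n, rfl, rfl⟩) (fun h hh => hh) hψ
    have h1 := IsPRExt.unique hM hK θ.2 hcov le_sup_left (hΨ h) hpull
    show Ψ h ⟨h, _⟩ = ψ h
    rw [← h1]
    rfl
  have hcf : IsClassFunction G f := by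
    intro g x
    have hle : N ⊔ Subgroup.zpowers (x * g * x⁻¹) ≤
        (N ⊔ Subgroup.zpowers g).comap (MulAut.conj x⁻¹).toMonoidHom := by
      apply sup_le
      · intro n hn
        apply (le_sup_left : N ≤ N ⊔ Subgroup.zpowers g)
        exact hN.conj_mem n hn x⁻¹
      · rw [Subgroup.zpowers_le, Subgroup.mem_comap]
        have : (MulAut.conj x⁻¹).toMonoidHom (x * g * x⁻¹) = g := by
          simp [mul_assoc]
        rw [this]
        exact hgmem g
    let c : ↥(N ⊔ Subgroup.zpowers (x * g * x⁻¹)) →* ↥(N ⊔ Subgroup.zpowers g) :=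
      ((MulAut.conj x⁻¹).toMonoidHom.comp (N ⊔ Subgroup.zpowers (x * g * x⁻¹)).subtype).codRestrict
        (N ⊔ Subgroup.zpowers g) (fun h => hle h.2)
    have hpull := IsPRExt.pull (M := M) (p := p) (K := K) (N := N) (θ := (θ : N → ℂ)) c
      (fun n h' => ⟨MulAut.conjNormal x⁻¹ n, rfl, hinv x⁻¹ n⟩)
      (fun h hh => prGood_conj N hh x⁻¹) (hΨ g)
    have h1 := F1 _ le_sup_left _ hpull ⟨x * g * x⁻¹, hgmem _⟩
    simp only at h1
    rw [h1, Function.comp_apply]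
    show Ψ g _ = Ψ g _
    congr 1
    apply Subtype.ext
    show x⁻¹ * (x * g * x⁻¹) * x⁻¹⁻¹ = g
    group
  have hfN : ∀ n : N, f n = (θ : N → ℂ) n := fun n => (hΨ n).2.1 n _
  have hfirr : IsIrrCharacter G f := by
    refine isIrrCharacter_of_patch_nil N θ.2 f hcf hfN ?_
    intro E hE
    obtain ⟨ψ, hψ⟩ := exists_isPRExt_nil N hM hK hθ hθK hinv hcov E hE
    have : (fun h : ↥(N ⊔ E) => f h) = ψ := funext (F1 _ le_sup_left ψ hψ)
    rw [this]
    exact hψ.1
  refine ⟨⟨f, hfirr⟩, ?_⟩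
  intro H
  refine ⟨Helper7.isCharacter_restrict (Helper7.isCharacter_of_irr hfirr) H, ?_, ?_, ?_⟩
  · intro n _
    exact hfN n
  · intro c hc
    exact (hΨ (c : G)).2.2.1 ⟨c, hgmem c⟩ hc
  · intro k hk x
    have h1 := F1 _ le_sup_left _ (hΨ (x : G)) (⟨x, hgmem x⟩ ^ k)
    have h2 := (hΨ (x : G)).2.2.2 k hk ⟨x, hgmem x⟩
    show f ((x ^ k : H) : G) = f x
    rw [h2] at h1
    exact h1

end Cfsg.Agent.Lib.Helper1
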