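import Mathlib
import Cfsg.Agent.Lib.Helper1.PRatD
import Cfsg.Agent.Lib.Helper2.CharMore

/-! `p`-rational extensions in the principal block: membership in the principal block. -/

set_option autoImplicit false
set_option linter.style.haveILetI false

namespace Cfsg.Agent.Lib.Helper1

open Cfsg Cfsg.Agent.Lib.Helper7 Cfsg.Agent.Lib.Helper24
open scoped ComplexConjugate

universe u
variable {M : Ideal AlgInt} {p : ℕ}

/-- the coset sums of `regInd * ξ` are constant for the Alperin--Dade extension -/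
theorem pr_coset_sum {X : Type u} [Group X] [Fintype X] (hM : IsPModular p M) (N : Subgroup X)
    [hN : N.Normal] [Fintype N]
    (hcov : ∀ x : X, ∃ n ∈ N, ∃ c ∈ adGood p N, x = n * c)
    {θ : IrrCharacter N} {ξ : IrrCharacter X} (hξ : ξ ∈ principalBlock M X)
    (hext : ∀ n : N, (ξ : X → ℂ) n = (θ : N → ℂ) n) (x : X) :
    ∑ n : N, regInd p X ((n : X) * x) * (ξ : X → ℂ) ((n : X) * x)
      = ∑ n : N, regInd p X n * (ξ : X → ℂ) n := by
  classical
  haveI : Fintype (IrrCharacter X) := Fintype.ofFinite _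
  let F : X → ℂ := fun g => regInd p X g * (ξ : X → ℂ) g
  have hcfξ := isClassFunction_irr ξ
  have hFcf : IsClassFunction X F := fun g y => by
    show regInd p X (y * g * y⁻¹) * (ξ : X → ℂ) (y * g * y⁻¹) = _
    rw [isClassFunction_regInd p g y, hcfξ g y]
  have hF := classFunction_eq_sum hFcf
  have hNc : (Nat.card N : ℂ) ≠ 0 := by exact_mod_cast Nat.card_pos.ne'
  have hXc : (Nat.card X : ℂ) ≠ 0 := by exact_mod_cast Nat.card_pos.ne'
  have hξN : IsIrrCharacter N (fun n : N => (ξ : X → ℂ) n) := by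
    rw [funext hext]; exact θ.2
  have hone : ((fun _ => 1 : N → ℂ) * fun n : N => (ξ : X → ℂ) n) = fun n : N => (ξ : X → ℂ) n := by
    funext n; simp
  have hG := Cfsg.Agent.Lib.Helper25.gallagher_core N (φ := fun _ => 1)
    (ϑ := fun n : N => (ξ : X → ℂ) n)
    (oneIrr N).2 (fun g => rfl) (fun g => Cfsg.Agent.Lib.Helper25.conjFun_restrict N hcfξ g)
    (by rw [hone]; exact hξN) ξ.2 (fun n => rfl)
  have hind : ∀ β : X → ℂ, IsIrrCharacter X β → (∀ n ∈ N, β n = β 1) →
      classInner (indFun N (fun _ => 1)) β ≠ 0 := by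
    intro β hβ hker
    have hcfβ := Helper7.isClassFunction_of_isCharacter (Helper7.isCharacter_of_irr hβ)
    rw [Cfsg.Agent.Lib.Helper25.frobenius_reciprocity N _ β hcfβ]
    have h1 : classInner (fun _ : N => (1 : ℂ)) (fun h : N => β h) = conj (β 1) := by
      unfold classInner
      have : ∀ n : N, (1 : ℂ) * conj (β n) = conj (β 1) := fun n => by rw [one_mul, hker n n.2]
      simp only [this, Finset.sum_const, Finset.card_univ, nsmul_eq_mul,
        ← Nat.card_eq_fintype_card]
      rw [← mul_assoc, inv_mul_cancel₀ hNc, one_mul]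
    rw [h1]
    exact (map_ne_zero _).2 (irr_apply_one_ne_zero hβ)
  have key : ∀ η : IrrCharacter X, (∀ n ∈ N, (η : X → ℂ) n = (η : X → ℂ) 1) → η ≠ oneIrr X →
      classInner F (η : X → ℂ) = 0 := by
    intro η hker hne
    let β : X → ℂ := fun g => conj ((η : X → ℂ) g)
    have hβ : IsIrrCharacter X β := Helper2.IsIrrCharacter.conj η.2
    have hβker : ∀ n ∈ N, β n = β 1 := fun n hn => by
      show conj ((η : X → ℂ) n) = conj ((η : X → ℂ) 1)
      rw [hker n hn]
    have hβ1 := hind β hβ hβker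
    have h11 := hind (oneIrr X : X → ℂ) (oneIrr X).2 (fun _ _ => rfl)
    have hβne : β ≠ (oneIrr X : X → ℂ) := by
      intro h
      apply hne
      apply Subtype.ext
      funext g
      have h2 := congrFun h g
      have h3 : (oneIrr X : X → ℂ) g = 1 := rfl
      rw [h3] at h2 ⊢
      have h4 := congrArg conj h2
      simpa [β] using h4
    have hirr := (hG.1 β hβ hβ1).1
    have horth := hG.2.1 β (oneIrr X : X → ℂ) hβ (oneIrr X).2 hβ1 h11 hβne
    have h1ξ : (oneIrr X : X → ℂ) * (ξ : X → ℂ) = (ξ : X → ℂ) := by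
      funext g
      have h3 : (oneIrr X : X → ℂ) g = 1 := rfl
      rw [Pi.mul_apply, h3, one_mul]
    rw [h1ξ] at horth
    let ζ : IrrCharacter X := ⟨β * (ξ : X → ℂ), hirr⟩
    have hζne : ζ ≠ ξ := by
      intro h
      have h2 : β * (ξ : X → ℂ) = (ξ : X → ℂ) := congrArg Subtype.val h
      rw [h2, classInner_irr_self ξ.2] at horth
      exact one_ne_zero horth
    have hcon : classInner (fun n : N => (ζ : X → ℂ) n) (θ : N → ℂ) ≠ 0 := by
      have h2 : (fun n : N => (ζ : X → ℂ) n) = β 1 • (θ : N → ℂ) := by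
        funext n
        show β n * (ξ : X → ℂ) n = β 1 * (θ : N → ℂ) n
        rw [hβker n n.2, hext]
      rw [h2, Helper7.classInner_smul_left, classInner_irr_self θ.2, mul_one]
      exact irr_apply_one_ne_zero hβ
    have hζB : ζ ∉ principalBlock M X := fun h => hζne (ad_unique_block hM N hcov h hξ hext hcon)
    have h0 := Om_regInd_eq_zero hM hζB
    unfold Om at h0
    have h5 := (div_eq_zero_iff.1 h0).resolve_right (irr_apply_one_ne_zero ζ.2)
    unfold classInner
    have h6 : ∑ g : X, F g * conj ((η : X → ℂ) g) = ∑ g : X, regInd p X g * (ζ : X → ℂ) g := by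
      apply Finset.sum_congr rfl
      intro g _
      show regInd p X g * (ξ : X → ℂ) g * conj ((η : X → ℂ) g)
        = regInd p X g * (conj ((η : X → ℂ) g) * (ξ : X → ℂ) g)
      ring
    rw [h6, h5, mul_zero]
  have hconst : ∀ y : X, (Nat.card N : ℂ)⁻¹ * ∑ n : N, F ((n : X) * y)
      = classInner F (oneIrr X : X → ℂ) := by
    intro y
    have h1 : ∀ g, F g = ∑ χ : IrrCharacter X, classInner F (χ : X → ℂ) * (χ : X → ℂ) g := by
      intro g
      have := congrFun hF g
      rw [Finset.sum_apply] at this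
      simpa only [Pi.smul_apply, smul_eq_mul] using this
    calc (Nat.card N : ℂ)⁻¹ * ∑ n : N, F ((n : X) * y)
        = (Nat.card N : ℂ)⁻¹ * ∑ n : N, ∑ χ : IrrCharacter X,
            classInner F (χ : X → ℂ) * (χ : X → ℂ) ((n : X) * y) := by
          congr 1
          exact Finset.sum_congr rfl (fun n _ => h1 _)
      _ = ∑ χ : IrrCharacter X, classInner F (χ : X → ℂ) *
            ((Nat.card N : ℂ)⁻¹ * ∑ n : N, (χ : X → ℂ) ((n : X) * y)) := by
          rw [Finset.sum_comm, Finset.mul_sum]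
          apply Finset.sum_congr rfl
          intro χ _
          rw [← Finset.mul_sum]
          ring
      _ = classInner F (oneIrr X : X → ℂ) := by
          rw [Finset.sum_eq_single (oneIrr X)]
          · have hk1 : ∀ n ∈ N, (oneIrr X : X → ℂ) n = (oneIrr X : X → ℂ) 1 := fun _ _ => rfl
            rw [Cfsg.Agent.Lib.Helper25.avg_normal N (oneIrr X).2 y, if_pos hk1]
            have h3 : (oneIrr X : X → ℂ) y = 1 := rfl
            rw [h3, mul_one]
          · intro χ _ hχ
            rw [Cfsg.Agent.Lib.Helper25.avg_normal N χ.2 y]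
            split_ifs with hk
            · rw [key χ hk hχ, zero_mul]
            · rw [mul_zero]
          · intro h
            exact absurd (Finset.mem_univ _) h
  have h1 := hconst x
  have h2 := hconst 1
  simp only [mul_one] at h2
  rw [← h2] at h1
  exact mul_left_cancel₀ (inv_ne_zero hNc) h1

theorem pr_pow_mem_iff {G : Type u} [Group G] (N : Subgroup G) [hN : N.Normal] {n : G} (hn : n ∈ N)
    (x : G) (m : ℕ) : (n * x) ^ m ∈ N ↔ x ^ m ∈ N := by
  rw [← QuotientGroup.eq_one_iff, ← QuotientGroup.eq_one_iff, QuotientGroup.mk_pow,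
    QuotientGroup.mk_pow, QuotientGroup.mk_mul, (QuotientGroup.eq_one_iff n).2 hn, one_mul]

theorem pr_not_dvd_relIndex {G : Type u} [Group G] [Finite G] (hp : p.Prime) (N : Subgroup G)
    [hN : N.Normal] {x : G} {m : ℕ} (hm : ¬ p ∣ m) (hx : x ^ m ∈ N) :
    ¬ p ∣ N.relIndex (N ⊔ Subgroup.zpowers x) := by
  haveI : Fact p.Prime := ⟨hp⟩
  rw [Subgroup.relIndex_sup_left (Subgroup.zpowers x) N]
  intro hd
  have hd' : p ∣ Nat.card (Subgroup.zpowers x ⧸ N.subgroupOf (Subgroup.zpowers x)) := hd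
  obtain ⟨q, hq⟩ := exists_prime_orderOf_dvd_card' p hd'
  apply hm
  rw [← hq]
  apply orderOf_dvd_of_pow_eq_one
  induction q using QuotientGroup.induction_on with
  | H y =>
    rw [← QuotientGroup.mk_pow, QuotientGroup.eq_one_iff]
    obtain ⟨i, hi⟩ := Subgroup.mem_zpowers_iff.1 y.2
    show ((y : G)) ^ m ∈ N
    rw [← hi, ← zpow_natCast, ← zpow_mul, mul_comm, zpow_mul, zpow_natCast]
    exact N.zpow_mem hx i

/-- a good extension lies in the principal block -/
theorem pr_mem_block {G : Type u} [Group G] [Finite G] {K : Set ℕ} {r : ℕ} (N : Subgroup G)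
    [hN : N.Normal] (hM : IsPModular p M) (hK : PRHyp G p K r)
    {θ : IrrCharacter N} (hθ : θ ∈ principalBlock M N)
    (hθK : ∀ k ∈ K, ∀ n : N, (θ : N → ℂ) (n ^ k) = (θ : N → ℂ) n)
    (hcov : ∀ x : G, (∃ m : ℕ, ¬ p ∣ m ∧ x ^ m ∈ N) → ∃ n ∈ N, ∃ c ∈ prGood p N, x = n * c)
    (χ : IrrCharacter G)
    (hχ : ∀ H : Subgroup G, IsPRExt M p K N (θ : N → ℂ) H (fun h : H => (χ : G → ℂ) h)) :
    χ ∈ principalBlock M G := by
  classical
  haveI := hM.2.1.isPrime
  haveI := Fintype.ofFinite G
  haveI : Fintype N := Fintype.ofFinite _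
  have hp := hM.1
  by_contra hχB
  have h0 := Om_regInd_eq_zero hM hχB
  unfold Om at h0
  have h0' := (div_eq_zero_iff.1 h0).resolve_right (irr_apply_one_ne_zero χ.2)
  let F : G → ℂ := fun g => regInd p G g * (χ : G → ℂ) g
  let s : ℂ := ∑ n : N, F n
  have hs : s ≠ 0 := by
    have h1 := (mem_principalBlock_iff hM θ).1 hθ
    have h2 : Om (regInd p N) θ ≠ 0 := ne_zero_of_not_memLocalIdeal h1
    unfold Om at h2
    have h3 : ∑ g : N, regInd p N g * (θ : N → ℂ) g = s := by
      apply Finset.sum_congr rfl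
      intro n _
      show _ = regInd p G n * (χ : G → ℂ) n
      rw [← rt_regInd_coe p N, ← (hχ ⊤).2.1 n (Subgroup.mem_top _)]
    rw [h3] at h2
    intro h
    apply h2
    rw [h, zero_div]
  let R : G → Prop := fun x => ∃ m : ℕ, ¬ p ∣ m ∧ x ^ m ∈ N
  have hT : ∀ x : G, ∑ n : N, F ((n : G) * x) = if R x then s else 0 := by
    intro x
    split_ifs with hR
    · obtain ⟨m, hm, hxm⟩ := hR
      let J : Subgroup G := N ⊔ Subgroup.zpowers x
      have hNJ : N ≤ J := le_sup_left
      have hxJ : x ∈ J := (le_sup_right : Subgroup.zpowers x ≤ J) (Subgroup.mem_zpowers x)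
      have hidx : ¬ p ∣ N.relIndex J := pr_not_dvd_relIndex hp N hm hxm
      obtain ⟨ξ, hξB, hξ, hcov'⟩ := exists_isPRExt_pprime N hM hK hθ hθK hcov J hNJ hidx
      have hu := IsPRExt.unique hM hK θ.2 hcov hNJ hξ (hχ J)
      have hu' : ∀ y : J, (ξ : J → ℂ) y = (χ : G → ℂ) y := fun y => (congrFun hu y).symm
      let e : N.subgroupOf J ≃* N := Subgroup.subgroupOfEquivOfLe hNJ
      haveI : Fintype J := Fintype.ofFinite _
      haveI : Fintype (N.subgroupOf J) := Fintype.ofFinite _
      have h1 := pr_coset_sum hM (N.subgroupOf J) hcov' (θ := mapIrr e θ) hξB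
        (fun n => hξ.2.1 (e n) n.1.2) ⟨x, hxJ⟩
      have h2 : ∑ n : N.subgroupOf J, regInd p J ((n : J) * ⟨x, hxJ⟩) *
          (ξ : J → ℂ) ((n : J) * ⟨x, hxJ⟩) = ∑ n : N, F ((n : G) * x) := by
        refine Fintype.sum_equiv e.toEquiv _ _ (fun n => ?_)
        rw [hu', ← rt_regInd_coe p J]
        rfl
      have h3 : ∑ n : N.subgroupOf J, regInd p J (n : J) * (ξ : J → ℂ) (n : J) = s := by
        refine Fintype.sum_equiv e.toEquiv _ _ (fun n => ?_)
        rw [hu', ← rt_regInd_coe p J]
        rfl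
      rw [← h2, h1, h3]
    · apply Finset.sum_eq_zero
      intro n _
      have hsing : p ∣ orderOf ((n : G) * x) := by
        by_contra hn
        apply hR
        refine ⟨orderOf ((n : G) * x), hn, ?_⟩
        rw [← pr_pow_mem_iff N n.2, pow_orderOf_eq_one]
        exact N.one_mem
      show regInd p G _ * _ = 0
      rw [regInd_of_singular hsing, zero_mul]
  have hsum1 : ∑ x : G, ∑ n : N, F ((n : G) * x) = 0 := by
    rw [Finset.sum_comm]
    apply Finset.sum_eq_zero
    intro n _
    rw [← h0']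
    exact Fintype.sum_equiv (Equiv.mulLeft (n : G)) _ _ (fun g => rfl)
  simp only [hT] at hsum1
  rw [← Finset.sum_filter, Finset.sum_const, nsmul_eq_mul] at hsum1
  rcases mul_eq_zero.1 hsum1 with h | h
  · have h5 : (Finset.univ.filter R).card = 0 := by exact_mod_cast h
    rw [Finset.card_eq_zero] at h5
    have h6 : (1 : G) ∈ Finset.univ.filter R := by
      rw [Finset.mem_filter]
      exact ⟨Finset.mem_univ _, 1, fun h => hp.one_lt.ne' (Nat.dvd_one.1 h), by
        rw [pow_one]; exact N.one_mem⟩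
    rw [h5] at h6
    exact absurd h6 (Finset.notMem_empty _)
  · exact hs h

end Cfsg.Agent.Lib.Helper1
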