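import Mathlib
import Cfsg.Agent.Lib.Helper11.GalChar

/-! Fields of values and power maps. -/

set_option autoImplicit false
set_option linter.style.haveILetI false

namespace Cfsg.Agent.Lib.Helper1

open Cfsg Cfsg.Agent.Lib.Helper7
open Cfsg.Agent.Lib.Helper2 (cycField zetaN zetaN_isPrimitiveRoot zetaN_mem
  mem_cycField_of_pow_eq_one)
open scoped ComplexConjugate IntermediateField

universe u

theorem pr_eigen {X : Type u} [Group X] [Finite X] {χ : X → ℂ} (hχ : IsCharacter X χ) (g : X) :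
    ∃ (ι : Type) (_ : Fintype ι) (μ : ι → ℂ), (∀ i, μ i ^ orderOf g = 1) ∧
      ∀ k : ℕ, χ (g ^ k) = ∑ i, μ i ^ k := by
  obtain ⟨n, ρ, rfl⟩ := hχ
  obtain ⟨ι, hι, b, μ, h1, h2, h3, -⟩ := Cfsg.Agent.Lib.Helper2.exists_rep_eigenbasis ρ g
  refine ⟨ι, hι, μ, h2, fun k => ?_⟩
  rw [Representation.character, Cfsg.Agent.Lib.Helper2.trace_of_diag b _ _ (h3 k)]

theorem cycField_le_of_dvd {m L : ℕ} (hL : L ≠ 0) (h : m ∣ L) : cycField m ≤ cycField L := by
  have hm : m ≠ 0 := fun h0 => hL (by rw [h0] at h; exact Nat.eq_zero_of_zero_dvd h)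
  show ℚ⟮zetaN m⟯ ≤ cycField L
  rw [IntermediateField.adjoin_simple_le_iff]
  apply mem_cycField_of_pow_eq_one hL
  obtain ⟨c, rfl⟩ := h
  rw [pow_mul, (zetaN_isPrimitiveRoot m hm).pow_eq_one, one_pow]

/-- values in a cyclotomic field of order prime to `p` are fixed by suitable power maps -/
theorem pr_fixed_of_mem {X : Type u} [Group X] [Finite X] {p a n' m : ℕ} (hp : p.Prime)
    (hX : Nat.card X ∣ p ^ a * n') (hm : ¬ p ∣ m) (hn' : ¬ p ∣ n')
    {χ : X → ℂ} (hχ : IsCharacter X χ) (hrat : ∀ x, χ x ∈ cycField m) {k : ℕ}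
    (hk : k.Coprime (p ^ a * n')) (hk1 : k ≡ 1 [MOD n']) (x : X) : χ (x ^ k) = χ x := by
  have hm0 : m ≠ 0 := fun h => hm (h ▸ dvd_zero p)
  have hn0 : n' ≠ 0 := fun h => hn' (h ▸ dvd_zero p)
  have hcop : Nat.Coprime (p ^ a) (m * n') := by
    apply Nat.Coprime.pow_left
    exact Nat.Coprime.mul_right ((Nat.Prime.coprime_iff_not_dvd hp).2 hm)
      ((Nat.Prime.coprime_iff_not_dvd hp).2 hn')
  obtain ⟨k', hk'1, hk'2⟩ := Nat.chineseRemainder hcop k 1
  set L := p ^ a * (m * n') with hLdef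
  have hL : L ≠ 0 := by
    rw [hLdef]
    exact mul_ne_zero (pow_ne_zero _ hp.ne_zero) (mul_ne_zero hm0 hn0)
  have hk'L : k'.Coprime L := by
    apply Nat.Coprime.mul_right
    · show Nat.gcd k' (p ^ a) = 1
      rw [hk'1.gcd_eq]
      exact Nat.Coprime.coprime_mul_right_right hk
    · show Nat.gcd k' (m * n') = 1
      rw [hk'2.gcd_eq]
      exact Nat.gcd_one_left _
  have hk'm : k' ≡ 1 [MOD m] := hk'2.of_mul_right n'
  have hk'n : k' ≡ k [MOD n'] := (hk'2.of_mul_left m).trans hk1.symm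
  have hcop2 : Nat.Coprime (p ^ a) n' :=
    Nat.Coprime.pow_left _ ((Nat.Prime.coprime_iff_not_dvd hp).2 hn')
  have hk'c : k' ≡ k [MOD p ^ a * n'] := (Nat.modEq_and_modEq_iff_modEq_mul hcop2).1 ⟨hk'1, hk'n⟩
  have hxk : x ^ k' = x ^ k := by
    rw [pow_eq_pow_iff_modEq]
    exact hk'c.of_dvd ((orderOf_dvd_natCard x).trans hX)
  obtain ⟨σ, hσ⟩ := Cfsg.Agent.Lib.Helper11.exists_embedding_pow hL hk'L
  have hle : cycField m ≤ cycField L := cycField_le_of_dvd hL ⟨p ^ a * n', by rw [hLdef]; ring⟩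
  obtain ⟨ι, hι, μ, hμ, hsum⟩ := pr_eigen hχ x
  have hXL : Nat.card X ∣ L := hX.trans ⟨m, by rw [hLdef]; ring⟩
  have hpow : ∀ i, μ i ^ L = 1 := by
    intro i
    obtain ⟨c, hc⟩ := (orderOf_dvd_natCard x).trans hXL
    rw [hc, pow_mul, hμ, one_pow]
  have h1 := hsum 1
  rw [pow_one] at h1
  simp only [pow_one] at h1
  -- the value as an element of the big field
  have hz' : (⟨χ x, hle (hrat x)⟩ : cycField L)
      = ∑ i, (⟨μ i, mem_cycField_of_pow_eq_one hL (hpow i)⟩ : cycField L) := by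
    apply Subtype.ext
    show χ x = _
    rw [h1]
    simp
  have hσz : σ ⟨χ x, hle (hrat x)⟩ = χ (x ^ k') := by
    rw [hz', map_sum, hsum k']
    exact Finset.sum_congr rfl fun i _ => hσ _ (hpow i)
  have hfix : σ.comp (IntermediateField.inclusion hle) = (cycField m).val := by
    apply IntermediateField.algHom_ext_of_eq_adjoin ℚ (s := {zetaN m}) rfl
    intro y hy
    rw [Set.mem_singleton_iff] at hy
    subst hy
    have hz1 : (zetaN m) ^ L = 1 := by
      obtain ⟨c, hc⟩ : m ∣ L := ⟨p ^ a * n', by rw [hLdef]; ring⟩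
      rw [hc, pow_mul, (zetaN_isPrimitiveRoot m hm0).pow_eq_one, one_pow]
    have h2 := hσ ⟨zetaN m, hle (zetaN_mem m)⟩ hz1
    have h3 : (zetaN m) ^ k' = zetaN m := by
      conv_rhs => rw [← pow_one (zetaN m)]
      rw [pow_eq_pow_mod k' (zetaN_isPrimitiveRoot m hm0).pow_eq_one,
        pow_eq_pow_mod 1 (zetaN_isPrimitiveRoot m hm0).pow_eq_one]
      congr 1
    simp only at h2
    rw [h3] at h2
    exact h2
  have h4 := congrArg (fun φ : cycField m →ₐ[ℚ] ℂ => φ ⟨χ x, hrat x⟩) hfix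
  have h5 : σ ⟨χ x, hle (hrat x)⟩ = χ x := h4
  rw [← hxk, ← hσz, h5]

/-- values fixed by the power maps congruent to one modulo `n'` lie in the `n'`-th cyclotomic
field -/
theorem pr_mem_of_fixed {X : Type u} [Group X] [Finite X] {j n' : ℕ} (hcard : Nat.card X = j * n')
    {χ : X → ℂ} (hχ : IsCharacter X χ)
    (hfix : ∀ k : ℕ, k.Coprime (Nat.card X) → k ≡ 1 [MOD n'] → ∀ g, χ (g ^ k) = χ g) (g : X) :
    χ g ∈ cycField n' := by
  classical
  set n := Nat.card X with hn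
  have hn0 : n ≠ 0 := Nat.card_pos.ne'
  haveI : NeZero n := ⟨hn0⟩
  have hj0 : j ≠ 0 := fun h => hn0 (by rw [hcard, h, zero_mul])
  have hn'0 : n' ≠ 0 := fun h => hn0 (by rw [hcard, h, mul_zero])
  let F := cycField n'
  let ζ := zetaN n
  have hζ : IsPrimitiveRoot ζ n := zetaN_isPrimitiveRoot n hn0
  let E : IntermediateField F ℂ := IntermediateField.adjoin F {ζ}
  have hint : IsIntegral F ζ := by
    refine IsIntegral.of_pow (Nat.pos_of_ne_zero hn0) ?_
    rw [hζ.pow_eq_one]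
    exact isIntegral_one
  haveI : IsCyclotomicExtension {n} F E := by
    change IsCyclotomicExtension {n} F (IntermediateField.adjoin F {ζ}).toSubalgebra
    rw [IntermediateField.adjoin_simple_toSubalgebra_of_isAlgebraic hint.isAlgebraic]
    exact hζ.adjoin_isCyclotomicExtension F
  haveI : IsGalois F E := IsCyclotomicExtension.isGalois {n} F E
  haveI : FiniteDimensional F E := IsCyclotomicExtension.finiteDimensional {n} F E
  let ζE : E := ⟨ζ, IntermediateField.mem_adjoin_simple_self F ζ⟩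
  have hζE : IsPrimitiveRoot ζE n :=
    IsPrimitiveRoot.of_map_of_injective (f := E.val) hζ E.val.injective
  obtain ⟨ι, hι, μ, hμ, hsum⟩ := pr_eigen hχ g
  have hpow : ∀ i, μ i ^ n = 1 := by
    intro i
    obtain ⟨c, hc⟩ := orderOf_dvd_natCard g
    rw [hn, hc, pow_mul, hμ, one_pow]
  have hex : ∀ i, ∃ e : ℕ, ζ ^ e = μ i := fun i => by
    obtain ⟨e, -, he⟩ := hζ.eq_pow_of_pow_eq_one (hpow i)
    exact ⟨e, he⟩
  choose e he using hex
  let z : E := ∑ i, ζE ^ e i
  have hcoe : ∀ k : ℕ, ((∑ i, ζE ^ (e i * k) : E) : ℂ) = χ (g ^ k) := by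
    intro k
    rw [hsum k]
    have : ((∑ i, ζE ^ (e i * k) : E) : ℂ) = E.val (∑ i, ζE ^ (e i * k)) := rfl
    rw [this, map_sum]
    apply Finset.sum_congr rfl
    intro i _
    rw [map_pow, ← he i, ← pow_mul]
    rfl
  have hz : (z : ℂ) = χ g := by
    have := hcoe 1
    simpa only [mul_one, pow_one] using this
  have hfixed : ∀ f : E ≃ₐ[F] E, f z = z := by
    intro f
    have hf : IsPrimitiveRoot (f ζE) n := hζE.map_of_injective f.injective
    obtain ⟨k, -, hk, hk'⟩ := hζE.isPrimitiveRoot_iff.1 hf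
    have hk1 : k ≡ 1 [MOD n'] := by
      have hw : ζ ^ j ∈ F := mem_cycField_of_pow_eq_one hn'0 (by
        rw [← pow_mul, ← hcard]; exact hζ.pow_eq_one)
      have h1 : ζE ^ j = algebraMap F E ⟨ζ ^ j, hw⟩ := Subtype.ext rfl
      have h2 : f (ζE ^ j) = ζE ^ j := by rw [h1, f.commutes]
      rw [map_pow, ← hk', ← pow_mul] at h2
      have hfin : IsOfFinOrder ζE :=
        isOfFinOrder_iff_pow_eq_one.2 ⟨n, Nat.pos_of_ne_zero hn0, hζE.pow_eq_one⟩
      rw [hfin.pow_eq_pow_iff_modEq, ← hζE.eq_orderOf, hcard] at h2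
      have h3 : j * k ≡ j * 1 [MOD j * n'] := by
        rw [mul_one, mul_comm j k]; exact h2
      exact Nat.ModEq.mul_left_cancel' hj0 h3
    apply Subtype.ext
    rw [hz, ← hfix k hk hk1 g, ← hcoe k]
    congr 1
    show f (∑ i, ζE ^ e i) = _
    rw [map_sum]
    apply Finset.sum_congr rfl
    intro i _
    rw [map_pow, ← hk', ← pow_mul, mul_comm]
  obtain ⟨w, hw⟩ := (IsGalois.mem_range_algebraMap_iff_fixed z).2 hfixed
  rw [← hz, ← hw]
  exact w.2

end Cfsg.Agent.Lib.Helper1
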