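import Mathlib
import Cfsg.Agent.Lib.Helper1.PRatE
import Cfsg.Agent.Lib.Helper1.PRatF

/-! `p`-rational extensions in the principal block: the covering hypothesis and the exponents. -/

set_option autoImplicit false
set_option linter.style.haveILetI false

namespace Cfsg.Agent.Lib.Helper1

open Cfsg Cfsg.Agent.Lib.Helper7 Cfsg.Agent.Lib.Helper24

universe u

theorem pr_cover {G : Type u} [Group G] [Finite G] (p : ℕ) [hp : Fact p.Prime] (N : Subgroup G)
    [hN : N.Normal] (Q : Sylow p N) {a : ℕ}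
    (hidx : (N ⊔ Subgroup.centralizer (((Q : Subgroup N).map N.subtype : Subgroup G) : Set G)).index
      = p ^ a) :
    ∀ x : G, (∃ m : ℕ, ¬ p ∣ m ∧ x ^ m ∈ N) → ∃ n ∈ N, ∃ c ∈ prGood p N, x = n * c := by
  set Q' : Subgroup G := (Q : Subgroup N).map N.subtype with hQ'
  set C : Subgroup G := Subgroup.centralizer (Q' : Set G) with hC
  have hconj : ∀ y ∈ Subgroup.normalizer (Q' : Set G), ∀ x ∈ N ⊔ C, y * x * y⁻¹ ∈ N ⊔ C := by
    intro y hy
    have hle : N ⊔ C ≤ (N ⊔ C).comap (MulAut.conj y).toMonoidHom := by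
      apply sup_le
      · intro n hn
        exact (le_sup_left : N ≤ N ⊔ C) (hN.conj_mem n hn y)
      · intro c hc
        apply (le_sup_right : C ≤ N ⊔ C)
        show y * c * y⁻¹ ∈ C
        rw [hC, Subgroup.mem_centralizer_iff]
        intro q hq
        have hq' : y⁻¹ * q * y⁻¹⁻¹ ∈ Q' :=
          (Subgroup.mem_normalizer_iff.1 (Subgroup.inv_mem _ hy) q).1 hq
        have h1 := (Subgroup.mem_centralizer_iff.1 hc) _ hq'
        rw [inv_inv] at h1
        calc q * (y * c * y⁻¹) = y * (y⁻¹ * q * y * c) * y⁻¹ := by group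
          _ = y * (c * (y⁻¹ * q * y)) * y⁻¹ := by rw [h1]
          _ = y * c * y⁻¹ * q := by group
    intro x hx
    exact hle hx
  haveI hnorm : (N ⊔ C).Normal := by
    rw [← Subgroup.normalizer_eq_top_iff, eq_top_iff, ← Sylow.normalizer_sup_eq_top Q]
    apply sup_le
    · rw [Subgroup.le_normalizer_iff]
      exact hconj
    · exact le_sup_left.trans Subgroup.le_normalizer
  rintro x ⟨m, hm, hxm⟩
  have hxH : x ∈ N ⊔ C := by
    apply mem_of_pow_mem_coprime (N ⊔ C) (a := m) (b := p ^ a)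
    · exact (Nat.Coprime.pow_left a ((Nat.Prime.coprime_iff_not_dvd hp.out).2 hm)).symm
    · exact (le_sup_left : N ≤ N ⊔ C) hxm
    · rw [← hidx]; exact Subgroup.pow_index_mem _ x
  obtain ⟨n, hn, c, hc, hx⟩ := Subgroup.mem_sup_of_normal_left.1 hxH
  refine ⟨n, hn, c, ⟨⟨m, hm, ?_⟩, Q', Subgroup.map_subtype_le _, ?_, ?_⟩, hx.symm⟩
  · rw [← pr_pow_mem_iff N hn, hx]
    exact hxm
  · have h1 : Q'.relIndex N = (Q : Subgroup N).index := by
      show (Q'.subgroupOf N).index = _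
      congr 1
      exact Subgroup.comap_map_eq_self_of_injective N.subtype_injective _
    rw [h1]
    exact Q.not_dvd_index
  · intro q hq
    rw [Subgroup.mem_centralizer_singleton_iff]
    exact (Subgroup.mem_centralizer_iff.1 hc) q hq

/-- the set of exponents -/
def prK (c n' : ℕ) : Set ℕ := {k | k.Coprime c ∧ k ≡ 1 [MOD n']}

theorem pr_hyp {G : Type u} [Group G] {p a n' : ℕ} (hp : p.Prime) (hp2 : p ≠ 2)
    (hcard : Nat.card G = p ^ a * n') (hn' : ¬ p ∣ n') :
    ∃ r : ℕ, PRHyp G p (prK (Nat.card G) n') r := by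
  have key : ∀ s : ℕ, ¬ p ∣ n' * s → ¬ p ∣ n' * s + 1 → PRHyp G p (prK (Nat.card G) n') (n' * s) := by
    intro s h1 h2
    have hmod : n' * s + 1 ≡ 1 [MOD n'] := by
      show (n' * s + 1) % n' = 1 % n'
      rw [Nat.mul_add_mod]
    refine ⟨fun k hk => hk.1, ⟨?_, hmod⟩, h1⟩
    rw [hcard]
    apply Nat.Coprime.mul_right
    · exact (Nat.Coprime.pow_left a ((Nat.Prime.coprime_iff_not_dvd hp).2 h2)).symm
    · show Nat.gcd (n' * s + 1) n' = 1
      rw [hmod.gcd_eq]
      exact Nat.gcd_one_left _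
  by_cases h : p ∣ n' + 1
  · refine ⟨n' * 2, key 2 ?_ ?_⟩
    · intro hd
      rcases (hp.dvd_mul).1 hd with h1 | h1
      · exact hn' h1
      · exact hp2 ((Nat.prime_dvd_prime_iff_eq hp Nat.prime_two).1 h1)
    · intro hd
      have h3 : p ∣ 2 * (n' + 1) := Dvd.dvd.mul_left h 2
      have h4 : p ∣ 2 * (n' + 1) - (n' * 2 + 1) := Nat.dvd_sub h3 hd
      have h5 : 2 * (n' + 1) - (n' * 2 + 1) = 1 := by omega
      rw [h5] at h4
      exact hp.one_lt.ne' (Nat.dvd_one.1 h4)
  · refine ⟨n' * 1, key 1 ?_ ?_⟩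
    · rwa [mul_one]
    · rwa [mul_one]

end Cfsg.Agent.Lib.Helper1
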