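import Mathlib
import Cfsg.Agent.Lib.Helper25.FrobSchur2
import Cfsg.Agent.Lib.Helper2.CharDeg
import Cfsg.Agent.Lib.Helper7.CharBasic
import Cfsg.Agent.Lib.Helper1.Frattini

set_option autoImplicit false

namespace Cfsg.Agent.Lib.Helper1

open Cfsg
open scoped ComplexConjugate

universe u
variable {G : Type u} [Group G]

/-- Divisibility of an invariant sum, orbit by orbit. -/
theorem dvd_sum_of_orbit {L X : Type*} [Group L] [MulAction L X] [Fintype X] (f : X → ℤ)
    (hf : ∀ (l : L) (x : X), f (l • x) = f x) (m : ℤ)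
    (h : ∀ x, m ∣ (Nat.card (MulAction.orbit L x) : ℤ) * f x) : m ∣ ∑ x, f x := by
  classical
  let Q := MulAction.orbitRel.Quotient L X
  haveI : Fintype Q := Fintype.ofFinite Q
  have h1 : ∑ x, f x
      = ∑ q : Q, ∑ x ∈ Finset.univ.filter (fun x => (Quotient.mk'' x : Q) = q), f x :=
    (Finset.sum_fiberwise Finset.univ (fun x => (Quotient.mk'' x : Q)) f).symm
  rw [h1]
  apply Finset.dvd_sum
  intro q _
  induction q using Quotient.inductionOn' with
  | h x0 =>
  have h2 : ∀ x ∈ Finset.univ.filter (fun x => (Quotient.mk'' x : Q) = Quotient.mk'' x0),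
      f x = f x0 := by
    intro x hx
    simp only [Finset.mem_filter, Finset.mem_univ, true_and] at hx
    have h3 := Quotient.eq''.1 hx
    obtain ⟨l, rfl⟩ := h3
    exact hf l x0
  rw [Finset.sum_congr rfl h2, Finset.sum_const, nsmul_eq_mul]
  have h3 : (Finset.univ.filter (fun x => (Quotient.mk'' x : Q) = Quotient.mk'' x0)).card
      = Nat.card (MulAction.orbit L x0) := by
    rw [Nat.card_eq_fintype_card, Fintype.card_subtype]
    congr 1
    ext x
    simp only [Finset.mem_filter, Finset.mem_univ, true_and]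
    exact Quotient.eq''
  rw [h3]
  exact h x0

theorem intUnit_cast_mul_self (e : ℤˣ) : (((e : ℤ) : ℂ)) * (((e : ℤ) : ℂ)) = 1 := by
  rcases Int.units_eq_one_or e with h | h <;> simp [h]

theorem twist_irr [Finite G] (l : G →* ℤˣ) {χ : G → ℂ} (hχ : IsIrrCharacter G χ) :
    IsIrrCharacter G (fun g => ((l g : ℤ) : ℂ) * χ g) := by
  cases nonempty_fintype G
  have hc : IsCharacter G (fun g => ((l g : ℤ) : ℂ)) := by
    have := Helper2.isCharacter_of_hom ((Units.map (Int.castRingHom ℂ : ℤ →* ℂ)).comp l)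
    simpa using this
  have hm := Helper2.IsCharacter.mul hc (Helper2.IsIrrCharacter.isCharacter hχ)
  apply Helper2.isIrrCharacter_of_norm_one hm
  have h1 := Helper2.irr_norm_one hχ
  rw [Helper2.classInner_def] at h1 ⊢
  rw [← h1]
  congr 1
  refine Finset.sum_congr rfl (fun g _ => ?_)
  simp only [Pi.mul_apply, map_mul, map_intCast]
  have := intUnit_cast_mul_self (l g)
  linear_combination (χ g * conj (χ g)) * this

noncomputable instance twistAction [Finite G] : MulAction (G →* ℤˣ) (IrrCharacter G) where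
  smul l χ := ⟨fun g => ((l g : ℤ) : ℂ) * χ.1 g, twist_irr l χ.2⟩
  one_smul χ := by
    apply Subtype.ext
    funext g
    show (((1 : G →* ℤˣ) g : ℤ) : ℂ) * χ.1 g = χ.1 g
    simp
  mul_smul a b χ := by
    apply Subtype.ext
    funext g
    show ((((a * b : G →* ℤˣ) g : ℤˣ) : ℤ) : ℂ) * χ.1 g
      = ((a g : ℤ) : ℂ) * (((b g : ℤ) : ℂ) * χ.1 g)
    simp [mul_assoc]

theorem twist_apply [Finite G] (l : G →* ℤˣ) (χ : IrrCharacter G) (g : G) :
    ((l • χ : IrrCharacter G) : G → ℂ) g = ((l g : ℤ) : ℂ) * χ.1 g := rfl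


theorem card_twist_stabilizer_le [Finite G] (χ : IrrCharacter G) (d : ℕ) (hd : χ.1 1 = d) :
    Nat.card (MulAction.stabilizer (G →* ℤˣ) χ) ≤ d ^ 2 := by
  classical
  cases nonempty_fintype G
  set S := MulAction.stabilizer (G →* ℤˣ) χ with hS
  haveI : Fintype S := Fintype.ofFinite S
  let n : G → ℝ := fun g => Complex.normSq (χ.1 g)
  let θ : G → ℝ := fun g => ∑ l : S, (((l.1 g : ℤˣ) : ℤ) : ℝ)
  have hn_sum : ∑ g, n g = Nat.card G := by
    have := Helper2.sum_char_mul_conj χ.2
    simp only [Complex.mul_conj] at this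
    exact_mod_cast this
  have hn_le : ∀ g, n g ≤ (d : ℝ) ^ 2 := by
    intro g
    have h1 := Helper7.char_norm_le (Helper7.isCharacter_of_irr χ.2) g
    rw [hd] at h1
    simp only [Complex.natCast_re] at h1
    show Complex.normSq (χ.1 g) ≤ _
    rw [Complex.normSq_eq_norm_sq]
    exact pow_le_pow_left₀ (norm_nonneg _) h1 2
  have hstab : ∀ (l : S) g, (((l.1 g : ℤˣ) : ℤ) : ℝ) * n g = n g := by
    intro l g
    have h1 : l.1 • χ = χ := l.2
    have h2 := congrArg (fun ψ : IrrCharacter G => ψ.1 g) h1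
    simp only [twist_apply] at h2
    rcases Int.units_eq_one_or (l.1 g) with h | h
    · simp [h]
    · rw [h] at h2
      have h3 : χ.1 g = 0 := by
        simp only [Units.val_neg, Units.val_one, Int.cast_neg, Int.cast_one] at h2
        linear_combination (-1 / 2 : ℂ) * h2
      simp [n, h3]
  have hθ_nonneg : ∀ g, 0 ≤ θ g := by
    intro g
    by_cases h : ∃ l0 : S, l0.1 g = -1
    · obtain ⟨l0, hl0⟩ := h
      have : θ g = - θ g := by
        show ∑ l : S, (((l.1 g : ℤˣ) : ℤ) : ℝ) = - ∑ l : S, (((l.1 g : ℤˣ) : ℤ) : ℝ)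
        rw [← Finset.sum_neg_distrib]
        apply Fintype.sum_equiv (Equiv.mulLeft l0)
        intro l
        simp [hl0]
      linarith
    · push Not at h
      apply Finset.sum_nonneg
      intro l _
      rcases Int.units_eq_one_or (l.1 g) with h1 | h1
      · simp [h1]
      · exact absurd h1 (h l)
  have hθ_sum : ∑ g, θ g = Nat.card G := by
    show ∑ g, ∑ l : S, (((l.1 g : ℤˣ) : ℤ) : ℝ) = _
    rw [Finset.sum_comm]
    have hl : ∀ l : S, ∑ g : G, (((l.1 g : ℤˣ) : ℤ) : ℝ)
        = if l = 1 then (Nat.card G : ℝ) else 0 := by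
      intro l
      split_ifs with h
      · subst h
        simp [Nat.card_eq_fintype_card]
      · have : ∃ g0, l.1 g0 = -1 := by
          by_contra hc
          push Not at hc
          apply h
          apply Subtype.ext
          apply MonoidHom.ext
          intro g
          rcases Int.units_eq_one_or (l.1 g) with h1 | h1
          · simp [h1]
          · exact absurd h1 (hc g)
        obtain ⟨g0, hg0⟩ := this
        have h2 : ∑ g : G, (((l.1 g : ℤˣ) : ℤ) : ℝ) = - ∑ g : G, (((l.1 g : ℤˣ) : ℤ) : ℝ) := by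
          rw [← Finset.sum_neg_distrib]
          apply Fintype.sum_equiv (Equiv.mulLeft g0)
          intro g
          simp [hg0]
        linarith
    simp only [hl]
    simp
  have key : (Nat.card S : ℝ) * Nat.card G ≤ (d : ℝ) ^ 2 * Nat.card G := by
    calc (Nat.card S : ℝ) * Nat.card G = ∑ g, θ g * n g := by
          rw [← hn_sum, Finset.mul_sum]
          refine Finset.sum_congr rfl (fun g _ => ?_)
          show _ = (∑ l : S, (((l.1 g : ℤˣ) : ℤ) : ℝ)) * n g
          rw [Finset.sum_mul]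
          simp only [hstab]
          simp [Nat.card_eq_fintype_card]
      _ ≤ ∑ g, θ g * (d : ℝ) ^ 2 :=
          Finset.sum_le_sum (fun g _ => mul_le_mul_of_nonneg_left (hn_le g) (hθ_nonneg g))
      _ = (d : ℝ) ^ 2 * Nat.card G := by rw [← Finset.sum_mul, hθ_sum]; ring
  have hpos : (0 : ℝ) < Nat.card G := by exact_mod_cast Nat.card_pos
  have := le_of_mul_le_mul_right key hpos
  exact_mod_cast this

theorem card_hom_intUnits {E : Type*} [CommGroup E] [Finite E] (hE : ∀ e : E, e ^ 2 = 1) :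
    Nat.card (E →* ℤˣ) = Nat.card E := by
  haveI h2 : HasEnoughRootsOfUnity ℤ 2 :=
    ⟨⟨-1, IsPrimitiveRoot.neg_one 0 (by norm_num)⟩, inferInstance⟩
  haveI : HasEnoughRootsOfUnity ℤ (Monoid.exponent E) :=
    HasEnoughRootsOfUnity.of_dvd ℤ (Monoid.exponent_dvd_of_forall_pow_eq_one hE)
  exact CommGroup.card_monoidHom_of_hasEnoughRootsOfUnity E ℤ

theorem card_quotient_frattini_le_card_hom [Finite G] (hG : IsPGroup 2 G) :
    Nat.card (G ⧸ frattini G) ≤ Nat.card (G →* ℤˣ) := by
  haveI : Fact (Nat.Prime 2) := ⟨Nat.prime_two⟩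
  have hsq : ∀ e : G ⧸ frattini G, e ^ 2 = 1 := by
    intro e
    induction e using QuotientGroup.induction_on with
    | H x =>
      rw [← QuotientGroup.mk_pow, QuotientGroup.eq_one_iff]
      exact pgroup_pow_mem_frattini hG x
  letI : CommGroup (G ⧸ frattini G) :=
    { (inferInstance : Group (G ⧸ frattini G)) with
      mul_comm := fun a b => by
        have h1 := hsq (a * b)
        have ha := hsq a
        have hb := hsq b
        have ha' : a⁻¹ = a := by rw [inv_eq_iff_mul_eq_one, ← sq, ha]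
        have hb' : b⁻¹ = b := by rw [inv_eq_iff_mul_eq_one, ← sq, hb]
        have h2 : (a * b)⁻¹ = a * b := by rw [inv_eq_iff_mul_eq_one, ← sq, h1]
        rw [← h2, mul_inv_rev, ha', hb'] }
  rw [← card_hom_intUnits (E := G ⧸ frattini G) hsq]
  apply Nat.card_le_card_of_injective
    (fun l : (G ⧸ frattini G) →* ℤˣ => l.comp (QuotientGroup.mk' (frattini G)))
  intro a b hab
  apply MonoidHom.ext
  intro e
  induction e using QuotientGroup.induction_on with
  | H x => exact DFunLike.congr_fun hab x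


theorem two_group_sq_count [Finite G] (hG : IsPGroup 2 G) (k : ℕ)
    (hgen : 2 ^ (2 * k + 1) ≤ Nat.card (G ⧸ frattini G)) :
    2 ^ (k + 1) ∣ Nat.card {x : G // x ^ 2 = 1} := by
  classical
  cases nonempty_fintype G
  haveI : Fact (Nat.Prime 2) := ⟨Nat.prime_two⟩
  haveI : Finite (IrrCharacter G) := Helper2.finite_irrCharacter
  haveI : Fintype (IrrCharacter G) := Fintype.ofFinite _
  have hdeg : ∀ χ : IrrCharacter G, ∃ d : ℕ, 0 < d ∧ χ.1 1 = d ∧ d ∣ Nat.card G :=
    fun χ => Helper2.IsIrrCharacter.exists_degree χ.2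
  choose deg hdeg0 hdeg1 hdeg2 using hdeg
  have hnu : ∀ χ : IrrCharacter G, ∃ z : ℤ, Helper25.fsInd χ.1 = z := by
    intro χ
    rcases Helper25.fsInd_trichotomy χ.2 with h | h | h
    · exact ⟨0, by simp [h]⟩
    · exact ⟨1, by simp [h]⟩
    · exact ⟨-1, by simp [h]⟩
  choose nu hnu using hnu
  let f : IrrCharacter G → ℤ := fun χ => nu χ * deg χ
  have hfC : ∀ χ, ((f χ : ℤ) : ℂ) = Helper25.fsInd χ.1 * χ.1 1 := by
    intro χ
    simp [f, hnu, hdeg1]
  have hcount : ((Nat.card {x : G // x ^ 2 = 1} : ℕ) : ℤ) = ∑ χ, f χ := by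
    have h1 := Helper25.card_sqrt_eq_sum (G := G) 1
    have h2 : Nat.card {x : G // x ^ 2 = 1}
        = (Finset.univ.filter (fun u : G => u * u = 1)).card := by
      rw [Nat.card_eq_fintype_card, Fintype.card_subtype]
      congr 1
      ext x
      simp [sq]
    have h3 : (((Nat.card {x : G // x ^ 2 = 1} : ℕ) : ℤ) : ℂ) = ((∑ χ, f χ : ℤ) : ℂ) := by
      push_cast
      rw [h2, h1]
      exact Finset.sum_congr rfl (fun χ _ => (hfC χ).symm)
    exact_mod_cast h3
  have hinv : ∀ (l : G →* ℤˣ) χ, f (l • χ) = f χ := by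
    intro l χ
    have : ((f (l • χ) : ℤ) : ℂ) = ((f χ : ℤ) : ℂ) := by
      rw [hfC, hfC]
      congr 1
      · unfold Helper25.fsInd
        congr 1
        refine Finset.sum_congr rfl (fun s _ => ?_)
        rw [twist_apply, map_mul]
        push_cast
        rw [intUnit_cast_mul_self, one_mul]
      · rw [twist_apply]
        simp
    exact_mod_cast this
  have hL : ∃ D, Nat.card (G →* ℤˣ) = 2 ^ D := by
    have : IsPGroup 2 (G →* ℤˣ) := fun l => ⟨1, by
      apply MonoidHom.ext
      intro g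
      simp⟩
    exact (IsPGroup.iff_card).1 this
  obtain ⟨D, hD⟩ := hL
  have hDk : 2 * k + 1 ≤ D := by
    have := hgen.trans (card_quotient_frattini_le_card_hom hG)
    rw [hD] at this
    exact (Nat.pow_le_pow_iff_right (by norm_num)).1 this
  obtain ⟨n, hn⟩ := (IsPGroup.iff_card).1 hG
  have hmain : ((2 : ℤ) ^ (k + 1)) ∣ ∑ χ, f χ := by
    apply dvd_sum_of_orbit (L := G →* ℤˣ) f hinv
    intro χ
    have h1 : Nat.card (MulAction.orbit (G →* ℤˣ) χ)
        * Nat.card (MulAction.stabilizer (G →* ℤˣ) χ) = 2 ^ D := by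
      rw [← hD]
      exact Nat.card_congr (MulAction.orbitProdStabilizerEquivGroup (G →* ℤˣ) χ) ▸
        (Nat.card_prod _ _).symm
    obtain ⟨a, -, ha⟩ := (Nat.dvd_prime_pow Nat.prime_two).1 (hn ▸ hdeg2 χ)
    obtain ⟨b, hbD, hb⟩ := (Nat.dvd_prime_pow Nat.prime_two).1 (Dvd.intro_left _ h1)
    have h2 := card_twist_stabilizer_le χ (deg χ) (hdeg1 χ)
    rw [hb, ha, ← pow_mul] at h2
    have hb2 : b ≤ a * 2 := (Nat.pow_le_pow_iff_right (by norm_num)).1 h2
    have ho : Nat.card (MulAction.orbit (G →* ℤˣ) χ) = 2 ^ (D - b) := by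
      rw [hb] at h1
      have h3 : (2 : ℕ) ^ D = 2 ^ (D - b) * 2 ^ b := by rw [← pow_add]; congr 1; omega
      rw [h3] at h1
      exact Nat.eq_of_mul_eq_mul_right (by positivity) h1
    show ((2 : ℤ) ^ (k + 1)) ∣ _ * (nu χ * (deg χ : ℤ))
    rw [ho, ha]
    have h4 : ((2 : ℤ) ^ (k + 1)) ∣ (2 : ℤ) ^ (D - b + a) := pow_dvd_pow _ (by omega)
    have h5 : (((2 ^ (D - b) : ℕ) : ℤ)) * (nu χ * ((2 ^ a : ℕ) : ℤ))
        = (2 : ℤ) ^ (D - b + a) * nu χ := by
      push_cast
      ring
    rw [h5]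
    exact Dvd.dvd.mul_right h4 _
  rw [← hcount] at hmain
  exact_mod_cast hmain

end Cfsg.Agent.Lib.Helper1
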