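import Mathlib
import Cfsg.Prelude.Def_Local

/-! Group theoretic part of the TI Sylow theorem for `p`-solvable groups. -/

set_option autoImplicit false

namespace Cfsg.Agent.Lib.Helper1

open Cfsg
open scoped Pointwise

variable {G : Type*} [Group G]

theorem ti_mem_of_pow (L : Subgroup G) {x : G} {a b : ℕ}
    (hab : Nat.Coprime a b) (ha : x ^ a ∈ L) (hb : x ^ b ∈ L) : x ∈ L := by
  have h0 := Nat.gcd_eq_gcd_ab a b
  rw [hab.gcd_eq_one] at h0
  have h1 : x = (x ^ a) ^ (Nat.gcdA a b) * (x ^ b) ^ (Nat.gcdB a b) := by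
    rw [← zpow_natCast, ← zpow_natCast, ← zpow_mul, ← zpow_mul, ← zpow_add, ← h0]
    simp
  rw [h1]
  exact L.mul_mem (L.zpow_mem ha _) (L.zpow_mem hb _)

/-- every `p`-element of `L` lies in `P`, if `P` centralizes the normal `p'`-subgroup `K` and
`L / K` is a `p`-group. -/
theorem ti_pelt_mem [Finite G] {p : ℕ} [Fact p.Prime] (P : Sylow p G) (K L : Subgroup G)
    [hKn : K.Normal] [hLn : L.Normal] (hK : (Nat.card K).Coprime p) {m : ℕ}
    (hm : K.relIndex L = p ^ m)
    (hcent : ∀ u ∈ P, ∀ k ∈ K, u * k = k * u) {y : G} (hy : y ∈ L) {a : ℕ}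
    (hya : y ^ p ^ a = 1) : y ∈ P := by
  have hf : Function.Surjective (QuotientGroup.mk' K) := QuotientGroup.mk'_surjective K
  have hLn' : (L.map (QuotientGroup.mk' K)).Normal := Subgroup.Normal.map hLn _ hf
  have hLp : IsPGroup p (L.map (QuotientGroup.mk' K)) := by
    rintro ⟨_, l, hl, rfl⟩
    refine ⟨m, Subtype.ext ?_⟩
    show (QuotientGroup.mk' K l) ^ p ^ m = 1
    rw [← map_pow, QuotientGroup.mk'_apply, QuotientGroup.eq_one_iff]
    have h1 := Subgroup.pow_index_mem (K.subgroupOf L) ⟨l, hl⟩
    rw [← Subgroup.relIndex, hm, Subgroup.mem_subgroupOf] at h1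
    exact h1
  have hle := hLp.le_sylow_of_normal (P.mapSurjective hf)
  have h1 : QuotientGroup.mk' K y ∈ (P.mapSurjective hf : Subgroup (G ⧸ K)) :=
    hle (Subgroup.mem_map_of_mem _ hy)
  rw [Sylow.coe_mapSurjective] at h1
  obtain ⟨u, hu, huy⟩ := h1
  have h2 : u⁻¹ * y ∈ K := by
    rw [← QuotientGroup.eq_one_iff, ← QuotientGroup.mk'_apply, map_mul, map_inv, huy,
      inv_mul_cancel]
  set k := u⁻¹ * y with hk
  have hyk : y = u * k := by rw [hk]; group
  have hcomm : Commute u k := hcent u hu k h2
  have h3 : y ^ Nat.card K ∈ (P : Subgroup G) := by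
    rw [hyk, hcomm.mul_pow]
    have h4 : k ^ Nat.card K = 1 := by
      have := pow_card_eq_one' (G := K) (x := ⟨k, h2⟩)
      exact congrArg Subtype.val this
    rw [h4, mul_one]
    exact Subgroup.pow_mem _ hu _
  exact ti_mem_of_pow (P : Subgroup G) (Nat.Coprime.pow_right a hK) h3
    (by rw [hya]; exact Subgroup.one_mem _)

theorem ti_normal_of_centralizes [Finite G] {p : ℕ} [hp : Fact p.Prime] (hsolv : IsPSolvable p G)
    (P : Sylow p G)
    (hTI : ∀ g : G, g ∉ Subgroup.normalizer ((P : Subgroup G) : Set G) →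
      (P : Subgroup G) ⊓ (MulAut.conj g • (P : Subgroup G)) = ⊥)
    (hcent : ∀ K : Subgroup G, K.Normal → (Nat.card K).Coprime p →
      ∀ u ∈ P, ∀ k ∈ K, u * k = k * u) : (P : Subgroup G).Normal := by
  obtain ⟨n, H, h0, hn, hmono, hnorm, hfac⟩ := hsolv
  have key : ∀ i : Fin (n + 1), (Nat.card (H i)).Coprime p ∨ (P : Subgroup G).Normal := by
    intro i
    induction i using Fin.induction with
    | zero => left; rw [h0]; simp
    | succ i ih =>
      rcases ih with ih | ih
      swap
      · exact Or.inr ih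
      have hAB : H i.castSucc ≤ H i.succ := hmono (Fin.castSucc_lt_succ).le
      haveI := hnorm i.castSucc
      haveI := hnorm i.succ
      have hcard : Nat.card (H i.succ) = (H i.castSucc).relIndex (H i.succ) *
          Nat.card (H i.castSucc) := by
        have := Subgroup.relIndex_mul_relIndex ⊥ (H i.castSucc) (H i.succ) bot_le hAB
        rw [Subgroup.relIndex_bot_left, Subgroup.relIndex_bot_left] at this
        rw [← this, mul_comm]
      by_cases hc : (Nat.card (H i.succ)).Coprime p
      · exact Or.inl hc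
      right
      rcases hfac i with ⟨m, hm⟩ | hcop
      swap
      · exact absurd (by rw [hcard]; exact Nat.Coprime.mul_left hcop ih) hc
      have hdvd : p ∣ Nat.card (H i.succ) := by
        by_contra h
        exact hc ((Nat.Prime.coprime_iff_not_dvd hp.out).2 h).symm
      obtain ⟨x, hx⟩ := exists_prime_orderOf_dvd_card' (G := H i.succ) p hdvd
      have hx1 : (x : G) ≠ 1 := by
        intro h
        have : x = 1 := Subtype.ext h
        rw [this, orderOf_one] at hx
        exact hp.out.one_lt.ne hx
      have hxp : (x : G) ^ p ^ 1 = 1 := by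
        rw [pow_one]
        have := pow_orderOf_eq_one x
        rw [hx] at this
        exact congrArg Subtype.val this
      have hall : ∀ g : G, g * x * g⁻¹ ∈ (P : Subgroup G) := by
        intro g
        refine ti_pelt_mem P (H i.castSucc) (H i.succ) ih hm (hcent _ (hnorm _) ih)
          ((hnorm i.succ).conj_mem x x.2 g) (a := 1) ?_
        rw [conj_pow, hxp]; group
      rw [← Subgroup.normalizer_eq_top_iff, eq_top_iff]
      intro g _
      by_contra hg
      have h1 := hTI g hg
      have h2 : (x : G) ∈ (P : Subgroup G) ⊓ (MulAut.conj g • (P : Subgroup G)) := by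
        refine Subgroup.mem_inf.2 ⟨by simpa using hall 1, ?_⟩
        rw [Subgroup.mem_pointwise_smul_iff_inv_smul_mem]
        have := hall g⁻¹
        simpa using this
      rw [h1, Subgroup.mem_bot] at h2
      exact hx1 h2
  rcases key (Fin.last n) with h | h
  · rw [hn] at h
    have h1 : Nat.card (P : Subgroup G) ∣ Nat.card G := Subgroup.card_subgroup_dvd_card _
    obtain ⟨k, hk⟩ := IsPGroup.iff_card.1 P.isPGroup'
    have h2 : (Nat.card (P : Subgroup G)).Coprime p :=
      Nat.Coprime.coprime_dvd_left h1 (by simpa using h)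
    have h3 : Nat.card (P : Subgroup G) = 1 := by
      rcases Nat.eq_zero_or_pos k with rfl | hkpos
      · simpa using hk
      · exfalso
        rw [hk] at h2
        have := (Nat.coprime_pow_left_iff hkpos p p).1 h2
        rw [Nat.coprime_self] at this
        exact hp.out.one_lt.ne' this
    have h4 : (P : Subgroup G) = ⊥ := Subgroup.card_eq_one.1 h3
    rw [h4]; infer_instance
  · exact h

end Cfsg.Agent.Lib.Helper1
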