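import Mathlib
import Cfsg.Agent.Lib.Helper25.Glaub9
import Cfsg.Agent.Lib.Helper2.CharKer

/-! Character values on a `p`-group acting on a `p'`-group with constant fixed points. -/

set_option autoImplicit false
set_option linter.style.haveILetI false

namespace Cfsg.Agent.Lib.Helper1

open Cfsg Cfsg.Agent.Lib.Helper25
open scoped ComplexConjugate

universe u

variable {Γ : Type u} [Group Γ]

theorem ti_shift [Finite Γ] (K : Subgroup Γ) [hK : K.Normal] (C : Subgroup Γ) [Fintype C]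
    {p : ℕ} (hp : p.Prime) (hcop : (Nat.card K).Coprime p) {Ξ : Γ → ℂ}
    (hΞ : IsIrrCharacter Γ Ξ) (hres : IsIrrCharacter K (fun g : K => Ξ g))
    (t : Γ) {a : ℕ} (ht : orderOf t = p ^ a) (hC : C = fixSub K t) :
    ∃ β : C → ℂ, IsIrrCharacter C β ∧
      (∃ M : ℕ, classInner (fun c : C => Ξ c) β = M ∧ ¬ p ∣ M) ∧
      (∀ ξ : C → ℂ, IsIrrCharacter C ξ → ∀ M : ℕ, classInner (fun c : C => Ξ c) ξ = M →
        ¬ p ∣ M → ξ = β) ∧
      Ξ t * conj (Ξ t) = β 1 * conj (β 1) := by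
  classical
  have : Finite (IrrCharacter C) := Helper2.finite_irrCharacter
  let _ : Fintype (IrrCharacter C) := Fintype.ofFinite _
  have hct : ∀ c ∈ C, c * t = t * c := fun c hc => (mem_fixSub.1 (hC ▸ hc)).2
  have hcopa : (Nat.card K).Coprime (p ^ a) := Nat.Coprime.pow_right a hcop
  have hΞc := Helper7.isCharacter_of_irr hΞ
  obtain ⟨⟨β, hβ, h0⟩, huniq, h3⟩ := glaub_analysis C t hct hp ht hΞc (by
      intro k hk
      have hk' : k.Coprime (orderOf t) := by rw [ht]; exact hk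
      exact (classInner_shift K (t ^ k) C (hC.trans (fixSub_pow K t hk').symm)
        (Nat.Coprime.coprime_dvd_right (orderOf_pow_dvd k) (by rw [ht]; exact hcopa))
        hΞ hΞ hres hres).1)
  have hcl := isClassFunction_shift_fix C t hct (Helper7.isClassFunction_of_isCharacter hΞc)
  have hn1 := (classInner_shift K t C hC (by rw [ht]; exact hcopa) hΞ hΞ hres hres).1
  have hzero : ∀ ξ : IrrCharacter C, ξ ≠ ⟨β, hβ⟩ →
      classInner (fun c : C => Ξ (c * t)) (ξ : C → ℂ) = 0 := by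
    intro ξ hξ
    by_contra h1
    exact hξ (Subtype.ext (huniq ξ β ξ.2 hβ h1 h0))
  refine ⟨β, hβ, ?_, ?_, ?_⟩
  · obtain ⟨M, hM⟩ := Helper7.classInner_char_nat (Helper7.isCharacter_restrict hΞc C)
      (Helper7.isCharacter_of_irr hβ)
    exact ⟨M, hM, not_dvd_of_modEq_pm hp ((h3 β hβ M hM).2 h0)⟩
  · intro ξ hξ M hM hpM
    refine huniq ξ β hξ hβ ?_ h0
    intro h1
    exact hpM ((h3 ξ hξ M hM).1 h1)
  · set A := classInner (fun c : C => Ξ (c * t)) β with hA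
    have hAA : A * conj A = 1 := by
      rw [Helper7.classInner_eq_sum hcl, Finset.sum_eq_single (⟨β, hβ⟩ : IrrCharacter C)] at hn1
      · exact hn1
      · intro ξ _ hξ
        rw [hzero ξ hξ, zero_mul]
      · intro h1; exact absurd (Finset.mem_univ _) h1
    have hf : (fun c : C => Ξ (c * t)) = A • β := by
      conv_lhs => rw [Helper7.classFunction_eq_sum hcl]
      rw [Finset.sum_eq_single (⟨β, hβ⟩ : IrrCharacter C)]
      · intro ξ _ hξ
        rw [hzero ξ hξ, zero_smul]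
      · intro h1; exact absurd (Finset.mem_univ _) h1
    have h1 : Ξ t = A * β 1 := by
      have := congrFun hf 1
      simpa using this
    rw [h1, map_mul]
    calc A * β 1 * (conj A * conj (β 1)) = (A * conj A) * (β 1 * conj (β 1)) := by ring
      _ = _ := by rw [hAA, one_mul]

theorem ti_norm [Finite Γ] (K P : Subgroup Γ) [hK : K.Normal] {p : ℕ} (hp : p.Prime)
    (hcop : (Nat.card K).Coprime p) (hP : IsPGroup p P) (C : Subgroup Γ)
    (hC : ∀ u ∈ P, u ≠ 1 → C = fixSub K u) {Ξ : Γ → ℂ}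
    (hΞ : IsIrrCharacter Γ Ξ) (hres : IsIrrCharacter K (fun g : K => Ξ g)) (d : ℕ)
    (hd : Ξ 1 = d) (hdeg : d ^ 2 ≤ Nat.card P) :
    ∀ u ∈ P, Ξ u * conj (Ξ u) = (d : ℂ) ^ 2 := by
  classical
  cases nonempty_fintype Γ
  have hΞc := Helper7.isCharacter_of_irr hΞ
  by_cases hbot : ∀ u ∈ P, u = 1
  · intro u hu
    rw [hbot u hu, hd]; simp [sq]
  push Not at hbot
  obtain ⟨u₀, hu₀, hu₀1⟩ := hbot
  have hord : ∀ u ∈ P, ∃ a : ℕ, orderOf u = p ^ a := by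
    intro u hu
    haveI : Fact p.Prime := ⟨hp⟩
    obtain ⟨a, ha⟩ := IsPGroup.iff_orderOf.1 hP ⟨u, hu⟩
    exact ⟨a, by rw [← ha]; simp⟩
  obtain ⟨a₀, ha₀⟩ := hord u₀ hu₀
  obtain ⟨β, hβ, ⟨M, hM, hpM⟩, -, hv₀⟩ := ti_shift K C hp hcop hΞ hres u₀ ha₀ (hC u₀ hu₀ hu₀1)
  obtain ⟨b, hb0, hb⟩ := Helper7.irr_apply_one hβ
  have hval : ∀ u ∈ P, u ≠ 1 → Ξ u * conj (Ξ u) = (b : ℂ) ^ 2 := by
    intro u hu hu1
    obtain ⟨a, ha⟩ := hord u hu
    obtain ⟨β', hβ', -, huq, hv⟩ := ti_shift K C hp hcop hΞ hres u ha (hC u hu hu1)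
    have : β = β' := huq β hβ M hM hpM
    rw [hv, ← this, hb]; simp [sq]
  -- b ≤ d
  have hbd : b ≤ d := by
    have h1 := Helper7.char_norm_le hΞc u₀
    rw [hd] at h1
    have h2 := hval u₀ hu₀ hu₀1
    rw [Complex.mul_conj, Complex.normSq_eq_norm_sq] at h2
    have h3 : ‖Ξ u₀‖ ^ 2 = (b : ℝ) ^ 2 := by exact_mod_cast h2
    have h4 : ‖Ξ u₀‖ = b := (sq_eq_sq₀ (norm_nonneg _) (Nat.cast_nonneg b)).1 h3
    rw [h4] at h1
    simpa using h1
  obtain ⟨n, hn⟩ := Helper7.classInner_char_nat (Helper7.isCharacter_restrict hΞc P)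
    (Helper7.isCharacter_restrict hΞc P)
  have hsum : ∑ u : P, Ξ u * conj (Ξ u) = (d : ℂ) ^ 2 + ((Nat.card P : ℂ) - 1) * (b : ℂ) ^ 2 := by
    rw [← Finset.add_sum_erase Finset.univ _ (Finset.mem_univ (1 : P))]
    congr 1
    · rw [Subgroup.coe_one, hd]; simp [sq]
    · rw [Finset.sum_congr rfl (g := fun _ => (b : ℂ) ^ 2)]
      · rw [Finset.sum_const, Finset.card_erase_of_mem (Finset.mem_univ _), Finset.card_univ,
          nsmul_eq_mul, Nat.card_eq_fintype_card, Nat.cast_sub Fintype.card_pos]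
        simp
      · intro u hu
        exact hval u u.2 (fun h => (Finset.mem_erase.1 hu).1 (Subtype.ext h))
  have hNP : (Nat.card P : ℂ) ≠ 0 := by exact_mod_cast Nat.card_pos.ne'
  have hmain : (Nat.card P : ℂ) * n = (d : ℂ) ^ 2 + ((Nat.card P : ℂ) - 1) * (b : ℂ) ^ 2 := by
    rw [← hsum, ← hn]
    unfold classInner
    rw [← mul_assoc, mul_inv_cancel₀ hNP, one_mul]
  have hmainZ : (Nat.card P : ℤ) * n = (d : ℤ) ^ 2 + ((Nat.card P : ℤ) - 1) * (b : ℤ) ^ 2 := by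
    exact_mod_cast hmain
  have hdvd : (Nat.card P : ℤ) ∣ (d : ℤ) ^ 2 - (b : ℤ) ^ 2 :=
    ⟨(n : ℤ) - (b : ℤ) ^ 2, by linarith⟩
  have hnn : (0 : ℤ) ≤ (d : ℤ) ^ 2 - (b : ℤ) ^ 2 := by
    have : (b : ℤ) ≤ d := by exact_mod_cast hbd
    nlinarith
  have hlt : (d : ℤ) ^ 2 - (b : ℤ) ^ 2 < Nat.card P := by
    have h1 : (d : ℤ) ^ 2 ≤ Nat.card P := by exact_mod_cast hdeg
    have h2 : (1 : ℤ) ≤ b := by exact_mod_cast hb0
    nlinarith
  have hz : (d : ℤ) ^ 2 - (b : ℤ) ^ 2 = 0 := Int.eq_zero_of_dvd_of_nonneg_of_lt hnn hlt hdvd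
  have hdb : (d : ℂ) ^ 2 = (b : ℂ) ^ 2 := by
    have : (d : ℤ) ^ 2 = (b : ℤ) ^ 2 := by linarith
    exact_mod_cast this
  intro u hu
  by_cases hu1 : u = 1
  · rw [hu1, hd]; simp [sq]
  · rw [hval u hu hu1, hdb]

/-- elements on which a character has maximal norm are central modulo the kernel. -/
theorem ti_comm_ker [Finite Γ] {Ξ : Γ → ℂ} (hΞ : IsCharacter Γ Ξ) (d : ℕ) (hd : Ξ 1 = d)
    {u : Γ} (hu : Ξ u * conj (Ξ u) = (d : ℂ) ^ 2) (k : Γ) : Ξ (u * k * u⁻¹ * k⁻¹) = Ξ 1 := by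
  obtain ⟨m, ρ, rfl⟩ := hΞ
  rw [Representation.char_one] at hd
  have hdm : (Module.finrank ℂ (Fin m → ℂ) : ℝ) = d := by exact_mod_cast hd
  have h1 : ‖ρ.character u‖ = (Module.finrank ℂ (Fin m → ℂ) : ℝ) := by
    rw [Complex.mul_conj, Complex.normSq_eq_norm_sq] at hu
    have h3 : ‖ρ.character u‖ ^ 2 = (d : ℝ) ^ 2 := by exact_mod_cast hu
    rw [hdm]
    exact (sq_eq_sq₀ (norm_nonneg _) (Nat.cast_nonneg d)).1 h3
  obtain ⟨ω, hω⟩ := (Helper2.norm_char_eq_iff ρ u).1 h1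
  have h2 : ρ (u * k) = ρ (k * u) := by
    rw [map_mul, map_mul, hω]
    ext v
    simp
  have h3 : ρ (u * k * u⁻¹ * k⁻¹) = ρ 1 := by
    have : u * k * u⁻¹ * k⁻¹ = (u * k) * (u⁻¹ * k⁻¹) := by group
    rw [this, map_mul, h2, ← map_mul]
    congr 1
    group
  simp only [Representation.character, h3]

end Cfsg.Agent.Lib.Helper1
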