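import Mathlib
import Cfsg.Agent.Lib.Helper1.TISylB
import Cfsg.Agent.Lib.Helper25.Glaub13
import Cfsg.Agent.Lib.Helper25.Glaub15
import Cfsg.Agent.Lib.Helper25.Cop3

/-! A `p`-group acting on a `p'`-group with constant fixed points: small faithful characters. -/

set_option autoImplicit false
set_option linter.style.haveILetI false

namespace Cfsg.Agent.Lib.Helper1

open Cfsg Cfsg.Agent.Lib.Helper25
open scoped ComplexConjugate

universe u

variable {Γ : Type u} [Group Γ]

theorem ti_inv_of_one [Finite Γ] (K P : Subgroup Γ) (hsolv : Group.IsSolvable P)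
    (hnorm : ∀ s ∈ P, ∀ g ∈ K, s * g * s⁻¹ ∈ K) (hcop : (Nat.card K).Coprime (Nat.card P))
    (u : Γ) (hu : u ∈ P) (hfix : fixSub K u = K ⊓ Subgroup.centralizer (P : Set Γ))
    (θ : IrrCharacter K) (hθ : (θ : K → ℂ) ∘ conjAut K u (hnorm u hu) = (θ : K → ℂ)) :
    InvUnder K P (θ : K → ℂ) := by
  have hou : orderOf u ∣ Nat.card P := by
    have := orderOf_dvd_natCard (⟨u, hu⟩ : P)
    rwa [Subgroup.orderOf_mk] at this
  have h1 := card_irr_fixSub K u (hnorm u hu) (Nat.Coprime.coprime_dvd_right hou hcop)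
  have h2 := card_irr_inv K P hsolv hnorm hcop
  rw [hfix, ← h2] at h1
  have : Finite (IrrCharacter K) := Helper2.finite_irrCharacter
  let ι : {χ : IrrCharacter K // InvUnder K P (χ : K → ℂ)} →
      {χ : IrrCharacter K // (χ : K → ℂ) ∘ conjAut K u (hnorm u hu) = (χ : K → ℂ)} :=
    fun χ => ⟨χ.1, (invUnder_iff_forall K P hnorm _).1 χ.2 u hu⟩
  have hinj : Function.Injective ι := by
    intro a b hab
    apply Subtype.ext
    exact congrArg (fun z => z.1) hab
  have hbij := hinj.bijective_of_nat_card_le h1.le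
  obtain ⟨χ, hχ⟩ := hbij.2 ⟨θ, hθ⟩
  have : χ.1 = θ := congrArg (fun z => z.1) hχ
  rw [← this]
  exact χ.2

theorem ti_orbit [Finite Γ] (K P : Subgroup Γ) [hK : K.Normal] [Fintype K] {χ : Γ → ℂ}
    (hχ : IsCharacter Γ χ) (d : ℕ) (hd : χ 1 = d) (θ : IrrCharacter K)
    (hθ : classInner (fun k : K => χ k) (θ : K → ℂ) ≠ 0)
    (hfree : ∀ u ∈ P, u ≠ 1 →
      (θ : K → ℂ) ∘ conjAut K u (fun g hg => hK.conj_mem g hg u) ≠ (θ : K → ℂ)) :
    Nat.card P ≤ d := by
  classical
  let _ : Fintype P := Fintype.ofFinite _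
  have : Finite (IrrCharacter K) := Helper2.finite_irrCharacter
  let _ : Fintype (IrrCharacter K) := Fintype.ofFinite _
  have hnorm : ∀ m ∈ P, ∀ n ∈ K, m * n * m⁻¹ ∈ K := fun m _ n hn => hK.conj_mem n hn m
  set ρ := (irrPerm K).comp (conjAutHom K P hnorm) with hρ
  have hρv : ∀ (w : P) (η : IrrCharacter K),
      ((ρ w η : IrrCharacter K) : K → ℂ) = (η : K → ℂ) ∘ (conjAut K w (hnorm w w.2)).symm :=
    fun w η => rfl
  have hinj : Function.Injective (fun u : P => ρ u θ) := by
    intro a b hab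
    have h1 : ρ (b⁻¹ * a) θ = θ := by
      rw [map_mul, map_inv, Equiv.Perm.mul_apply]
      show (ρ b)⁻¹ (ρ a θ) = θ
      have hab' : ρ a θ = ρ b θ := hab
      rw [hab']; simp
    by_contra hne
    have hw : ((b⁻¹ * a : P) : Γ) ≠ 1 := by
      intro h
      have : b⁻¹ * a = 1 := Subtype.ext h
      exact hne (by rw [inv_mul_eq_one] at this; exact this.symm)
    apply hfree _ (b⁻¹ * a : P).2 hw
    have h2 := congrArg Subtype.val h1
    rw [hρv] at h2
    conv_lhs => rw [← h2]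
    ext x
    simp
  have hχK := Helper7.isCharacter_restrict hχ K
  obtain ⟨m, hm, hsum⟩ := Helper7.character_eq_sum_nat hχK
  have hcl := Helper7.isClassFunction_of_isCharacter hχ
  have hminv : ∀ w : P, m (ρ w θ) = m θ := by
    intro w
    have h1 : classInner (fun k : K => χ k) ((ρ w θ : IrrCharacter K) : K → ℂ) =
        classInner (fun k : K => χ k) (θ : K → ℂ) := by
      have h0 : (fun k : K => χ k) ∘ (conjAut K w (hnorm w w.2)).symm = (fun k : K => χ k) := by
        ext k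
        show χ ((conjAut K w (hnorm w w.2)).symm k : K) = χ k
        set k' := (conjAut K w (hnorm w w.2)).symm k with hk'
        have h2 : k = conjAut K w (hnorm w w.2) k' := by rw [hk']; simp
        rw [h2, conjAut_apply]
        exact (hcl _ _).symm
      rw [hρv]
      have h3 := classInner_comp_equiv (conjAut K w (hnorm w w.2)).symm (fun k : K => χ k)
        (θ : K → ℂ)
      rw [h0] at h3
      exact h3
    rw [hm, hm] at h1
    exact_mod_cast h1
  have hmθ : 0 < m θ := by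
    rw [hm] at hθ
    exact Nat.pos_of_ne_zero (by exact_mod_cast hθ)
  choose e he0 he using fun η : IrrCharacter K => Helper7.irr_apply_one η.2
  have hdsum : d = ∑ η : IrrCharacter K, m η * e η := by
    have h1 := congrFun hsum 1
    simp only [Finset.sum_apply, Pi.smul_apply, he, Subgroup.coe_one, hd] at h1
    simp only [nsmul_eq_mul] at h1
    exact_mod_cast h1
  rw [hdsum, Nat.card_eq_fintype_card, ← Finset.card_univ,
    ← Finset.card_image_of_injective Finset.univ hinj, Finset.card_eq_sum_ones]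
  refine le_trans (Finset.sum_le_sum ?_) (Finset.sum_le_sum_of_subset (Finset.subset_univ _))
  intro η hη
  obtain ⟨w, -, rfl⟩ := Finset.mem_image.1 hη
  have h1 : 0 < m (ρ w θ) := by rw [hminv]; exact hmθ
  exact Nat.mul_pos h1 (he0 _)

theorem ti_core {X : Type u} [Group X] [Finite X] (K P : Subgroup X) [hK : K.Normal] {p : ℕ}
    (hp : p.Prime) (hKP : K ⊔ P = ⊤) (hcop : (Nat.card K).Coprime p) (hP : IsPGroup p P)
    (hfix : ∀ u ∈ P, u ≠ 1 → ∀ k ∈ K, k * u = u * k → ∀ v ∈ P, k * v = v * k)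
    {χ : X → ℂ} (hχ : IsCharacter X χ) (hfaith : ∀ k ∈ K, χ k = χ 1 → k = 1)
    (d : ℕ) (hd : χ 1 = d) (hdeg : d ^ 2 ≤ Nat.card P) :
    ∀ u ∈ P, ∀ k ∈ K, u * k = k * u := by
  classical
  cases nonempty_fintype X
  have : Finite (IrrCharacter K) := Helper2.finite_irrCharacter
  let _ : Fintype (IrrCharacter K) := Fintype.ofFinite _
  haveI : Fact p.Prime := ⟨hp⟩
  by_cases hbot : ∀ u ∈ P, u = 1
  · intro u hu k _
    rw [hbot u hu]; simp
  have hP1 : 1 < Nat.card P := by
    push Not at hbot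
    obtain ⟨u₀, hu₀, hu₀1⟩ := hbot
    haveI : Nontrivial P := ⟨⟨u₀, hu₀⟩, 1, fun h => hu₀1 (congrArg Subtype.val h)⟩
    exact Finite.one_lt_card
  have hnorm : ∀ s ∈ P, ∀ g ∈ K, s * g * s⁻¹ ∈ K := fun m _ n hn => hK.conj_mem n hn m
  obtain ⟨r, hr⟩ := IsPGroup.iff_card.1 hP
  have hcop' : (Nat.card K).Coprime (Nat.card P) := by rw [hr]; exact Nat.Coprime.pow_right r hcop
  have hsolv : Group.IsSolvable P := by
    haveI := hP.isNilpotent
    infer_instance
  set C := K ⊓ Subgroup.centralizer (P : Set X) with hCdef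
  have hC : ∀ u ∈ P, u ≠ 1 → C = fixSub K u := by
    intro u hu hu1
    ext x
    rw [hCdef, mem_fixSub, Subgroup.mem_inf, Subgroup.mem_centralizer_iff]
    constructor
    · rintro ⟨hx, h⟩
      exact ⟨hx, (h u hu).symm⟩
    · rintro ⟨hx, h⟩
      exact ⟨hx, fun v hv => (hfix u hu hu1 x hx h v hv).symm⟩
  have hχK := Helper7.isCharacter_restrict hχ K
  obtain ⟨m, hm, hsum⟩ := Helper7.character_eq_sum_nat hχK
  choose e he0 he using fun η : IrrCharacter K => Helper7.irr_apply_one η.2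
  have hdsum : d = ∑ η : IrrCharacter K, m η * e η := by
    have h1 := congrFun hsum 1
    simp only [Finset.sum_apply, Pi.smul_apply, he, Subgroup.coe_one, hd] at h1
    simp only [nsmul_eq_mul] at h1
    exact_mod_cast h1
  obtain ⟨π, hπK, hπH⟩ := exists_retract K P hKP hcop'
  have hker : ∀ θ : IrrCharacter K, m θ ≠ 0 → ∀ u ∈ P, ∀ k : K, ∀ c : K,
      (c : X) = u * k * u⁻¹ * (k : X)⁻¹ → (θ : K → ℂ) c = (θ : K → ℂ) 1 := by
    intro θ hmθ u hu k c hc
    have hinv : InvUnder K P (θ : K → ℂ) := by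
      by_contra hni
      have h1 : Nat.card P ≤ d := by
        refine ti_orbit K P hχ d hd θ (by rw [hm]; exact_mod_cast hmθ) ?_
        intro w hw hw1 h2
        exact hni (ti_inv_of_one K P hsolv hnorm hcop' w hw (hC w hw hw1).symm θ h2)
      have h2 : d ^ 2 ≤ d := hdeg.trans h1
      have h3 : 1 < d := lt_of_lt_of_le hP1 h1
      nlinarith
    obtain ⟨Ξ, hΞ, hΞK⟩ := exists_ext_of_invUnder K P π hπK hπH hcop' θ.2 hinv
    have hres : IsIrrCharacter K (fun g : K => Ξ g) := by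
      have : (fun g : K => Ξ g) = (θ : K → ℂ) := funext hΞK
      rw [this]; exact θ.2
    have hΞ1 : Ξ 1 = e θ := by
      have := hΞK 1
      rw [Subgroup.coe_one] at this
      rw [this, he]
    have hle : e θ ≤ d := by
      rw [hdsum]
      refine le_trans ?_ (Finset.single_le_sum (f := fun η => m η * e η)
        (fun _ _ => Nat.zero_le _) (Finset.mem_univ θ))
      exact Nat.le_mul_of_pos_left _ (Nat.pos_of_ne_zero hmθ)
    have hdeg' : e θ ^ 2 ≤ Nat.card P := (Nat.pow_le_pow_left hle 2).trans hdeg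
    have h1 := ti_norm K P hp hcop hP C hC hΞ hres (e θ) hΞ1 hdeg' u hu
    have h2 := ti_comm_ker (Helper7.isCharacter_of_irr hΞ) (e θ) hΞ1 h1 k
    rw [← hΞK, ← hΞK, hc, h2, Subgroup.coe_one]
  intro u hu k hk
  have hc : u * k * u⁻¹ * k⁻¹ ∈ K := K.mul_mem (hnorm u hu k hk) (K.inv_mem hk)
  have h1 : χ (u * k * u⁻¹ * k⁻¹) = χ 1 := by
    have h2 := congrFun hsum ⟨_, hc⟩
    have h3 := congrFun hsum 1
    simp only [Finset.sum_apply, Pi.smul_apply, Subgroup.coe_one] at h2 h3
    rw [h2, h3]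
    apply Finset.sum_congr rfl
    intro θ _
    by_cases hmθ : m θ = 0
    · rw [hmθ]; simp
    · rw [hker θ hmθ u hu ⟨k, hk⟩ ⟨_, hc⟩ rfl]
  have h2 := hfaith _ hc h1
  have : u * k = (u * k * u⁻¹ * k⁻¹) * (k * u) := by group
  rw [this, h2, one_mul]

end Cfsg.Agent.Lib.Helper1
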